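import Cfsg.Agent.FT.BG4.Elem
import Cfsg.Agent.FT.BG4Defs
import Cfsg.Agent.Trans.ClassTwo
import Cfsg.Agent.Solv.Omega
import Cfsg.Agent.Solv.MinNormal

/-! A nontrivial `p`-group of rank at most two (`p` odd) has a proper characteristic subgroup of
index at most `p ^ 2`. -/

open Subgroup
open scoped commutatorElement

namespace Cfsg.Lib.Trans

open Cfsg.Lib.Solv Cfsg.Lib.FT Cfsg.Lib.FT.BG4

universe u

variable {p : ℕ}

/-- If all elements of order `p` lie in the central elementary abelian subgroup `Z`, the rank of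
`Q / Z` is bounded by that of `Q`. -/
theorem pRankLE_quotient_of_pCentral {Q : Type*} [Group Q] [Finite Q] [hp : Fact p.Prime]
    (hp2 : p ≠ 2) {k : ℕ} (hr : PRankLE p k Q) (Z : Subgroup Q) [Z.Normal]
    (hZ : IsElementaryAbelian p Z) (hc : Z ≤ center Q) (hΩ : ∀ x : Q, x ^ p = 1 → x ∈ Z) :
    PRankLE p k (Q ⧸ Z) := by
  intro E hE hEp
  have hodd : Odd p := hp.out.odd_of_ne_two hp2
  set π := QuotientGroup.mk' Z
  have hpow : ∀ x : Q, π x ∈ E → x ^ p ∈ Z := by
    intro x hx
    rw [← QuotientGroup.eq_one_iff]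
    exact (map_pow π x p).trans (hEp _ hx)
  have hcomm : ∀ x y : Q, π x ∈ E → π y ∈ E → ⁅y, x⁆ ∈ Z := by
    intro x y hx hy
    rw [← QuotientGroup.eq_one_iff]
    have : π ⁅y, x⁆ = 1 := by
      rw [map_commutatorElement, commutatorElement_eq_one_iff_mul_comm]
      exact PG.mul_comm_of_mem hy hx
    exact this
  have hmul : ∀ x y : Q, π x ∈ E → π y ∈ E → (x * y) ^ p = x ^ p * y ^ p := by
    intro x y hx hy
    have h := hcomm x y hx hy
    have hc' := mem_center_iff.mp (hc h)
    exact mul_pow_of_odd_of_commutator_pow_eq_one (hc' x).symm (hc' y).symm hodd (hZ.2 _ h)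
  -- the map `E → Z`
  let f : E → Z := fun e => ⟨(Quotient.out (e : Q ⧸ Z)) ^ p, hpow _ (by
    have : π (Quotient.out (e : Q ⧸ Z)) = e := Quotient.out_eq _
    rw [this]; exact e.2)⟩
  have hf : Function.Injective f := by
    intro a b hab
    have ha : π (Quotient.out (a : Q ⧸ Z)) = a := Quotient.out_eq _
    have hb : π (Quotient.out (b : Q ⧸ Z)) = b := Quotient.out_eq _
    set x := Quotient.out (a : Q ⧸ Z)
    set y := Quotient.out (b : Q ⧸ Z)
    have hxy : x ^ p = y ^ p := congrArg Subtype.val hab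
    have h1 : (x⁻¹ * y) ^ p = 1 := by
      rw [hmul _ _ (by rw [map_inv, ha]; exact E.inv_mem a.2) (by rw [hb]; exact b.2), inv_pow,
        hxy, inv_mul_cancel]
    have h2 : π (x⁻¹ * y) = 1 := (QuotientGroup.eq_one_iff _).mpr (hΩ _ h1)
    rw [map_mul, map_inv, ha, hb, inv_mul_eq_one] at h2
    exact Subtype.ext h2
  exact (Nat.card_le_card_of_injective f hf).trans (hr Z hZ.1 hZ.2)

theorem exists_char_index_le_of_not_central {Q : Type*} [Group Q] [Finite Q] [hp : Fact p.Prime]
    (hp2 : p ≠ 2) (hQ : IsPGroup p Q) (hr : PRankLE p 2 Q) (Z : Subgroup Q) [Z.Normal]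
    (hZ : IsElementaryAbelian p Z)
    (hmax : ∀ B : Subgroup Q, B.Normal → IsElementaryAbelian p B → Z ≤ B → B = Z)
    (hc : ¬ Z ≤ center Q) : ∃ C : Subgroup Q, C.Characteristic ∧ C ≠ ⊤ ∧ C.index ≤ p ^ 2 := by
  classical
  have hodd : Odd p := hp.out.odd_of_ne_two hp2
  let W : Set Q := {x | x ∈ Subgroup.upperCentralSeries Q 2 ∧ x ^ p = 1}
  have hZc : Nat.card Z ≤ p ^ 2 := hr Z hZ.1 hZ.2
  have hZW : (Z : Set Q) ⊆ W := fun z hz =>
    ⟨PG.le_upperCentralSeries_of_card_le hQ Z hZc hz, hZ.2 z hz⟩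
  have := hZ.1
  -- `Z₀ = Ω₁(Z(Q))`
  let Z₀ : Subgroup Q := abelianOmega p (center Q)
  have hZ₀Z : Z₀ ≤ Z := by
    intro x hx
    refine mem_of_maximal_normal_elementary hp2 hQ hZ hmax ?_ hx.2
    exact center_le_centralizer _ hx.1
  have hZ₀c : Nat.card Z₀ ≤ p := by
    have hlt : Z₀ < Z := lt_of_le_of_ne hZ₀Z fun h => hc (h ▸ abelianOmega_le _)
    have h1 : Nat.card Z₀ < p ^ (1 + 1) := lt_of_lt_of_le (card_lt_of_lt hlt) hZc
    simpa using le_pow_of_lt_pow_succ ((hQ.to_subgroup Z₀).exists_card_eq) h1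
  have hWc : ∀ w ∈ W, ∀ x : Q, ⁅x, w⁆ ∈ Z₀ := by
    intro w hw x
    have h1 : ⁅w, x⁆ ∈ center Q := mem_upperCentralSeries_two.mp hw.1 x
    have h2 : ⁅w, x⁆ ^ p = 1 := by
      rw [← commutatorElement_pow_left_of_commute (mem_center_iff.mp h1 w).symm, hw.2]
      simp
    rw [← commutatorElement_inv]
    exact Z₀.inv_mem ⟨h1, h2⟩
  refine ⟨centralizer W, ?_, ?_, ?_⟩
  · rw [characteristic_iff_le_comap]
    intro φ x hx
    rw [mem_comap, mem_centralizer_iff]
    intro w hw
    have hw' : φ.symm w ∈ W := by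
      refine ⟨?_, by rw [← map_pow, hw.2, map_one]⟩
      exact (characteristic_iff_le_comap.mp inferInstance φ.symm) hw.1
    have := congrArg φ (mem_centralizer_iff.mp hx _ hw')
    simpa using this
  · intro h
    apply hc
    intro z hz
    exact centralizer_eq_top_iff_subset.mp h (hZW hz)
  · have hidx : (centralizer (Z : Set Q)).index ≤ p := index_centralizer_le hQ Z hZc
    by_cases hWZ : W ⊆ Z
    · have : centralizer (Z : Set Q) ≤ centralizer W := centralizer_le hWZ
      refine (index_antitone this).trans (hidx.trans ?_)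
      exact Nat.le_self_pow two_ne_zero p
    · obtain ⟨b, hbW, hbZ⟩ := Set.not_subset.mp hWZ
      have hbC : b ∉ centralizer (Z : Set Q) := fun h =>
        hbZ (mem_of_maximal_normal_elementary hp2 hQ hZ hmax h hbW.2)
      have hCne : centralizer (Z : Set Q) ≠ ⊤ := fun h => hbC (h ▸ mem_top b)
      have hidx' : (centralizer (Z : Set Q)).index = p := by
        obtain ⟨n, hn⟩ := hQ.index (centralizer (Z : Set Q))
        rw [hn] at hidx ⊢
        have h1 : n ≤ 1 := by
          by_contra h
          have : p ^ 2 ≤ p ^ n := Nat.pow_le_pow_right hp.out.pos (by omega)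
          have h3 : p ^ 1 < p ^ 2 := Nat.pow_lt_pow_right hp.out.one_lt (by omega)
          simp only [pow_one] at h3; omega
        have h0 : n ≠ 0 := by
          rintro rfl
          exact hCne (index_eq_one.mp (by simpa using hn))
        have : n = 1 := by omega
        simp [this]
      have hle : centralizer (Z : Set Q) ⊓ centralizer {b} ≤ centralizer W := by
        intro g hg
        rw [mem_centralizer_iff]
        intro w hw
        -- `w = b ^ i * c` with `c ∈ C(Z)`
        have hcard : Nat.card (Q ⧸ centralizer (Z : Set Q)) = p := hidx'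
        have hb1 : (b : Q ⧸ centralizer (Z : Set Q)) ≠ 1 := fun h =>
          hbC ((QuotientGroup.eq_one_iff _).mp h)
        have hgen : zpowers (b : Q ⧸ centralizer (Z : Set Q)) = ⊤ :=
          zpowers_eq_top_of_prime_card hcard hb1
        have hw1 : (w : Q ⧸ centralizer (Z : Set Q)) ∈ Submonoid.powers (b : Q ⧸ centralizer (Z : Set Q)) := by
          rw [mem_powers_iff_mem_zpowers, hgen]; exact mem_top _
        obtain ⟨i, hi⟩ := hw1
        have hcC : (b ^ i)⁻¹ * w ∈ centralizer (Z : Set Q) := by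
          rw [← QuotientGroup.eq]
          simpa using hi
        have hcp : ((b ^ i)⁻¹ * w) ^ p = 1 := by
          have h1 : ⁅w, (b ^ i)⁻¹⁆ ∈ Z₀ := by
            rw [← commutatorElement_inv]; exact Z₀.inv_mem (hWc w hw _)
          have hc' := mem_center_iff.mp h1.1
          rw [mul_pow_of_odd_of_commutator_pow_eq_one (hc' _).symm (hc' _).symm hodd h1.2, hw.2,
            inv_pow, ← pow_mul, mul_comm i p, pow_mul, hbW.2]
          simp
        have hcZ := mem_of_maximal_normal_elementary hp2 hQ hZ hmax hcC hcp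
        have e1 : Commute ((b ^ i)⁻¹ * w) g := mem_centralizer_iff.mp hg.1 _ hcZ
        have e2 : Commute b g := mem_centralizer_iff.mp hg.2 b rfl
        have e3 : Commute (b ^ i * ((b ^ i)⁻¹ * w)) g := (e2.pow_left i).mul_left e1
        rw [mul_inv_cancel_left] at e3
        exact e3
      have hb : (centralizer ({b} : Set Q)).index ≤ p := by
        have := relIndex_centralizer_le_card (H := ⊤) (S := Z₀) (v := b) fun x _ => hWc b hbW x
        rw [relIndex_top_right] at this
        exact this.trans hZ₀c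
      calc (centralizer W).index ≤ (centralizer (Z : Set Q) ⊓ centralizer {b}).index :=
            index_antitone hle
        _ ≤ (centralizer (Z : Set Q)).index * (centralizer ({b} : Set Q)).index := index_inf_le
        _ ≤ p * p := Nat.mul_le_mul hidx hb
        _ = p ^ 2 := (sq p).symm

/-- A nontrivial `p`-group of rank at most `2`, `p` odd, has a proper characteristic subgroup of
index at most `p ^ 2`. -/
theorem exists_char_index_le_of_rank_two [hp : Fact p.Prime] (hp2 : p ≠ 2) :
    ∀ (n : ℕ) (Q : Type u) [Group Q] [Finite Q] [Nontrivial Q], Nat.card Q = n → IsPGroup p Q →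
      PRankLE p 2 Q → ∃ C : Subgroup Q, C.Characteristic ∧ C ≠ ⊤ ∧ C.index ≤ p ^ 2 := by
  intro n
  induction n using Nat.strong_induction_on with
  | _ n ih =>
  intro Q _ _ _ hn hQ hr
  obtain ⟨Z, -, hZn, hZ, hmax⟩ := exists_maximal_normal_elementary_ge (G := Q) (p := p) (E := ⊥)
    inferInstance ⟨inferInstance, fun a ha => by rw [mem_bot.mp ha, one_pow]⟩
  by_cases hc : Z ≤ center Q
  swap
  · exact exists_char_index_le_of_not_central hp2 hQ hr Z hZ hmax hc
  have hΩ : ∀ x : Q, x ^ p = 1 → x ∈ Z := fun x hx =>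
    mem_of_maximal_normal_elementary hp2 hQ hZ hmax
      (mem_centralizer_iff.mpr fun z hz => (mem_center_iff.mp (hc hz) x).symm) hx
  by_cases htop : Z = ⊤
  · refine ⟨⊥, inferInstance, bot_ne_top, ?_⟩
    rw [index_bot, ← card_top, ← htop]
    exact hr Z hZ.1 hZ.2
  have hZch : Z.Characteristic := by
    rw [characteristic_iff_le_comap]
    intro φ x hx
    exact hΩ _ (by rw [← map_pow, hZ.2 x hx, map_one])
  have : Nontrivial (Q ⧸ Z) := by
    rw [QuotientGroup.nontrivial_iff]; exact htop
  have hZ1 : Z ≠ ⊥ := by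
    obtain ⟨k, hk⟩ := hQ.exists_card_eq
    have hk0 : k ≠ 0 := by
      rintro rfl
      exact absurd hk (by simpa using (Finite.one_lt_card (α := Q)).ne')
    obtain ⟨x, hx⟩ := exists_prime_orderOf_dvd_card' (G := Q) p (hk ▸ dvd_pow_self p hk0)
    intro h
    have := hΩ x (hx ▸ pow_orderOf_eq_one x)
    rw [h, mem_bot] at this
    rw [this, orderOf_one] at hx
    exact hp.out.one_lt.ne hx
  have hlt : Nat.card (Q ⧸ Z) < n := by
    rw [← hn, card_eq_card_quotient_mul_card_subgroup Z]
    exact lt_mul_of_one_lt_right Nat.card_pos ((one_lt_card_iff_ne_bot Z).mpr hZ1)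
  obtain ⟨C, hC, hC1, hC2⟩ := ih _ hlt (Q ⧸ Z) rfl (hQ.to_quotient Z)
    (pRankLE_quotient_of_pCentral hp2 hr Z hZ hc hΩ)
  refine ⟨C.comap (QuotientGroup.mk' Z), Characteristic.comap_quotient_mk hC, ?_, ?_⟩
  · intro h
    apply hC1
    rw [← map_comap_eq_self_of_surjective (QuotientGroup.mk'_surjective Z) C, h,
      ← MonoidHom.range_eq_map, MonoidHom.range_eq_top]
    exact QuotientGroup.mk'_surjective Z
  · rwa [index_comap_of_surjective _ (QuotientGroup.mk'_surjective Z)]

end Cfsg.Lib.Trans
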