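import Mathlib

/-! Commuting involutions in `GL₃(F)`, `F` of odd characteristic. -/

namespace Cfsg.Lib.Trans

open Matrix

variable {F : Type*} [Field F]

/-- Three nonzero orthogonal idempotents of `M₃(F)` diagonalize everything commuting with them. -/
theorem exists_diag_of_three_idem (e : Fin 3 → Matrix (Fin 3) (Fin 3) F)
    (h0 : ∀ i, e i ≠ 0) (h1 : ∀ i, e i * e i = e i) (h2 : ∀ i j, i ≠ j → e i * e j = 0) :
    ∃ P : Matrix (Fin 3) (Fin 3) F, IsUnit P ∧ ∀ x : Matrix (Fin 3) (Fin 3) F,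
      (∀ i, x * e i = e i * x) → ∃ d : Fin 3 → F, x * P = P * diagonal d := by
  classical
  have hv : ∀ i, ∃ v : Fin 3 → F, v ≠ 0 ∧ e i *ᵥ v = v := by
    intro i
    obtain ⟨w, hw⟩ : ∃ w, e i *ᵥ w ≠ 0 := by
      by_contra h
      push Not at h
      exact h0 i (Matrix.ext_iff_mulVec.mpr fun w => by rw [h w, zero_mulVec])
    exact ⟨_, hw, by rw [mulVec_mulVec, h1]⟩
  choose v hv0 hv using hv
  have hev : ∀ i j, i ≠ j → e i *ᵥ v j = 0 := fun i j hij => by
    rw [← hv j, mulVec_mulVec, h2 i j hij, zero_mulVec]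
  have hsum : ∀ (c : Fin 3 → F) (i : Fin 3), e i *ᵥ (∑ j, c j • v j) = c i • v i := by
    intro c i
    rw [mulVec_sum, Finset.sum_eq_single i]
    · rw [mulVec_smul, hv]
    · intro j _ hj
      rw [mulVec_smul, hev i j hj.symm, smul_zero]
    · simp
  have hli : LinearIndependent F v := by
    rw [Fintype.linearIndependent_iff]
    intro c hc i
    have := hsum c i
    rw [hc, mulVec_zero] at this
    exact (smul_eq_zero.mp this.symm).resolve_right (hv0 i)
  let b := basisOfLinearIndependentOfCardEqFinrank hli (by simp)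
  have hb : ∀ i, b i = v i := fun i => by simp [b]
  refine ⟨(Matrix.of v)ᵀ, ?_, fun x hx => ?_⟩
  · rw [← Matrix.linearIndependent_cols_iff_isUnit]
    exact hli
  · have hd : ∀ i, ∃ c : F, x *ᵥ v i = c • v i := by
      intro i
      refine ⟨b.repr (x *ᵥ v i) i, ?_⟩
      have h3 := b.sum_repr (x *ᵥ v i)
      simp only [hb] at h3
      rw [← hsum, h3, mulVec_mulVec, ← hx, ← mulVec_mulVec, hv]
    choose d hd using hd
    refine ⟨d, ?_⟩
    ext i j
    have := congrFun (hd j) i
    simp only [mul_diagonal, transpose_apply, of_apply]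
    simpa [mul_apply, mulVec, dotProduct, mul_comm] using this

/-- Two commuting involutions of `GL₃(F)` generating a four-group without `-1` diagonalize their
centralizer. -/
theorem exists_diag_of_four_group (h2 : (2 : F) ≠ 0) {g h : Matrix (Fin 3) (Fin 3) F}
    (hg : g * g = 1) (hh : h * h = 1) (hgh : g * h = h * g) (g1 : g ≠ 1) (g2 : g ≠ -1)
    (h1 : h ≠ 1) (h3 : h ≠ -1) (k1 : g * h ≠ 1) (k2 : g * h ≠ -1) :
    ∃ P : Matrix (Fin 3) (Fin 3) F, IsUnit P ∧ ∀ x : Matrix (Fin 3) (Fin 3) F,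
      x * g = g * x → x * h = h * x → ∃ d : Fin 3 → F, x * P = P * diagonal d := by
  have h4 : (4 : F) ≠ 0 := by
    have : (4 : F) = 2 * 2 := by norm_num
    rw [this]; exact mul_ne_zero h2 h2
  let E : ℤ → ℤ → Matrix (Fin 3) (Fin 3) F := fun s t =>
    (4 : F)⁻¹ • (1 + (s : F) • g + (t : F) • h + ((s * t : ℤ) : F) • (g * h))
  have hmul : ∀ s t s' t' : ℤ, E s t * E s' t' = (16 : F)⁻¹ •
      (((1 + s * s') * (1 + t * t') : F) • 1 + ((s + s') * (1 + t * t') : F) • g +
        ((1 + s * s') * (t + t') : F) • h + ((s + s') * (t + t') : F) • (g * h)) := by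
    intro s t s' t'
    have e1 : g * (g * h) = h := by rw [← mul_assoc, hg, one_mul]
    have e2 : h * (g * h) = g := by rw [hgh, ← mul_assoc, hh, one_mul]
    have e3 : g * h * g = h := by rw [mul_assoc, ← hgh, e1]
    have e4 : g * h * h = g := by rw [mul_assoc, hh, mul_one]
    have e5 : g * h * (g * h) = 1 := by rw [← mul_assoc, e3, hh]
    have e6 : (16 : F)⁻¹ = 4⁻¹ * 4⁻¹ := by rw [← mul_inv]; norm_num
    simp only [E, mul_add, add_mul, mul_smul_comm, smul_mul_assoc, one_mul,
      mul_one, hg, hh, ← hgh, e1, e2, e3, e4, e5, e6]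
    push_cast
    module
  have h16 : (16 : F) ≠ 0 := by
    have : (16 : F) = 4 * 4 := by norm_num
    rw [this]; exact mul_ne_zero h4 h4
  have hid : ∀ s t : ℤ, s = 1 ∨ s = -1 → t = 1 ∨ t = -1 → E s t * E s t = E s t := by
    intro s t hs ht
    rw [hmul]
    have e6 : (4 : F)⁻¹ = 16⁻¹ * 4 := by field_simp; norm_num
    simp only [E, e6]
    rcases hs with rfl | rfl <;> rcases ht with rfl | rfl <;> push_cast <;> module
  have hor : ∀ s t s' t' : ℤ, s' = -s ∨ t' = -t → s = 1 ∨ s = -1 → t = 1 ∨ t = -1 →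
      E s t * E s' t' = 0 := by
    intro s t s' t' h hs ht
    rw [hmul]
    rcases h with rfl | rfl <;> rcases hs with rfl | rfl <;> rcases ht with rfl | rfl <;>
      push_cast <;> module
  have hcomm : ∀ x : Matrix (Fin 3) (Fin 3) F, x * g = g * x → x * h = h * x →
      ∀ s t, x * E s t = E s t * x := by
    intro x hx hx' s t
    have : x * (g * h) = g * h * x := by rw [← mul_assoc, hx, mul_assoc, hx', mul_assoc]
    simp only [E, mul_add, add_mul, mul_smul_comm, smul_mul_assoc, one_mul, mul_one, hx, hx', this]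
  have key : ∀ s t : Fin 3 → ℤ, (∀ i, s i = 1 ∨ s i = -1) → (∀ i, t i = 1 ∨ t i = -1) →
      (∀ i j, i ≠ j → s j = -s i ∨ t j = -t i) → (∀ i, E (s i) (t i) ≠ 0) →
      ∃ P : Matrix (Fin 3) (Fin 3) F, IsUnit P ∧ ∀ x : Matrix (Fin 3) (Fin 3) F,
      x * g = g * x → x * h = h * x → ∃ d : Fin 3 → F, x * P = P * diagonal d := by
    intro s t hs ht hst h0
    obtain ⟨P, hP, hP'⟩ := exists_diag_of_three_idem (fun i => E (s i) (t i)) h0
      (fun i => hid _ _ (hs i) (ht i)) (fun i j hij => hor _ _ _ _ (hst i j hij) (hs i) (ht i))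
    exact ⟨P, hP, fun x hx hx' => hP' x fun i => hcomm x hx hx' _ _⟩
  have hz : ∀ s t, E s t = 0 →
      1 + (s : F) • g + (t : F) • h + ((s * t : ℤ) : F) • (g * h) = 0 := fun s t h0 =>
    (smul_eq_zero.mp h0).resolve_left (inv_ne_zero h4)
  have two : ∀ a b : Matrix (Fin 3) (Fin 3) F, (2 : F) • a = (2 : F) • b → a = b :=
    fun a b hab => smul_right_injective _ h2 hab
  have p1 : ¬ (E 1 1 = 0 ∧ E 1 (-1) = 0) := fun ⟨a, b⟩ => g2 (two _ _ (by
    have a := hz _ _ a; have b := hz _ _ b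
    push_cast at a b
    linear_combination (norm := module) a + b))
  have p2 : ¬ (E 1 1 = 0 ∧ E (-1) 1 = 0) := fun ⟨a, b⟩ => h3 (two _ _ (by
    have a := hz _ _ a; have b := hz _ _ b
    push_cast at a b
    linear_combination (norm := module) a + b))
  have p3 : ¬ (E 1 1 = 0 ∧ E (-1) (-1) = 0) := fun ⟨a, b⟩ => k2 (two _ _ (by
    have a := hz _ _ a; have b := hz _ _ b
    push_cast at a b
    linear_combination (norm := module) a + b))
  have p4 : ¬ (E 1 (-1) = 0 ∧ E (-1) 1 = 0) := fun ⟨a, b⟩ => k1 (two _ _ (by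
    have a := hz _ _ a; have b := hz _ _ b
    push_cast at a b
    linear_combination (norm := module) -a - b))
  have p5 : ¬ (E 1 (-1) = 0 ∧ E (-1) (-1) = 0) := fun ⟨a, b⟩ => h1 (two _ _ (by
    have a := hz _ _ a; have b := hz _ _ b
    push_cast at a b
    linear_combination (norm := module) -a - b))
  have p6 : ¬ (E (-1) 1 = 0 ∧ E (-1) (-1) = 0) := fun ⟨a, b⟩ => g1 (two _ _ (by
    have a := hz _ _ a; have b := hz _ _ b
    push_cast at a b
    linear_combination (norm := module) -a - b))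
  by_cases a : E 1 1 = 0
  · refine key ![1, -1, -1] ![-1, 1, -1] (by decide) (by decide) (by decide) fun i => ?_
    fin_cases i <;> simp <;> tauto
  by_cases b : E 1 (-1) = 0
  · refine key ![1, -1, -1] ![1, 1, -1] (by decide) (by decide) (by decide) fun i => ?_
    fin_cases i <;> simp <;> tauto
  by_cases c : E (-1) 1 = 0
  · refine key ![1, 1, -1] ![1, -1, -1] (by decide) (by decide) (by decide) fun i => ?_
    fin_cases i <;> simp <;> tauto
  · refine key ![1, 1, -1] ![1, -1, 1] (by decide) (by decide) (by decide) fun i => ?_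
    fin_cases i <;> simp <;> tauto

end Cfsg.Lib.Trans
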