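import Cfsg.Agent.Trans.PolyLimit
import Cfsg.Agent.Trans.Conj
import Cfsg.Agent.Solv.CoprimeGen

/-! Glauberman's limit replacement for quadratic subgroups, `p ≥ 5` (Lynd's theorem on
`2`-subnormal quadratic offenders, ring theoretic form). -/

set_option autoImplicit false

namespace Cfsg.Lib.Trans.Lim

open Polynomial Subgroup
open scoped commutatorElement

section Exp

variable {K R : Type*} [CommRing K] [Ring R] [Algebra K R]

theorem one_add_mem {h t : K} (hh : 2 * h = 1) (ht : 3 * t = 1) {A B C : AddSubgroup R}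
    (sA : ∀ (c : K), ∀ x ∈ A, c • x ∈ A) (sB : ∀ (c : K), ∀ x ∈ B, c • x ∈ B)
    (sC : ∀ (c : K), ∀ x ∈ C, c • x ∈ C)
    (hA : ∀ x ∈ A, ∀ y ∈ A, x * y = 0) (hB : ∀ x ∈ B, ∀ y ∈ B, x * y = 0)
    (hC : ∀ x ∈ C, ∀ y ∈ C, x * y = 0)
    (hAB : ∀ x ∈ A, ∀ y ∈ B, x * y - y * x ∈ A ⊓ B) (hAC : ∀ x ∈ A, ∀ y ∈ C, x * y - y * x ∈ A ⊓ C)
    (hBC : ∀ x ∈ B, ∀ y ∈ C, x * y - y * x ∈ B ⊓ C) {S : Submonoid R} (hAS : ∀ x ∈ A, 1 + x ∈ S)
    (hBS : ∀ x ∈ B, 1 + x ∈ S) (hCS : ∀ x ∈ C, 1 + x ∈ S) {a b c : R} (ha : a ∈ A) (hb : b ∈ B)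
    (hc : c ∈ C) (hx : (a + b + c) * (a + b + c) = 0) : 1 + (a + b + c) ∈ S := by
  obtain ⟨e, he⟩ : ∃ e, e = a * b - b * a := ⟨_, rfl⟩
  obtain ⟨f, hf⟩ : ∃ f, f = a * c - c * a := ⟨_, rfl⟩
  obtain ⟨k, hk⟩ : ∃ k, k = b * c - c * b := ⟨_, rfl⟩
  obtain ⟨eA, eB⟩ : e ∈ A ⊓ B := he ▸ hAB a ha b hb
  obtain ⟨fA, fC⟩ : f ∈ A ⊓ C := hf ▸ hAC a ha c hc
  obtain ⟨kB, kC⟩ : k ∈ B ⊓ C := hk ▸ hBC b hb c hc
  have ba : b * a = a * b - e := by rw [he]; abel
  have ca : c * a = a * c - f := by rw [hf]; abel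
  have cb : c * b = b * c - k := by rw [hk]; abel
  obtain ⟨u, hu⟩ : ∃ u, u = a * k - k * a := ⟨_, rfl⟩
  obtain ⟨v, hv⟩ : ∃ v, v = f * b - b * f := ⟨_, rfl⟩
  have uA : u ∈ A := hu ▸ (hAB a ha k kB).1
  have uB : u ∈ B := hu ▸ (hAB a ha k kB).2
  have uC : u ∈ C := hu ▸ (hAC a ha k kC).2
  have vA : v ∈ A := hv ▸ (hAB f fA b hb).1
  have vB : v ∈ B := hv ▸ (hAB f fA b hb).2
  have vC : v ∈ C := by
    have := C.neg_mem (hBC b hb f fC).2
    rwa [neg_sub, ← hv] at this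
  -- vanishing words
  have aa := hA a ha a ha
  have bb := hB b hb b hb
  have cc := hC c hc c hc
  have aa' : ∀ x, a * (a * x) = 0 := fun x => by rw [← mul_assoc, aa, zero_mul]
  have bb' : ∀ x, b * (b * x) = 0 := fun x => by rw [← mul_assoc, bb, zero_mul]
  have cc' : ∀ x, c * (c * x) = 0 := fun x => by rw [← mul_assoc, cc, zero_mul]
  have aba : a * (b * a) = 0 := by rw [ba, mul_sub, aa', hA a ha e eA, sub_zero]
  have aca : a * (c * a) = 0 := by rw [ca, mul_sub, aa', hA a ha f fA, sub_zero]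
  have bcb : b * (c * b) = 0 := by rw [cb, mul_sub, bb', hB b hb k kB, sub_zero]
  have bab : b * (a * b) = 0 := by
    rw [← mul_assoc, ba, sub_mul, mul_assoc, bb, mul_zero, hB e eB b hb, sub_zero]
  have cac : c * (a * c) = 0 := by
    rw [← mul_assoc, ca, sub_mul, mul_assoc, cc, mul_zero, hC f fC c hc, sub_zero]
  have cbc : c * (b * c) = 0 := by
    rw [← mul_assoc, cb, sub_mul, mul_assoc, cc, mul_zero, hC k kC c hc, sub_zero]
  obtain ⟨T, hT⟩ : ∃ T, T = a * (b * c) - h • (a * k + b * f + c * e) := ⟨_, rfl⟩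
  have hT' : T = t • (u + (2 : K) • v) := by
    have h3 : (a + b + c) * ((a + b + c) * (a + b + c)) = 0 := by rw [hx, mul_zero]
    have h4 : T = t • (u + (2 : K) • v) + (h * t) • ((a + b + c) * ((a + b + c) * (a + b + c))) := by
      rw [hT, hu, hv, he, hf, hk]
      simp only [mul_add, add_mul, mul_sub, sub_mul, mul_assoc, aa, bb, cc, aa', bb', cc', aba, aca,
        bcb, bab, cac, cbc, mul_zero]
      match_scalars <;> first
        | linear_combination (-2 * t) * hh + (h - 1) * ht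
        | linear_combination t * hh - h * ht
        | linear_combination (-2 * t) * hh + h * ht
    rw [h4, h3, smul_zero, add_zero]
  have TA : T ∈ A := hT' ▸ sA _ _ (add_mem uA (sA _ _ vA))
  have TB : T ∈ B := hT' ▸ sB _ _ (add_mem uB (sB _ _ vB))
  have TC : T ∈ C := hT' ▸ sC _ _ (add_mem uC (sC _ _ vC))
  have hy : (1 + a) * (1 + b) * (1 + c) * (1 + (-h • e + -h • f)) * (1 + -h • k) =
      1 + (a + b + c) + h • ((a + b + c) * (a + b + c)) + T := by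
    have ae := hA a ha e eA
    have be := hB b hb e eB
    have af := hA a ha f fA
    have cf := hC c hc f fC
    have bk := hB b hb k kB
    have ck := hC c hc k kC
    have ek := hB e eB k kB
    have fk := hC f fC k kC
    have abf : a * (b * f) = 0 := by
      have : b * f = f * b - v := by rw [hv]; abel
      rw [this, mul_sub, ← mul_assoc, af, zero_mul, hA a ha v vA, sub_zero]
    have ace : a * (c * e) = 0 := by
      have h1 := hA a ha _ (hAC e eA c hc).1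
      rw [mul_sub, ← mul_assoc, ae, zero_mul, zero_sub, neg_eq_zero] at h1
      exact h1
    have bce : b * (c * e) = 0 := by
      have h1 := hB b hb _ (hBC e eB c hc).1
      rw [mul_sub, ← mul_assoc, be, zero_mul, zero_sub, neg_eq_zero] at h1
      exact h1
    rw [hT]
    simp only [mul_add, add_mul, mul_assoc, mul_one, one_mul, mul_smul_comm, smul_mul_assoc, aa, bb,
      cc, ae, be, af, cf, bk, ck, ek, fk, abf, ace, bce, ba, ca, cb, mul_zero, zero_mul]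
    match_scalars <;> first | ring1 | linear_combination -hh
  have hS : (1 + a) * (1 + b) * (1 + c) * (1 + (-h • e + -h • f)) * (1 + -h • k) * (1 + -T) ∈ S :=
    mul_mem (mul_mem (mul_mem (mul_mem (mul_mem (hAS a ha) (hBS b hb)) (hCS c hc))
      (hAS _ (add_mem (sA _ _ eA) (sA _ _ fA)))) (hBS _ (sB _ _ kB))) (hAS _ (neg_mem TA))
  rw [hy, hx, smul_zero, add_zero] at hS
  convert hS using 1
  simp only [mul_add, add_mul, mul_one, one_mul, mul_neg, hA a ha T TA, hB b hb T TB, hC c hc T TC,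
    hA T TA T TA]
  abel

end Exp

section Conj

variable {R : Type*} [Ring R]

/-- Conjugation by `1 + X β`. -/
noncomputable def gc (β : R) : R →+ R[X] :=
  (AddMonoidHom.mulRight (monomial 0 1 - monomial 1 β)).comp
    ((AddMonoidHom.mulLeft (monomial 0 1 + monomial 1 β)).comp (monomial 0).toAddMonoidHom)

/-- Left multiplication by `1 + X β`. -/
noncomputable def gl (β : R) : R →+ R[X] :=
  (AddMonoidHom.mulLeft (monomial 0 1 + monomial 1 β)).comp (monomial 0).toAddMonoidHom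

theorem gc_apply (β w : R) : gc β w =
    (monomial 0 1 + monomial 1 β) * monomial 0 w * (monomial 0 1 - monomial 1 β) := rfl

theorem gl_apply (β w : R) : gl β w = (monomial 0 1 + monomial 1 β) * monomial 0 w := rfl

theorem gc_eq (β w : R) : gc β w =
    monomial 0 w + monomial 1 (β * w - w * β) + monomial 2 (-(β * w * β)) := by
  simp only [gc_apply, mul_sub, add_mul, monomial_mul_monomial, one_mul, mul_one, map_sub, map_neg]
  abel

theorem gl_eq (β w : R) : gl β w = monomial 0 w + monomial 1 (β * w) := by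
  simp only [gl_apply, add_mul, monomial_mul_monomial, one_mul]

theorem gc_coeff (β w : R) (i : ℕ) : (gc β w).coeff i =
    if i = 0 then w else if i = 1 then β * w - w * β else if i = 2 then -(β * w * β) else 0 := by
  rw [gc_eq]
  simp only [coeff_add, coeff_monomial]
  split_ifs <;> first | omega | simp

theorem gl_coeff (β w : R) (i : ℕ) : (gl β w).coeff i =
    if i = 0 then w else if i = 1 then β * w else 0 := by
  rw [gl_eq]
  simp only [coeff_add, coeff_monomial]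
  split_ifs <;> first | omega | simp

theorem gc_natDegree (β w : R) : (gc β w).natDegree ≤ 2 := by
  rw [natDegree_le_iff_coeff_eq_zero]
  intro N hN
  rw [gc_coeff, if_neg (by omega), if_neg (by omega), if_neg (by omega)]

theorem gl_natDegree (β w : R) : (gl β w).natDegree ≤ 2 := by
  rw [natDegree_le_iff_coeff_eq_zero]
  intro N hN
  rw [gl_coeff, if_neg (by omega), if_neg (by omega)]

theorem gc_mul_gl {β w w' : R} (hβ : β * β = 0) (h : w * w' = 0) : gc β w * gl β w' = 0 := by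
  have h1 : ((monomial 0 1 - monomial 1 β) * (monomial 0 1 + monomial 1 β) : R[X]) = 1 := by
    simp only [mul_add, sub_mul, monomial_mul_monomial, one_mul, mul_one, hβ]
    simp
  rw [gc_apply, gl_apply, mul_assoc, ← mul_assoc (monomial 0 1 - _), h1, one_mul, mul_assoc,
    monomial_mul_monomial, h]
  simp

theorem gc_mul_gc {β w w' : R} (hβ : β * β = 0) (h : w * w' = 0) : gc β w * gc β w' = 0 := by
  rw [gc_apply β w', ← gl_apply, ← mul_assoc, gc_mul_gl hβ h, zero_mul]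

end Conj

section Grp

variable {R G : Type*} [Ring R] [Group G] (ρ : G →* R)

/-- `A` is a quadratic subgroup. -/
def Quad (A : Subgroup G) : Prop := ∀ a ∈ A, ∀ a' ∈ A, (ρ a - 1) * (ρ a' - 1) = 0

/-- The logarithm of a quadratic subgroup. -/
def lg (A : Subgroup G) : AddSubgroup R := AddSubgroup.closure {x | ∃ a ∈ A, x = ρ a - 1}

/-- The fixed points of `A` in `J`. -/
def fix (J : AddSubgroup R) (A : Subgroup G) : AddSubgroup R where
  carrier := {x | x ∈ J ∧ ∀ a ∈ A, (ρ a - 1) * x = 0}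
  zero_mem' := ⟨zero_mem _, fun _ _ => mul_zero _⟩
  add_mem' := fun hx hy => ⟨add_mem hx.1 hy.1, fun a ha => by
    rw [mul_add, hx.2 a ha, hy.2 a ha, add_zero]⟩
  neg_mem' := fun hx => ⟨neg_mem hx.1, fun a ha => by rw [mul_neg, hx.2 a ha, neg_zero]⟩

variable {ρ} {A B : Subgroup G}

theorem map_mul_sub_one {a a' : G} (h : (ρ a - 1) * (ρ a' - 1) = 0) :
    ρ (a * a') - 1 = (ρ a - 1) + (ρ a' - 1) := by
  rw [map_mul, ← sub_eq_zero, ← h]; noncomm_ring

theorem map_inv_sub_one {a : G} (h : (ρ a - 1) * (ρ a - 1) = 0) : ρ a⁻¹ - 1 = -(ρ a - 1) := by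
  have h1 : ρ a⁻¹ * ρ a = 1 := by rw [← map_mul, inv_mul_cancel, map_one]
  have h2 : ρ a * (1 - (ρ a - 1)) = 1 := by rw [← sub_eq_zero, ← neg_eq_zero, ← h]; noncomm_ring
  have h3 : ρ a⁻¹ = 1 - (ρ a - 1) := by
    rw [← one_mul (1 - (ρ a - 1)), ← h1, mul_assoc, h1, h2, mul_one]
  rw [h3]; abel

theorem sub_one_mem_lg {a : G} (ha : a ∈ A) : ρ a - 1 ∈ lg ρ A :=
  AddSubgroup.subset_closure ⟨a, ha, rfl⟩

theorem Quad.mem_lg (hA : Quad ρ A) {x : R} : x ∈ lg ρ A ↔ ∃ a ∈ A, x = ρ a - 1 := by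
  refine ⟨fun hx => ?_, fun h => AddSubgroup.subset_closure h⟩
  induction hx using AddSubgroup.closure_induction with
  | mem x hx => exact hx
  | zero => exact ⟨1, one_mem _, by simp⟩
  | add x y _ _ hx hy =>
    obtain ⟨a, ha, rfl⟩ := hx
    obtain ⟨b, hb, rfl⟩ := hy
    exact ⟨a * b, mul_mem ha hb, (map_mul_sub_one (hA a ha b hb)).symm⟩
  | neg x _ hx =>
    obtain ⟨a, ha, rfl⟩ := hx
    exact ⟨a⁻¹, inv_mem ha, (map_inv_sub_one (hA a ha a ha)).symm⟩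

theorem Quad.mul_eq_zero (hA : Quad ρ A) : ∀ x ∈ lg ρ A, ∀ y ∈ lg ρ A, x * y = 0 := by
  intro x hx y hy
  obtain ⟨a, ha, rfl⟩ := hA.mem_lg.mp hx
  obtain ⟨b, hb, rfl⟩ := hA.mem_lg.mp hy
  exact hA a ha b hb

theorem Quad.card_lg (hρ : Function.Injective ρ) (hA : Quad ρ A) :
    Nat.card (lg ρ A) = Nat.card A := by
  refine (Nat.card_congr (Equiv.ofBijective (fun a : A => (⟨ρ a - 1, sub_one_mem_lg a.2⟩ : lg ρ A))
    ⟨fun a b h => Subtype.ext (hρ (sub_left_injective (congrArg Subtype.val h))), fun x => ?_⟩)).symm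
  obtain ⟨a, ha, h⟩ := hA.mem_lg.mp x.2
  exact ⟨⟨a, ha⟩, Subtype.ext h.symm⟩

theorem map_conj_sub_one (g a : G) : ρ (g * a * g⁻¹) - 1 = ρ g * (ρ a - 1) * ρ g⁻¹ := by
  rw [mul_sub, sub_mul, mul_one, ← map_mul, ← map_mul, ← map_mul, mul_inv_cancel, map_one]

theorem Quad.cj (hA : Quad ρ A) (g : G) : Quad ρ (cj g A) := by
  rintro _ ⟨a, ha, rfl⟩ _ ⟨b, hb, rfl⟩
  change (ρ (g * a * g⁻¹) - 1) * (ρ (g * b * g⁻¹) - 1) = 0
  rw [map_conj_sub_one, map_conj_sub_one, mul_assoc, ← mul_assoc (ρ g⁻¹), ← mul_assoc (ρ g⁻¹),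
    ← map_mul, inv_mul_cancel, map_one, one_mul, ← mul_assoc, mul_assoc (ρ g), hA a ha b hb]
  simp

theorem Quad.lie_mem (hA : Quad ρ A) (hB : Quad ρ B) (h1 : A ≤ normalizer (B : Set G))
    (h2 : B ≤ normalizer (A : Set G)) :
    ∀ x ∈ lg ρ A, ∀ y ∈ lg ρ B, x * y - y * x ∈ lg ρ A ⊓ lg ρ B := by
  intro x hx y hy
  obtain ⟨a, ha, rfl⟩ := hA.mem_lg.mp hx
  obtain ⟨b, hb, rfl⟩ := hB.mem_lg.mp hy
  have hcA : ⁅a, b⁆ ∈ A := by
    have : ⁅a, b⁆ = a * (b * a⁻¹ * b⁻¹) := by rw [commutatorElement_def]; group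
    rw [this]
    exact mul_mem ha ((mem_normalizer_iff.mp (h2 hb) _).mp (inv_mem ha))
  have hcB : ⁅a, b⁆ ∈ B := mul_mem ((mem_normalizer_iff.mp (h1 ha) _).mp hb) (inv_mem hb)
  have h3 : ρ a * ρ b = ρ ⁅a, b⁆ * ρ b * ρ a := by
    rw [← map_mul, ← map_mul, ← map_mul, commutatorElement_def]; congr 1; group
  have h4 : (ρ a - 1) * (ρ b - 1) - (ρ b - 1) * (ρ a - 1) = ρ ⁅a, b⁆ - 1 := by
    have e1 := hA _ hcA a ha
    have e2 := hB _ hcB b hb
    calc (ρ a - 1) * (ρ b - 1) - (ρ b - 1) * (ρ a - 1) = ρ a * ρ b - ρ b * ρ a := by noncomm_ring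
      _ = (ρ ⁅a, b⁆ - 1) * (ρ b - 1) * ρ a + (ρ ⁅a, b⁆ - 1) * (ρ a - 1) + (ρ ⁅a, b⁆ - 1) := by
        rw [h3]; noncomm_ring
      _ = _ := by rw [e1, e2]; simp
  rw [h4]
  exact ⟨sub_one_mem_lg hcA, sub_one_mem_lg hcB⟩

/-- The subgroup `1 + L`. -/
def expSub (ρ : G →* R) (L : AddSubgroup R) (hL : ∀ x ∈ L, ∀ y ∈ L, x * y = 0) : Subgroup G where
  carrier := {g | ρ g - 1 ∈ L}
  one_mem' := by simp
  mul_mem' := fun {a b} ha hb => by
    change ρ (a * b) - 1 ∈ L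
    rw [map_mul_sub_one (hL _ ha _ hb)]; exact add_mem ha hb
  inv_mem' := fun {a} ha => by
    change ρ a⁻¹ - 1 ∈ L
    rw [map_inv_sub_one (hL _ ha _ ha)]; exact neg_mem ha

variable {p : ℕ} [hp : Fact p.Prime] [Algebra (ZMod p) R] [Finite R]

/-- The measure of a subgroup with respect to a filtration. -/
noncomputable def meas (ρ : G →* R) (E : ℕ → AddSubgroup R) (K : ℕ) (A : Subgroup G) : ℕ :=
  ∑ k ∈ Finset.range (K + 1), Nat.card (lg ρ A ⊓ E k : AddSubgroup R)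

theorem replace [Finite G] (hp5 : 5 ≤ p) (hρ : Function.Injective ρ) {E : ℕ → AddSubgroup R}
    {K : ℕ} (hE0 : ∀ g, ρ g - 1 ∈ E 0) (hEl : ∀ g k, ∀ x ∈ E k, (ρ g - 1) * x ∈ E (k + 1))
    (hEr : ∀ g k, ∀ x ∈ E k, x * (ρ g - 1) ∈ E (k + 1)) (hanti : ∀ k, E (k + 1) ≤ E k)
    (hK : E K = ⊥) {J : AddSubgroup R} (hJ : ∀ r, ∀ x ∈ J, r * x ∈ J) (hA : Quad ρ A) {b : G}
    (hb : (ρ b - 1) * (ρ b - 1) = 0) {N : Subgroup G} (hbN : b ∈ normalizer (N : Set G))
    (hAN : A ≤ N) (hNA : N ≤ normalizer (A : Set G)) (hbA : b ∉ normalizer (A : Set G)) :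
    ∃ A' : Subgroup G, Quad ρ A' ∧ Nat.card A ≤ Nat.card A' ∧
      Nat.card (fix ρ J A) ≤ Nat.card (fix ρ J A') ∧ meas ρ E K A < meas ρ E K A' := by
  obtain ⟨β, hβ⟩ : ∃ β, β = ρ b - 1 := ⟨_, rfl⟩
  rw [← hβ] at hb
  have hb1 : ρ b = 1 + β := by rw [hβ]; abel
  have hb2 : ρ b⁻¹ = 1 - β := by
    have := map_inv_sub_one (ρ := ρ) (a := b) (hβ ▸ hb)
    rw [← hβ, sub_eq_iff_eq_add] at this
    rw [this]; abel
  have hc0 : ∀ w, (gc β w).coeff 0 = w := fun w => by simp [gc_coeff]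
  have hl0 : ∀ w, (gl β w).coeff 0 = w := fun w => by simp [gl_coeff]
  have hne : ∀ n : ℕ, 0 < n → n < 5 → ((n : ℕ) : ZMod p) ≠ 0 := fun n h1 h2 h => by
    have := Nat.le_of_dvd h1 ((ZMod.natCast_eq_zero_iff n p).mp h)
    omega
  have h2 : (2 : ZMod p) * 2⁻¹ = 1 := mul_inv_cancel₀ (by exact_mod_cast hne 2 (by omega) (by omega))
  have h3 : (3 : ZMod p) * 3⁻¹ = 1 := mul_inv_cancel₀ (by exact_mod_cast hne 3 (by omega) (by omega))
  have hsm : ∀ L : AddSubgroup R, ∀ (c : ZMod p), ∀ x ∈ L, c • x ∈ L := fun L c x hx =>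
    ZMod.smul_mem hx c
  have hcj : ∀ g ∈ normalizer (N : Set G), cj g A ≤ N ∧ N ≤ normalizer (cj g A : Set G) := by
    intro g hg
    have h1 := cj_eq_of_mem_normalizer hg
    exact ⟨h1 ▸ cj_mono g hAN, by rw [← cj_normalizer]; exact h1 ▸ cj_mono g hNA⟩
  obtain ⟨hB1, hB2⟩ := hcj b hbN
  obtain ⟨hC1, hC2⟩ := hcj b⁻¹ (inv_mem hbN)
  have hLL : ∀ x ∈ lim (gc β) (lg ρ A), ∀ y ∈ lim (gc β) (lg ρ A), x * y = 0 := fun x hx y hy =>
    lim_mul_lim (fun w hw w' hw' => gc_mul_gc hb (hA.mul_eq_zero w hw w' hw')) hx hy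
  have hf1 : ∀ a, ρ (b * a * b⁻¹) - 1 = (ρ a - 1) + (β * (ρ a - 1) - (ρ a - 1) * β) +
      -(β * (ρ a - 1) * β) := fun a => by rw [map_conj_sub_one, hb1, hb2]; noncomm_ring
  have hf2 : ∀ a, ρ (b⁻¹ * a * b⁻¹⁻¹) - 1 = (ρ a - 1) - (β * (ρ a - 1) - (ρ a - 1) * β) +
      -(β * (ρ a - 1) * β) := fun a => by
    rw [map_conj_sub_one, inv_inv, hb1, hb2]; noncomm_ring
  have hsub : lim (gc β) (lg ρ A) ≤ lg ρ A ⊔ lg ρ (cj b A) ⊔ lg ρ (cj b⁻¹ A) := by
    refine lim_le fun w hw i => ?_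
    obtain ⟨a, ha, rfl⟩ := hA.mem_lg.mp hw
    have e0 : ρ a - 1 ∈ lg ρ A ⊔ lg ρ (cj b A) ⊔ lg ρ (cj b⁻¹ A) :=
      AddSubgroup.mem_sup_left (AddSubgroup.mem_sup_left hw)
    have e1 : ρ (b * a * b⁻¹) - 1 ∈ lg ρ A ⊔ lg ρ (cj b A) ⊔ lg ρ (cj b⁻¹ A) :=
      AddSubgroup.mem_sup_left (AddSubgroup.mem_sup_right (sub_one_mem_lg (conj_mem_cj.mpr ha)))
    have e2 : ρ (b⁻¹ * a * b⁻¹⁻¹) - 1 ∈ lg ρ A ⊔ lg ρ (cj b A) ⊔ lg ρ (cj b⁻¹ A) :=
      AddSubgroup.mem_sup_right (sub_one_mem_lg (conj_mem_cj.mpr ha))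
    rw [gc_coeff]
    split_ifs
    · exact e0
    · convert hsm _ 2⁻¹ _ (sub_mem e1 e2) using 1
      rw [hf1, hf2]
      generalize β * (ρ a - 1) - (ρ a - 1) * β = y
      match_scalars <;> first | ring1 | linear_combination -h2
    · convert hsm _ 2⁻¹ _ (sub_mem (sub_mem (add_mem e1 e2) e0) e0) using 1
      rw [hf1, hf2]
      generalize β * (ρ a - 1) * β = y
      match_scalars <;> first | ring1 | linear_combination h2
    · exact zero_mem _
  have hlg : lg ρ (expSub ρ _ hLL) = lim (gc β) (lg ρ A) := by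
    apply le_antisymm
    · rw [lg, AddSubgroup.closure_le]
      rintro _ ⟨a, ha, rfl⟩
      exact ha
    · intro x hx
      obtain ⟨y, hy, c, hc, rfl⟩ := AddSubgroup.mem_sup.mp (hsub hx)
      obtain ⟨a, ha, b', hb', rfl⟩ := AddSubgroup.mem_sup.mp hy
      have hS : ∀ D : Subgroup G, Quad ρ D → ∀ x ∈ lg ρ D, 1 + x ∈ MonoidHom.mrange ρ := by
        intro D hD x hx
        obtain ⟨d, -, rfl⟩ := hD.mem_lg.mp hx
        exact ⟨d, by abel⟩
      obtain ⟨g, hg⟩ := one_add_mem h2 h3 (hsm _) (hsm _) (hsm _) hA.mul_eq_zero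
        (hA.cj b).mul_eq_zero (hA.cj b⁻¹).mul_eq_zero
        (hA.lie_mem (hA.cj b) (hAN.trans hB2) (hB1.trans hNA))
        (hA.lie_mem (hA.cj b⁻¹) (hAN.trans hC2) (hC1.trans hNA))
        ((hA.cj b).lie_mem (hA.cj b⁻¹) (hB1.trans hC2) (hC1.trans hB2)) (hS _ hA) (hS _ (hA.cj b))
        (hS _ (hA.cj b⁻¹)) ha hb' hc (hLL _ hx _ hx)
      have h1 : a + b' + c = ρ g - 1 := by rw [hg]; abel
      rw [h1] at hx ⊢
      exact sub_one_mem_lg hx
  have hA' : Quad ρ (expSub ρ _ hLL) := fun a ha a' ha' => hLL _ ha _ ha'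
  have hcoE : ∀ k, ∀ w ∈ E k, ∀ i, 0 < i → (gc β w).coeff i ∈ E (k + 1) := by
    intro k w hw i hi
    rw [gc_coeff, if_neg hi.ne', hβ]
    split_ifs
    · exact sub_mem (hEl b k w hw) (hEr b k w hw)
    · exact neg_mem (hanti _ (hEr b _ _ (hEl b k w hw)))
    · exact zero_mem _
  have hcoE' : ∀ k, ∀ w ∈ E k, ∀ i, (gc β w).coeff i ∈ E k := by
    intro k w hw i
    rcases Nat.eq_zero_or_pos i with rfl | hi
    · rwa [hc0]
    · exact hanti k (hcoE k w hw i hi)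
  refine ⟨expSub ρ _ hLL, hA', ?_, ?_, ?_⟩
  · rw [← hA.card_lg hρ, ← hA'.card_lg hρ, hlg]
    exact card_le_card_lim hc0 (gc_natDegree β) _
  · refine (card_le_card_lim hl0 (gl_natDegree β) _).trans (AddSubgroup.card_le_of_le ?_)
    intro x hx
    refine ⟨lim_le (fun w hw i => ?_) hx, fun a ha => lim_mul_lim (fun w hw w' hw' => ?_) ha hx⟩
    · rw [gl_coeff]
      split_ifs
      · exact hw.1
      · exact hJ _ _ hw.1
      · exact zero_mem _
    · obtain ⟨a, ha, rfl⟩ := hA.mem_lg.mp hw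
      exact gc_mul_gl hb (hw'.2 a ha)
  · -- some step of the filtration is not invariant
    let P : ℕ → Prop := fun k => ∀ c ∈ lg ρ A ⊓ E k, ∀ i, (gc β c).coeff i ∈ lg ρ A
    have hPK : P K := by
      intro c hc i
      have : c = 0 := by simpa [hK] using hc.2
      simp [this]
    have hP0 : ¬ P 0 := by
      intro h
      apply hbA
      apply mem_normalizer_of_cj_le
      rw [cj_le_iff]
      intro a ha
      have e0 := h _ ⟨sub_one_mem_lg ha, hE0 a⟩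
      have h1 : ρ (b * a * b⁻¹) - 1 ∈ lg ρ A := by
        rw [hf1]
        refine add_mem (add_mem (sub_one_mem_lg ha) ?_) ?_
        · have := e0 1
          rwa [gc_coeff, if_neg one_ne_zero, if_pos rfl] at this
        · have := e0 2
          rwa [gc_coeff, if_neg two_ne_zero, if_neg (by omega), if_pos rfl] at this
      obtain ⟨a', ha', h4⟩ := hA.mem_lg.mp h1
      rwa [hρ (sub_left_injective h4)]
    obtain ⟨k, hk, hk1, hk2⟩ : ∃ k < K, ¬ P k ∧ P (k + 1) := by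
      by_contra hcon
      push Not at hcon
      have : ∀ k ≤ K, ¬ P k := by
        intro k hk
        induction k with
        | zero => exact hP0
        | succ k ih => exact hcon k hk (ih (by omega))
      exact this K le_rfl hPK
    simp only [P, not_forall] at hk1
    obtain ⟨w, hw, i, hi⟩ := hk1
    obtain ⟨e1, j, hj, e2, e3⟩ := exists_coeff_mem_lim (W := lg ρ A) (C := lg ρ A ⊓ E (k + 1)) hc0
      (gc_natDegree β) inf_le_left (fun c hc i => ⟨hk2 c hc i, hcoE' _ c hc.2 i⟩) hw.1 (by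
        rintro ⟨h1, h4⟩
        apply hi
        rcases Nat.lt_or_ge 2 i with h | h
        · rw [coeff_eq_zero_of_natDegree_lt ((gc_natDegree β w).trans_lt h)]
          exact zero_mem _
        · interval_cases i
          · rw [hc0]; exact hw.1
          · exact h1.1
          · exact h4.1)
    unfold meas
    rw [hlg]
    refine Finset.sum_lt_sum (fun l _ => ?_) ⟨k + 1, Finset.mem_range.mpr (by omega), ?_⟩
    · refine (card_le_card_lim hc0 (gc_natDegree β) _).trans (AddSubgroup.card_le_of_le ?_)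
      exact le_inf (lim_mono inf_le_left) (lim_le fun c hc => hcoE' _ c hc.2)
    · have h1 : lg ρ A ⊓ E (k + 1) ≤ lim (gc β) (lg ρ A) ⊓ E (k + 1) := le_inf e1 inf_le_right
      refine lt_of_le_of_ne (AddSubgroup.card_le_of_le h1) fun h => e3 ?_
      rw [AddSubgroup.eq_of_le_of_card_ge h1 h.ge]
      exact ⟨e2, hcoE k w hw.2 j hj⟩

theorem exists_two_subnormal [Finite G] (hG : Group.IsNilpotent G) (hp5 : 5 ≤ p)
    (hρ : Function.Injective ρ) {E : ℕ → AddSubgroup R}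
    {K : ℕ} (hE0 : ∀ g, ρ g - 1 ∈ E 0) (hEl : ∀ g k, ∀ x ∈ E k, (ρ g - 1) * x ∈ E (k + 1))
    (hEr : ∀ g k, ∀ x ∈ E k, x * (ρ g - 1) ∈ E (k + 1)) (hanti : ∀ k, E (k + 1) ≤ E k)
    (hK : E K = ⊥) {J : AddSubgroup R} (hJ : ∀ r, ∀ x ∈ J, r * x ∈ J) {A₀ : Subgroup G}
    (hA₀ : Quad ρ A₀) : ∃ A : Subgroup G, Quad ρ A ∧ Nat.card A₀ ≤ Nat.card A ∧
      Nat.card (fix ρ J A₀) ≤ Nat.card (fix ρ J A) ∧
      (⨆ g : G, cj g A) ≤ normalizer (A : Set G) := by
  have : Finite (Subgroup G) := inferInstance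
  obtain ⟨A, hA, hmax⟩ := Set.Finite.exists_maximalFor (meas ρ E K)
    {A : Subgroup G | Quad ρ A ∧ Nat.card A₀ ≤ Nat.card A ∧
      Nat.card (fix ρ J A₀) ≤ Nat.card (fix ρ J A)} (Set.toFinite _) ⟨A₀, hA₀, le_rfl, le_rfl⟩
  refine ⟨A, hA.1, hA.2.1, hA.2.2, ?_⟩
  by_contra hcon
  obtain ⟨M, hM, hmin⟩ := exists_minimal_le_of_wellFoundedLT (fun H : Subgroup G => A ≤ H ∧
    H ≤ (⨆ g : {g : G // cj g A ≤ H}, cj (g : G) A) ∧ ¬ H ≤ normalizer (A : Set G))
    (⨆ g : G, cj g A) ⟨le_iSup_of_le 1 (cj_one A).ge,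
      iSup_le fun g => le_iSup_of_le ⟨g, le_iSup (fun g => cj g A) g⟩ le_rfl, hcon⟩
  obtain ⟨hAM, hM2, hM3⟩ := hmin.prop
  have hlt : A < M := lt_of_le_of_ne hAM fun h => hM3 (h ▸ le_normalizer)
  obtain ⟨L, hAL, hLM, -, hML, -⟩ := Solv.Coprime.exists_maximal_invariant (A := ⊥)
    (P := M) inferInstance bot_le hlt bot_le
  let N : Subgroup G := ⨆ m : M, cj (m : G) A
  have hNL : N ≤ L := iSup_le fun m => cj_le_iff.mpr fun a ha => by
    have : (m : G) * a * (m : G)⁻¹ = ⁅(m : G), a⁆ * a := by rw [commutatorElement_def]; group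
    rw [this]
    exact mul_mem (hML (commutator_mem_commutator m.2 (hAM ha))) (hAL ha)
  have hAN : A ≤ N := le_iSup_of_le 1 (cj_one A).ge
  have hNA : N ≤ normalizer (A : Set G) := by
    by_contra h
    have := hmin.le_of_le ⟨hAN, iSup_le fun m => le_iSup_of_le
      ⟨m, le_iSup (fun m : M => cj (m : G) A) m⟩ le_rfl, h⟩ (hNL.trans hLM.le)
    exact hLM.not_ge (this.trans hNL)
  obtain ⟨g, hg, b, hb, hbA⟩ : ∃ g, cj g A ≤ M ∧ ∃ b ∈ cj g A, b ∉ normalizer (A : Set G) := by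
    by_contra h
    push Not at h
    exact hM3 (hM2.trans (iSup_le fun g => h g g.2))
  have hbN : b ∈ normalizer (N : Set G) := by
    apply mem_normalizer_of_cj_le
    rw [cj_iSup]
    exact iSup_le fun m => le_iSup_of_le ⟨b * m, mul_mem (hg hb) m.2⟩ (cj_cj _ _ _).le
  obtain ⟨A', h1, h2, h3, h4⟩ := replace hp5 hρ hE0 hEl hEr hanti hK hJ hA.1
    (hA.1.cj g b hb b hb) hbN hAN hNA hbA
  exact h4.not_ge (hmax ⟨h1, hA.2.1.trans h2, hA.2.2.trans h3⟩ h4.le)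

end Grp

end Cfsg.Lib.Trans.Lim
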