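import Cfsg.Agent.LG4.ZsigMod
import Cfsg.Agent.Class.AutEnd
import Cfsg.Agent.Class.SL2Dickson

/-! Modules for `SL₂(q)` in the defining characteristic. -/

set_option autoImplicit false

namespace Cfsg.Lib.Trans.SL2Nat

open Subgroup Matrix Cfsg.Lib.Class Cfsg.Lib.Known.GL2 Cfsg.Lib.LG4

theorem exists_equiv {H F : Type*} [Group H] [Finite H] [Field F] [Fintype F] {p : ℕ} [Fact p.Prime]
    [CharP F p] (e : H ≃* SL2 F) (S : Sylow p H) :
    ∃ e' : H ≃* SL2 F, ∀ s, s ∈ S ↔ ∃ b, slU b = e' s := by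
  obtain ⟨g, hg⟩ := (slLin F).exists_sylow_eq_map p (S.mapSurjective (f := e.toMonoidHom) e.surjective)
  refine ⟨e.trans (MulAut.conj g).symm, fun s => ?_⟩
  have : s ∈ S ↔ e s ∈ (S : Subgroup H).map e.toMonoidHom :=
    (mem_map_iff_mem (f := e.toMonoidHom) e.injective).symm
  rw [this, ← Sylow.coe_mapSurjective (hf := e.surjective), hg, mem_map_equiv, Lin2.mem_U]
  simp only [u_eq_slU]
  rfl

theorem le_index_nine {V : Type*} [Group V] [Finite V] (hV : IsPGroup 2 V) {φ : MulAut V}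
    (h9 : φ ^ 9 = 1) (h3 : φ ^ 3 ≠ 1) : 64 ≤ (fxA φ).index := by
  classical
  have ho : orderOf φ = 9 := orderOf_eq_prime_pow (p := 3) (n := 1) h3 h9
  have h2 : fxA φ ≤ fxA (φ ^ 3) := fun v hv =>
    (MulAction.stabilizer (MulAut V) v).pow_mem (show φ ∈ MulAction.stabilizer _ v from hv) _
  refine le_trans ?_ (Nat.le_of_dvd (Nat.pos_of_ne_zero FiniteIndex.index_ne_zero)
    (index_dvd_of_le h2))
  obtain ⟨j, hj⟩ := hV.index (fxA (φ ^ 3))
  obtain ⟨i, hi⟩ := (hV.to_subgroup (fxA (φ ^ 3))).exists_card_eq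
  let S : SubMulAction (zpowers φ) V := ⟨{v | v ∉ fxA (φ ^ 3)}, by
    rintro ⟨_, k, rfl⟩ v hv h
    refine hv (mem_fxA.2 ((φ ^ k).injective ?_))
    rw [← MulAut.mul_apply, (((Commute.refl φ).zpow_left k).pow_right 3).eq]
    exact h⟩
  have h4 : 9 ∣ Nat.card S := by
    rw [Nat.card_congr (MulAction.selfEquivOrbitsQuotientProd (G := zpowers φ) (X := S) fun v => ?_),
      Nat.card_prod, Nat.card_zpowers, ho]
    · exact dvd_mul_left _ _
    rw [eq_bot_iff]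
    rintro ⟨g, hg⟩ h
    have h : g v.1 = v.1 := congrArg Subtype.val h
    obtain ⟨k, hk, rfl⟩ := Finset.mem_image.1 (mem_zpowers_iff_mem_range_orderOf.1 hg)
    rw [ho, Finset.mem_range] at hk
    by_contra h1
    have h5 : ∀ m, (φ ^ (k * m)) v.1 = v.1 := fun m => by
      rw [pow_mul]
      exact (MulAction.stabilizer (MulAut V) v.1).pow_mem (show _ ∈ MulAction.stabilizer _ v.1 from h) _
    have h6 : ∀ m, k * m % 9 = 3 → False := fun m e => v.2 (by
      rw [mem_fxA, ← e, ← ho, pow_mod_orderOf]; exact h5 m)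
    interval_cases k
    · exact h1 (by simp)
    exacts [h6 3 rfl, h6 6 rfl, h6 1 rfl, h6 3 rfl, h6 6 rfl, h6 2 rfl, h6 3 rfl, h6 6 rfl]
  have h5 : Nat.card (fxA (φ ^ 3)) + Nat.card S = Nat.card V := by
    rw [← Nat.card_sum]
    exact Nat.card_congr (Equiv.sumCompl (· ∈ fxA (φ ^ 3)))
  rw [← (fxA (φ ^ 3)).card_mul_index (G := V), hi, hj] at h5
  have h6 : 9 ∣ 2 ^ j - 1 := by
    refine (Nat.Coprime.pow_right i (by norm_num : Nat.Coprime 9 2)).dvd_of_dvd_mul_left ?_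
    rw [Nat.mul_sub, mul_one, ← h5, Nat.add_sub_cancel_left]
    exact h4
  have h7 : j ≠ 0 := by
    rintro rfl
    rw [pow_zero, index_eq_one] at hj
    exact h3 (MulEquiv.ext fun v => mem_fxA.1 (hj.ge (mem_top v)))
  rw [hj]
  by_contra h8
  have : j < 6 := (Nat.pow_lt_pow_iff_right (a := 2) (by norm_num)).1 (not_le.1 h8)
  interval_cases j <;> simp_all

theorem exists_nine {F : Type*} [Field F] [Fintype F] (hF : Fintype.card F = 8) {b : F} (hb : b ≠ 0) :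
    ∃ a : SL2 F, (slU b * (a * slU b * a⁻¹)) ^ 9 = 1 ∧ (slU b * (a * slU b * a⁻¹)) ^ 3 ≠ 1 := by
  have := charP_of_card_eq_prime_pow (R := F) (p := 2) (f := 3) hF
  have h2 : (2 : F) = 0 := CharTwo.two_eq_zero
  obtain ⟨τ, hτ⟩ : ∃ τ : F, τ ^ 3 + τ + 1 = 0 := by
    classical
    obtain ⟨y, -, hy⟩ := Finset.exists_mem_notMem_of_card_lt_card (s := ({0, 1} : Finset F))
      (t := Finset.univ) ((Finset.card_le_two).trans_lt (by rw [Finset.card_univ, hF]; norm_num))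
    simp only [Finset.mem_insert, Finset.mem_singleton, not_or] at hy
    have h7 := FiniteField.pow_card_sub_one_eq_one y hy.1
    rw [hF] at h7
    have : (y - 1) * ((y ^ 3 + y + 1) * (y ^ 3 + y ^ 2 + 1)) = 0 := by
      linear_combination h7 + (y ^ 4 - y ^ 3 * 0 + y ^ 4 * 0 - y ^ 3 + y ^ 4 * 0) * h2
    rcases mul_eq_zero.1 ((mul_eq_zero.1 this).resolve_left (sub_ne_zero.2 hy.2)) with h | h
    · exact ⟨y, h⟩
    · exact ⟨y + 1, by linear_combination h + (y ^ 2 + 2 * y + 1) * h2⟩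
  have h0 : τ ≠ 0 := by rintro rfl; simp at hτ
  set a : SL2 F := ⟨!![0, -(b / τ); τ / b, 0], by simp [det_fin_two]; field_simp⟩
  refine ⟨a, ?_⟩
  have hM : (slU b * (a * slU b * a⁻¹)).1 = !![1 - τ ^ 2, b; -(τ ^ 2 / b), 1] := by
    change !![1, b; 0, 1] * (!![0, -(b / τ); τ / b, 0] * !![1, b; 0, 1] *
      adjugate !![0, -(b / τ); τ / b, 0]) = _
    rw [adjugate_fin_two_of]
    ext i j
    fin_cases i <;> fin_cases j <;> simp [Matrix.mul_apply, Fin.sum_univ_two] <;> field_simp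
    ring
  generalize slU b * (a * slU b * a⁻¹) = M at hM
  set ρ := (slLin F).ρ
  have hM : ρ M = !![1 - τ ^ 2, b; -(τ ^ 2 / b), 1] := hM
  have h1 : ρ M * ρ M = τ ^ 2 • ρ M - 1 := by
    rw [← map_mul, mul_self_SL]
    congr 2
    rw [hM, trace_fin_two_of]
    linear_combination (1 - τ ^ 2) * h2
  have h3 : ρ (M ^ 3) = (τ ^ 4 - 1) • ρ M - τ ^ 2 • 1 := by
    rw [map_pow, pow_succ, pow_two, h1, sub_mul, smul_mul_assoc, h1, one_mul]; module
  have h4 : ρ (M ^ 3) * ρ (M ^ 3) = ρ (M ^ 3) - 1 := by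
    rw [← map_mul, mul_self_SL, show (ρ (M ^ 3)).trace = 1 from ?_, one_smul]
    rw [h3, hM, trace_sub, trace_smul, trace_smul, trace_fin_two_of, trace_one]
    simp only [smul_eq_mul, Fintype.card_fin, Nat.cast_ofNat]
    linear_combination (-τ ^ 3 + τ + 1) * hτ + (τ ^ 4 - τ ^ 2 - τ - 2) * h2
  refine ⟨(slLin F).inj ?_, fun h => ?_⟩
  · show ρ _ = ρ _
    rw [show 9 = 3 * 3 from rfl, pow_mul, map_pow, pow_succ, pow_two, h4, sub_mul, h4, map_one]
    ext i j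
    simp only [one_mul, Matrix.sub_apply]
    linear_combination (-(1 : Matrix (Fin 2) (Fin 2) F) i j) * h2
  · have := congrFun (congrFun h3 0) 1
    rw [h, map_one, hM] at this
    simp only [Matrix.sub_apply, Matrix.smul_apply, smul_eq_mul, one_apply_ne zero_ne_one, mul_zero,
      sub_zero, of_apply, cons_val', cons_val_one, cons_val_fin_one, cons_val_zero] at this
    have h5 : τ ^ 4 - 1 = 0 := (mul_eq_zero.1 this.symm).resolve_right hb
    exact one_ne_zero (α := F) (by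
      linear_combination ((1 + (τ - 1) ^ 2) * τ - (τ - 1)) * hτ - (1 + (τ - 1) ^ 2) * h5 - h2)

section Nat

variable {F : Type*} [Field F] {W : Type*} [AddCommGroup W] (ρ : SL2 F →* Module.End ℤ W)

/-- The Weyl element. -/
def nW : SL2 F := slU 1 * slV (-1) * slU 1

theorem coe_nW : (nW : SL2 F).1 = !![0, 1; -1, 0] := by
  change !![(1 : F), 1; 0, 1] * !![1, 0; -1, 1] * !![1, 1; 0, 1] = _
  simp

/-- The diagonal element. -/
def hD (a : F) (ha : a ≠ 0) : SL2 F := ⟨!![a, 0; 0, a⁻¹], by simp [det_fin_two, ha]⟩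

theorem nW_mul_U (t : F) : nW * slU t = slV (-t) * nW := by
  apply Subtype.ext
  change (nW : SL2 F).1 * !![1, t; 0, 1] = !![1, 0; -t, 1] * (nW : SL2 F).1
  simp [coe_nW]

theorem nW_mul_V (t : F) : nW * slV t = slU (-t) * nW := by
  apply Subtype.ext
  change (nW : SL2 F).1 * !![1, 0; t, 1] = !![1, -t; 0, 1] * (nW : SL2 F).1
  simp [coe_nW]

theorem nW_four : (nW * nW * nW * nW : SL2 F) = 1 := by
  apply Subtype.ext
  change (nW : SL2 F).1 * (nW : SL2 F).1 * (nW : SL2 F).1 * (nW : SL2 F).1 = 1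
  simp [coe_nW, Matrix.one_fin_two]

theorem U_mul_hD (a : F) (ha : a ≠ 0) (t : F) : slU (a ^ 2 * t) * hD a ha = hD a ha * slU t := by
  apply Subtype.ext
  change !![1, a ^ 2 * t; 0, 1] * !![a, 0; 0, a⁻¹] = !![a, 0; 0, a⁻¹] * !![1, t; 0, 1]
  simp
  field_simp

theorem V_mul_hD (a : F) (ha : a ≠ 0) (t : F) : slV t * hD a ha = hD a ha * slV (a ^ 2 * t) := by
  apply Subtype.ext
  change !![1, 0; t, 1] * !![a, 0; 0, a⁻¹] = !![a, 0; 0, a⁻¹] * !![1, 0; a ^ 2 * t, 1]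
  simp
  field_simp

theorem hD_mul_nW (a : F) (ha : a ≠ 0) : hD a ha * nW = nW * hD a⁻¹ (inv_ne_zero ha) := by
  apply Subtype.ext
  change !![a, 0; 0, a⁻¹] * (nW : SL2 F).1 = (nW : SL2 F).1 * !![a⁻¹, 0; 0, a⁻¹⁻¹]
  simp [coe_nW]

theorem hD_mul (a : F) (ha : a ≠ 0) (b : F) (hb : b ≠ 0) :
    hD a ha * hD b hb = hD (a * b) (mul_ne_zero ha hb) := by
  apply Subtype.ext
  change !![a, 0; 0, a⁻¹] * !![b, 0; 0, b⁻¹] = !![a * b, 0; 0, (a * b)⁻¹]
  simp [mul_comm]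

theorem hD_one : hD (1 : F) one_ne_zero = 1 := Subtype.ext (by simp [hD, Matrix.one_fin_two])

theorem sl2_ind {P : SL2 F → Prop} (hm : ∀ g h, P g → P h → P (g * h)) (hU : ∀ t, P (slU t))
    (hn : P nW) (g : SL2 F) : P g := by
  have hV : ∀ t, P (slV t) := fun t => by
    have : slV t = nW * slU (-t) * (nW * nW * nW) := by
      rw [nW_mul_U, neg_neg, mul_assoc, ← mul_assoc nW, ← mul_assoc nW, nW_four, mul_one]
    exact this ▸ hm _ _ (hm _ _ hn (hU _)) (hm _ _ (hm _ _ hn hn) hn)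
  let H : Subgroup (SL2 F) :=
    { carrier := {g | P g ∧ P g⁻¹}
      one_mem' := ⟨slU_zero (K := F) ▸ hU 0, by rw [inv_one]; exact slU_zero (K := F) ▸ hU 0⟩
      mul_mem' := fun h k => ⟨hm _ _ h.1 k.1, by rw [_root_.mul_inv_rev]; exact hm _ _ k.2 h.2⟩
      inv_mem' := fun h => ⟨h.2, by rw [inv_inv]; exact h.1⟩ }
  exact ((sl2_eq_top_of_slU_slV H (fun t => ⟨hU t, slU_neg t ▸ hU _⟩)
    fun t => ⟨hV t, slV_neg t ▸ hV _⟩).ge (mem_top g)).1

/-- The vectors fixed by the upper unitriangular group. -/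
def V0 (x : W) : Prop := ∀ t, ρ (slU t) x = x
/-- The vectors fixed by the lower unitriangular group. -/
def V1 (x : W) : Prop := ∀ t, ρ (slV t) x = x
/-- The lower fixed vectors with quadratic action. -/
def W1 (x : W) : Prop := V1 ρ x ∧ ∀ t, V0 ρ (ρ (slU t) x - x)
/-- The scalar action. -/
def sc (t : F) : Module.End ℤ W := -(ρ nW * (ρ (slU t) - 1))

variable {ρ}

theorem ap_eq {g h k l : SL2 F} (e : g * h = k * l) (x : W) : ρ g (ρ h x) = ρ k (ρ l x) := by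
  rw [← Module.End.mul_apply, ← map_mul, e, map_mul, Module.End.mul_apply]

theorem V0.n {x : W} (h : V0 ρ x) : V1 ρ (ρ nW x) := fun t => by
  rw [← neg_neg t, ← ap_eq (nW_mul_U _), h]

theorem V1.n {x : W} (h : V1 ρ x) : V0 ρ (ρ nW x) := fun t => by
  rw [← neg_neg t, ← ap_eq (nW_mul_V _), h]

theorem W1.h {x : W} (h : W1 ρ x) {a : F} (ha : a ≠ 0) : W1 ρ (ρ (hD a ha) x) := by
  have key : ∀ t y, ρ (slU t) (ρ (hD a ha) y) = ρ (hD a ha) (ρ (slU ((a ^ 2)⁻¹ * t)) y) := fun t y => by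
    rw [← ap_eq (U_mul_hD a ha _), mul_inv_cancel_left₀ (pow_ne_zero 2 ha)]
  refine ⟨fun t => by rw [ap_eq (V_mul_hD a ha t), h.1], fun t s => ?_⟩
  rw [key, ← map_sub, key, h.2]

theorem W1.add {x y : W} (h : W1 ρ x) (k : W1 ρ y) : W1 ρ (x + y) :=
  ⟨fun t => by rw [map_add, h.1, k.1], fun t s => by
    rw [map_add, add_sub_add_comm, map_add, h.2, k.2]⟩

theorem W1.sc_add {x : W} (h : W1 ρ x) (s t : F) : sc ρ (s + t) x = sc ρ s x + sc ρ t x := by
  have := h.2 t s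
  simp only [sc, LinearMap.neg_apply, Module.End.mul_apply, LinearMap.sub_apply, slU_add, map_mul,
    Module.End.one_apply, ← neg_add, ← map_add, map_sub (ρ (slU s))] at this ⊢
  rw [sub_eq_iff_eq_add.1 this]
  congr 2
  abel

theorem sc_zero (x : W) : sc ρ 0 x = 0 := by simp [sc, slU_zero]

variable (hI : ∀ x, V0 ρ x → V1 ρ x → x = 0)
include hI

theorem W1.one {x : W} (h : W1 ρ x) : ρ (slU 1) x - x = ρ nW x ∧ ρ nW (ρ nW x) = -x := by
  have h1 := h.2 1
  set y := ρ (slU 1) x - x with hy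
  have h2 : ρ nW (x - y) = x + y := by
    have h3 : ρ (slU 1) (x - y) = x := by rw [map_sub, h1, hy]; abel
    rw [nW, map_mul, map_mul, Module.End.mul_apply, Module.End.mul_apply, h3, h.1, hy]; abel
  have h3 : ρ nW x - y = x + ρ nW y := by
    rw [map_sub, sub_eq_iff_eq_add] at h2
    rw [h2]; abel
  have h4 := hI (ρ nW x - y) (fun t => by rw [map_sub, h.1.n, h1]) (fun t => by rw [h3, map_add, h.1, h1.n])
  rw [h4] at h3
  rw [← sub_eq_zero.1 h4] at h3 ⊢
  exact ⟨rfl, eq_neg_of_add_eq_zero_right h3.symm⟩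

theorem W1.sc_sq {x : W} (h : W1 ρ x) {a : F} (ha : a ≠ 0) :
    sc ρ (a ^ 2) x = ρ (hD (a⁻¹ * a⁻¹) (by simpa)) x := by
  have h1 : x = ρ (hD a ha) (ρ (hD a⁻¹ (inv_ne_zero ha)) x) := by
    rw [← Module.End.mul_apply, ← map_mul, hD_mul]
    simp [ha, hD_one]
  have h2 : ρ (slU (a ^ 2)) x - x = ρ nW (ρ (hD (a⁻¹ * a⁻¹) (by simpa)) x) := by
    conv_lhs => rw [h1, ← mul_one (a ^ 2), ap_eq (U_mul_hD a ha 1), ← map_sub,
      ((h.h (inv_ne_zero ha)).one hI).1, ap_eq (hD_mul_nW a ha), ← Module.End.mul_apply (ρ (hD _ _)),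
      ← map_mul, hD_mul]
  simp only [sc, LinearMap.neg_apply, Module.End.mul_apply, LinearMap.sub_apply, Module.End.one_apply]
  rw [h2, ((h.h _).one hI).2, neg_neg]

theorem W1.sc_one {x : W} (h : W1 ρ x) : sc ρ 1 x = x := by
  simp only [sc, LinearMap.neg_apply, Module.End.mul_apply, LinearMap.sub_apply, Module.End.one_apply]
  rw [(h.one hI).1, (h.one hI).2, neg_neg]

variable [Finite F]

theorem W1.sc_mem {x : W} (h : W1 ρ x) (t : F) : W1 ρ (sc ρ t x) := by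
  have key : ∀ a : F, W1 ρ (sc ρ (a ^ 2) x) := fun a => by
    by_cases ha : a = 0
    · rw [ha, zero_pow two_ne_zero, sc_zero]
      exact ⟨fun _ => map_zero _, fun _ _ => by simp⟩
    · exact h.sc_sq hI ha ▸ h.h _
  obtain ⟨a, b, rfl⟩ := FAut.exists_eq_sq_add_sq t
  exact h.sc_add _ _ ▸ (key a).add (key b)

theorem W1.sc_mul {x : W} (h : W1 ρ x) (s t : F) : sc ρ s (sc ρ t x) = sc ρ (s * t) x := by
  have key : ∀ a b : F, sc ρ (a ^ 2) (sc ρ (b ^ 2) x) = sc ρ (a ^ 2 * b ^ 2) x := fun a b => by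
    by_cases ha : a = 0
    · simp [ha, sc_zero]
    by_cases hb : b = 0
    · simp [hb, sc_zero]
    rw [← mul_pow, h.sc_sq hI hb, (h.h _).sc_sq hI ha, h.sc_sq hI (mul_ne_zero ha hb),
      ← Module.End.mul_apply, ← map_mul, hD_mul]
    congr 3
    ring
  obtain ⟨a, b, rfl⟩ := FAut.exists_eq_sq_add_sq s
  obtain ⟨c, d, rfl⟩ := FAut.exists_eq_sq_add_sq t
  rw [(h.sc_mem hI _).sc_add, h.sc_add, map_add, map_add, key, key, key, key, ← h.sc_add, ← h.sc_add,
    ← h.sc_add]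
  congr 2
  ring

theorem W1.u_eq {x : W} (h : W1 ρ x) (t : F) : ρ (slU t) x = x + ρ nW (sc ρ t x) := by
  have h1 : ρ nW (ρ nW (ρ nW (sc ρ t x))) = ρ nW (ρ nW (ρ (slU t) x - x)) := by
    rw [((h.sc_mem hI t).one hI).2, map_neg, ← map_neg]
    simp [sc]
  have h2 := congrArg (fun y => ρ nW (ρ nW y)) h1
  simp only [← Module.End.mul_apply, ← map_mul, ← mul_assoc, nW_four, one_mul, map_one,
    Module.End.one_apply] at h2
  rw [← Module.End.mul_apply, h2]; abel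

/-- An irreducible module with a quadratic vector is natural. -/
theorem exists_nat (hirr : ∀ M : AddSubgroup W, (∀ g, ∀ x ∈ M, ρ g x ∈ M) → M = ⊥ ∨ M = ⊤)
    {x : W} (h : W1 ρ x) (h0 : x ≠ 0) :
    ∃ ψ : (Fin 2 → F) ≃+ W, ∀ g y, ρ g (ψ y) = ψ (g.1.mulVec y) := by
  let χ : (Fin 2 → F) →+ W := AddMonoidHom.mk' (fun y => ρ nW (sc ρ (y 0) x) + sc ρ (y 1) x)
    fun y z => by simp only [Pi.add_apply, h.sc_add, map_add]; abel
  have hχ : ∀ y, χ y = ρ nW (sc ρ (y 0) x) + sc ρ (y 1) x := fun _ => rfl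
  have he : ∀ g y, ρ g (χ y) = χ (g.1.mulVec y) := sl2_ind (fun g k hg hk y => by
    rw [map_mul, Module.End.mul_apply, hk, hg, mulVec_mulVec]; rfl) (fun t y => by
      rw [hχ, hχ, map_add, (h.sc_mem hI _).1.n, (h.sc_mem hI _).u_eq hI, h.sc_mul hI]
      simp [mulVec, dotProduct, h.sc_add]
      abel) fun y => by
      have h1 := h.sc_add (y 0) (-y 0)
      rw [add_neg_cancel, sc_zero] at h1
      rw [hχ, hχ, map_add, ((h.sc_mem hI _).one hI).2, coe_nW, neg_eq_of_add_eq_zero_right h1.symm]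
      simp [mulVec, dotProduct, add_comm]
  have hz : ∀ a, sc ρ a x = 0 → a = 0 := fun a e => by
    by_contra ha
    exact h0 (by rw [← h.sc_one hI, ← inv_mul_cancel₀ ha, ← h.sc_mul hI, e, map_zero])
  refine ⟨AddEquiv.ofBijective χ ⟨(injective_iff_map_eq_zero χ).2 fun y e => ?_, ?_⟩, he⟩
  · rw [hχ] at e
    have h1 : sc ρ (y 1) x = 0 := hI _ (fun t => by
      rw [← neg_eq_of_add_eq_zero_right e, map_neg, (h.sc_mem hI _).1.n]) (h.sc_mem hI _).1
    rw [h1, add_zero] at e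
    have h2 := ((h.sc_mem hI (y 0)).one hI).2
    rw [e, map_zero, eq_comm, neg_eq_zero] at h2
    funext i
    fin_cases i
    exacts [hz _ h2, hz _ h1]
  · refine AddMonoidHom.range_eq_top.1 ((hirr _ ?_).resolve_left fun e => h0 ?_)
    · rintro g _ ⟨y, rfl⟩
      exact ⟨_, (he g y).symm⟩
    · refine AddSubgroup.mem_bot.1 (e ▸ ⟨![0, 1], ?_⟩)
      simp [hχ, sc_zero, h.sc_one hI]

omit [Finite F] in
theorem exists_W1_of_quad (hq : ∀ t x, V0 ρ (ρ (slU t) x - x)) (hn : ∃ g x, ρ g x ≠ x) :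
    ∃ x, W1 ρ x ∧ x ≠ 0 := by
  by_contra! h
  have h1 : ∀ t x, ρ (slU t) x = x := fun t x => by
    have h2 := congrArg (ρ (nW * nW * nW)) (h _ ⟨(hq t x).n, fun s => hq s _⟩)
    rwa [← Module.End.mul_apply, ← map_mul, nW_four, map_one, map_zero, Module.End.one_apply,
      sub_eq_zero] at h2
  obtain ⟨g, x, hx⟩ := hn
  have h2 := congrArg (ρ (nW * nW * nW)) (hI _ (h1 · _) (V0.n (h1 · x)))
  rw [← Module.End.mul_apply, ← map_mul, nW_four, map_one, map_zero, Module.End.one_apply] at h2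
  exact hx (by rw [h2, map_zero])

theorem exists_W1_of_card [Finite W] {p : ℕ} [Fact p.Prime] [CharP F p] (hp : ∀ x : W, p • x = 0)
    (hc : Nat.card W ≤ Nat.card {x // V0 ρ x} ^ 2) (hn : ∃ g x, ρ g x ≠ x) :
    ∃ x, W1 ρ x ∧ x ≠ 0 := by
  classical
  by_cases h0 : ∀ x, V0 ρ x
  · exact exists_W1_of_quad hI (fun _ _ => h0 _) hn
  obtain ⟨w0, hw0⟩ := not_forall.1 h0
  have : Nontrivial W := ⟨⟨w0, 0, by rintro rfl; exact hw0 fun _ => map_zero _⟩⟩
  have : CharP (Module.End ℤ W) p := (CharP.charP_iff_prime_eq_zero Fact.out).2 (by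
    ext x; simpa using hp x)
  have hc' : ∀ s t : F, Commute (ρ (slU s)) (ρ (slU t) - 1) := fun s t =>
    Commute.sub_right (by rw [Commute, SemiconjBy, ← map_mul, ← map_mul, ← slU_add, ← slU_add, add_comm])
      (Commute.one_right _)
  have key : ∀ T : Finset F, ∃ w, ¬ V0 ρ w ∧ ∀ t ∈ T, V0 ρ (ρ (slU t) w - w) := fun T => by
    induction T using Finset.induction_on with
    | empty => exact ⟨w0, hw0, by simp⟩
    | insert s T _ ih =>
      obtain ⟨w, h1, h2⟩ := ih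
      have h3 : ∃ k : ℕ, V0 ρ (((ρ (slU s) - 1) ^ k : Module.End ℤ W) w) := ⟨p, fun t => by
        rw [sub_pow_char_of_commute p (Commute.one_right _), ← map_pow, slU_pow_char]
        simp⟩
      obtain ⟨k, hk⟩ := Nat.exists_eq_succ_of_ne_zero (n := Nat.find h3) fun e => h1 (by
        simpa [e] using Nat.find_spec h3)
      refine ⟨((ρ (slU s) - 1) ^ k) w, Nat.find_min h3 (by omega), fun t ht => ?_⟩
      rcases Finset.mem_insert.1 ht with rfl | ht
      · simpa [hk, pow_succ'] using Nat.find_spec h3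
      · intro r
        rw [← Module.End.mul_apply (ρ (slU t)), ((hc' t s).pow_right k).eq, Module.End.mul_apply,
          ← map_sub, ← Module.End.mul_apply, ((hc' r s).pow_right k).eq, Module.End.mul_apply, h2 t ht]
  have := Fintype.ofFinite F
  obtain ⟨w, h1, h2⟩ := key Finset.univ
  let f : {x // V0 ρ x} × {x // V0 ρ x} → W := fun y => y.1.1 + ρ nW y.2.1
  have hf : Function.Injective f := fun y z e => by
    have e : y.1.1 + ρ nW y.2.1 = z.1.1 + ρ nW z.2.1 := e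
    have h3 : y.1.1 - z.1.1 = ρ nW z.2.1 - ρ nW y.2.1 := by
      rw [sub_eq_sub_iff_add_eq_add, e, add_comm]
    have h4 := hI (y.1.1 - z.1.1) (fun t => by rw [map_sub, y.1.2, z.1.2]) fun t => by
      rw [h3, map_sub, y.2.2.n, z.2.2.n]
    rw [h4, ← map_sub] at h3
    have h5 := congrArg (ρ (nW * nW * nW)) h3
    rw [← Module.End.mul_apply (ρ _) (ρ _), ← map_mul, nW_four, map_one, map_zero,
      Module.End.one_apply] at h5
    exact Prod.ext (Subtype.ext (sub_eq_zero.1 h4)) (Subtype.ext (sub_eq_zero.1 h5.symm).symm)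
  obtain ⟨y, hy⟩ := ((Nat.bijective_iff_injective_and_card f).2 ⟨hf, le_antisymm
    (Nat.card_le_card_of_injective f hf) (by rwa [Nat.card_prod, ← sq])⟩).2 w
  have hy : y.1.1 + ρ nW y.2.1 = w := hy
  refine ⟨ρ nW y.2.1, ⟨y.2.2.n, fun t => ?_⟩, fun e => h1 (by rw [← hy, e, add_zero]; exact y.1.2)⟩
  have := h2 t (Finset.mem_univ t)
  rwa [← hy, map_add, y.1.2, add_sub_add_left_eq_sub] at this

end Nat

end Cfsg.Lib.Trans.SL2Nat
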