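import Cfsg.Agent.Local.PMinimal
import Cfsg.Agent.Solv.CoprimeSylow
import Cfsg.Agent.Solv.ClassSize
import Cfsg.Agent.Solv.NilpotentHall
import Cfsg.Agent.Trans.GenFitting
import Cfsg.Agent.Trans.CriticalOmega

/-!
Isolated `p`-minimal subgroups (Meierfrankenfeld, Parker, Rowley): `E` plays the part of `O^p(P)`,
`L` of the subgroup generated by `N(S)` and the other `p`-minimal overgroups of `S`, `Q` of `O_p(L)`.
-/

set_option autoImplicit false

namespace Cfsg.Lib.Trans.IsoPM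

open Subgroup Cfsg.Lib Cfsg.Lib.Local
open scoped commutatorElement

variable {G : Type*} [Group G] [Finite G] {p : ℕ} [hp : Fact p.Prime] {S E L Q : Subgroup G}

theorem le_of_le_ncl {R : Subgroup G} (hR : IsPGroup p R) (hE : E ≤ R) (h : R ≤ MSS.ncl E R) :
    R ≤ E := by
  by_contra hne
  have h1 : E.subgroupOf R ≠ ⊤ := fun e => hne (subgroupOf_eq_top.1 e)
  obtain ⟨M, hM, hEM⟩ := (eq_top_or_exists_le_coatom _).resolve_left h1
  have := hR.isNilpotent
  have := Solv.normal_of_isCoatom_of_isNilpotent hM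
  rw [← MSS.map_normalClosure_eq_ncl hE] at h
  apply hM.1
  rw [eq_top_iff]
  intro x _
  obtain ⟨y, hy, e⟩ := h x.2
  exact (Subtype.ext e : y = x) ▸ normalClosure_le_normal hEM hy

/-- The abstract set-up. -/
structure Hyp (p : ℕ) (S E L Q : Subgroup G) : Prop where
  syl : IsSylowIn p S ⊤
  SL : S ≤ L
  QS : Q ≤ S
  LQ : L ≤ normalizer (Q : Set G)
  SE : S ≤ normalizer (E : Set G)
  res : resOf p E = E
  EQ : E ≤ ⁅E, Q⁆
  nle : ¬ E ≤ L
  dich : ∀ H, S ≤ H → H ≤ L ∨ (E ≤ H ∧ H ≤ E ⊔ (H ⊓ L))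

namespace Hyp

theorem map {G' : Type*} [Group G'] [Finite G'] (h : Hyp p S E L Q) (f : G →* G')
    (hf : Function.Surjective f) (hk : f.ker ≤ L) :
    Hyp p (S.map f) (E.map f) (L.map f) (Q.map f) := by
  refine ⟨?_, map_mono h.SL, map_mono h.QS, (map_mono h.LQ).trans (le_normalizer_map f),
    (map_mono h.SE).trans (le_normalizer_map f), by rw [← map_resOf, h.res],
    by rw [← map_commutator]; exact map_mono h.EQ, fun e => h.nle ?_, fun H hH => ?_⟩
  · have := h.syl.map f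
    rwa [← MonoidHom.range_eq_map, MonoidHom.range_eq_top.2 hf] at this
  · rwa [map_le_iff_le_comap, comap_map_eq, sup_eq_left.2 hk] at e
  · have e := map_comap_eq_self_of_surjective hf H
    rcases h.dich (H.comap f) (map_le_iff_le_comap.1 hH) with h1 | ⟨h1, h2⟩
    · exact Or.inl (e ▸ map_mono h1)
    · refine Or.inr ⟨map_le_iff_le_comap.2 h1, e.ge.trans ((map_mono h2).trans ?_)⟩
      rw [Subgroup.map_sup]
      exact sup_le_sup_left ((map_inf_le _ _ f).trans (by rw [e])) _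

theorem sup_eq_top (h : Hyp p S E L Q) : E ⊔ L = ⊤ := by
  rcases h.dich ⊤ le_top with h1 | ⟨-, h1⟩
  · exact absurd (le_top.trans h1) h.nle
  · rwa [top_inf_eq, top_le_iff] at h1

theorem le_of_not_le (h : Hyp p S E L Q) {X : Subgroup G} (hX : S ≤ normalizer (X : Set G))
    (hL : ¬ X ≤ L) : E ≤ X := by
  rcases h.dich (X ⊔ S) le_sup_right with h1 | ⟨h1, -⟩
  · exact absurd (le_sup_left.trans h1) hL
  · rw [← h.res]
    exact resOf_le_of_le_sup h.syl.isPGroup hX h1

theorem le_sup_inf (h : Hyp p S E L Q) {X : Subgroup G} (hX : S ≤ normalizer (X : Set G))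
    (hL : ¬ X ≤ L) (hc : (Nat.card X).Coprime p) : X ≤ E ⊔ (X ⊓ L) := by
  rcases h.dich (X ⊔ S) le_sup_right with h1 | ⟨-, h1⟩
  · exact absurd (le_sup_left.trans h1) hL
  · rw [inf_comm, sup_comm X, inf_sup_of_le_of_le_normalizer' h.SL hX, inf_comm L, sup_comm S (X ⊓ L),
      ← sup_assoc] at h1
    refine le_trans (MSS.resOf_eq_self_of_coprime hc).ge (resOf_le_of_le_sup h.syl.isPGroup
      (Solv.le_normalizer_sup h.SE (Solv.le_normalizer_inf hX (h.SL.trans le_normalizer)))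
      (le_sup_right.trans h1))

theorem commutator_le (h : Hyp p S E L Q) {X : Subgroup G} (hX : Q ≤ normalizer (X : Set G))
    (hL : X ≤ L) : ⁅X, Q⁆ ≤ X ⊓ Q := commutator_le_inf_of_le_normalizer (hL.trans h.LQ) hX

theorem commutator_eq_bot (h : Hyp p S E L Q) {X : Subgroup G} (hX : Q ≤ normalizer (X : Set G))
    (hL : X ≤ L) (hc : (Nat.card X).Coprime p) : ⁅X, Q⁆ = ⊥ := by
  rw [eq_bot_iff, ← inf_eq_bot_of_coprime_of_isPGroup hc (h.syl.isPGroup.to_le h.QS)]
  exact h.commutator_le hX hL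

theorem ne_bot (h : Hyp p S E L Q) : E ≠ ⊥ := fun e => h.nle (e ▸ bot_le)

theorem commutator_le_of_isPGroup (h : Hyp p S E L Q) {r : ℕ} [Fact r.Prime] {R : Subgroup G}
    (hR : IsPGroup r R) (hX : S ≤ normalizer (R : Set G)) (hL : ¬ R ≤ L)
    (hc : (Nat.card R).Coprime p) : ⁅R, Q⁆ ≤ E := by
  have hQ := h.syl.isPGroup.to_le h.QS
  have h1 : ⁅R, Q⁆ ≤ R := Solv.commutator_le_left_of_le_normalizer (h.QS.trans hX)
  have h2 : ⁅⁅R, Q⁆, Q⁆ = ⁅R, Q⁆ := Solv.Coprime.commutator_commutator (h.QS.trans hX)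
    (Solv.coprime_card_of_isPGroup hQ hc)
  have h3 : E ≤ ⁅R, Q⁆ := h.EQ.trans (commutator_mono (h.le_of_not_le hX hL) le_rfl)
  have h4 : S ≤ normalizer ((⁅R, Q⁆ : Subgroup G) : Set G) :=
    (le_inf hX (h.SL.trans h.LQ)).trans (normalizer_le_normalizer_commutator R Q)
  have h5 : (Nat.card (⁅R, Q⁆ : Subgroup G)).Coprime p :=
    Nat.Coprime.coprime_dvd_left (card_dvd_of_le h1) hc
  generalize ⁅R, Q⁆ = R₁ at *
  refine le_of_le_ncl (hR.to_le h1) h3 (h2.ge.trans ((commutator_mono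
    (h.le_sup_inf h4 (fun e => h.nle (h3.trans e)) h5) le_rfl).trans (sup_commutator_le
      (h3.trans (MSS.le_normalizer_ncl _ _)) (inf_le_left.trans (MSS.le_normalizer_ncl _ _))
      ((Solv.commutator_le_left_of_le_normalizer (h.QS.trans h.SE)).trans (MSS.le_ncl _ _)) ?_)))
  rw [h.commutator_eq_bot (Solv.le_normalizer_inf (h.QS.trans h4)
    (h.QS.trans (h.SL.trans le_normalizer))) inf_le_right
    (Nat.Coprime.coprime_dvd_left (card_dvd_of_le inf_le_left) h5)]
  exact bot_le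

theorem nilpotencyClass_le (h : Hyp p S E L Q) [E.Normal] {t : ℕ} [Fact t.Prime] (htp : t ≠ p)
    (hE : IsPGroup t E) : (⊤ : Subgroup E).lowerCentralSeries 2 = ⊥ := by
  obtain ⟨D, hD, -, -, h1, h2⟩ := exists_characteristic_critical_omega hE
  have hc : (Nat.card E).Coprime p := by
    obtain ⟨k, hk⟩ := hE.exists_card_eq
    rw [hk]
    exact Nat.Coprime.pow_left k ((Nat.coprime_primes Fact.out hp.out).2 htp)
  have hn : (D.map E.subtype).Normal := inferInstance
  have h3 : ¬ D.map E.subtype ≤ L := by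
    intro hL
    have h4 := h.commutator_eq_bot le_normalizer_of_normal hL (by
      rw [Solv.card_map_subtype]
      exact Nat.Coprime.coprime_dvd_left (card_subgroup_dvd_card D) hc)
    apply h.ne_bot
    rw [eq_bot_iff]
    refine h.EQ.trans (commutator_eq_bot_of_forall_commute fun a ha q hq => ?_).le
    obtain ⟨k, hk⟩ := h.syl.isPGroup ⟨q, h.QS hq⟩
    have h5 : MulAut.conjNormal (H := E) q = 1 := by
      refine h2 _ ?_ fun d hd => Subtype.ext ?_
      · have : orderOf (MulAut.conjNormal (H := E) q) ∣ p ^ k := by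
          apply orderOf_dvd_of_pow_eq_one
          rw [← map_pow, show q ^ p ^ k = 1 from congrArg Subtype.val hk, map_one]
        exact Nat.Coprime.coprime_dvd_left this
          (Nat.Coprime.pow_left k ((Nat.coprime_primes hp.out Fact.out).2 htp.symm))
      · have h7 : (d : G) * q = q * d := commute_of_commutator_eq_bot h4 ⟨d, hd, rfl⟩ hq
        rw [MulAut.conjNormal_apply, ← h7, mul_inv_cancel_right]
    have h6 := congrArg (fun α : MulAut E => (α ⟨a, ha⟩ : G)) h5
    simp only [MulAut.conjNormal_apply, MulAut.one_apply] at h6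
    rw [← mul_inv_eq_iff_eq_mul.1 h6]
  have h4 : D = ⊤ := by
    rw [eq_top_iff]
    intro x _
    obtain ⟨y, hy, e⟩ := h.le_of_not_le le_normalizer_of_normal h3 x.2
    exact (Subtype.ext e : y = x) ▸ hy
  subst h4
  exact commutator_eq_bot_iff_le_centralizer.2 (h1.trans inf_le_right)

theorem coprime_case (h : Hyp p S E L Q) (N : Subgroup G) [hN : N.Normal]
    (hc : (Nat.card N).Coprime p) (hL : ¬ N ≤ L) :
    E.Normal ∧ ∃ t : ℕ, t.Prime ∧ t ≠ p ∧ IsPGroup t E ∧
      (⊤ : Subgroup E).lowerCentralSeries 2 = ⊥ := by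
  have hcop : (Nat.card S).Coprime (Nat.card N) := Solv.coprime_card_of_isPGroup h.syl.isPGroup hc
  have hsol : Group.IsSolvable S ∨ Group.IsSolvable N :=
    Or.inl (by have := h.syl.isPGroup.isNilpotent; infer_instance)
  obtain ⟨r, hr, R₀, hR₀N, hR₀, hSR₀, hR₀L⟩ : ∃ (r : ℕ) (_ : Fact r.Prime) (R : Subgroup G),
      R ≤ N ∧ IsPGroup r R ∧ S ≤ normalizer (R : Set G) ∧ ¬ R ≤ L := by
    by_contra hne
    push Not at hne
    exact hL (Solv.Coprime.le_of_forall_invariant_pgroup_le le_normalizer_of_normal hcop hsol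
      fun q _ P h1 h2 h3 => hne q inferInstance P h1 h2 h3)
  obtain ⟨R, h1, hRN, hR, hRs, hSR⟩ := Solv.Coprime.exists_le_invariant_sylow'
    le_normalizer_of_normal hcop hsol hR₀N hR₀ hSR₀
  have hRL : ¬ R ≤ L := fun e => hR₀L (h1.trans e)
  have hER := h.le_of_not_le hSR hRL
  have hRc : (Nat.card R).Coprime p := Nat.Coprime.coprime_dvd_left (card_dvd_of_le hRN) hc
  have hrp : r ≠ p := by
    rintro rfl
    have := inf_eq_bot_of_coprime_of_isPGroup hRc hR
    rw [inf_idem] at this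
    exact hRL (this ▸ bot_le)
  have hidx : (R.relIndex N).Coprime (L.relIndex N) := by
    refine Nat.coprime_of_dvd fun s hs h2 h3 => ?_
    have : Fact s.Prime := ⟨hs⟩
    have hsr : s ≠ r := fun e => hRs (e ▸ h2)
    obtain ⟨T, -, hT, hTs, hST⟩ := Solv.Coprime.exists_invariant_sylow'
      le_normalizer_of_normal hcop hsol s
    refine hTs (h3.trans (relIndex_dvd_of_le_left N ?_))
    by_contra hTL
    have h4 := IsPGroup.disjoint_of_ne s r hsr T R hT hR
    exact h.ne_bot (eq_bot_iff.2 (h4.eq_bot ▸ le_inf (h.le_of_not_le hST hTL) hER))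
  have h2 : ⁅N, Q⁆ ≤ E := by
    refine le_trans (Subgroup.commutator_le.2 fun n hn q hq => ?_)
      (h.commutator_le_of_isPGroup hR hSR hRL hRc)
    obtain ⟨x, hx, c, hc', rfl⟩ := Solv.ClassSize.forall_mul_of_coprime_relIndex hidx hn
    have h3 := commute_of_commutator_eq_bot (h.commutator_eq_bot (X := L ⊓ N)
      (Solv.le_normalizer_inf (h.QS.trans (h.SL.trans le_normalizer)) le_normalizer_of_normal)
      inf_le_left (Nat.Coprime.coprime_dvd_left (card_dvd_of_le inf_le_right) hc)) hc' hq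
    have : ⁅x * c, q⁆ = ⁅x, q⁆ := by
      rw [commutatorElement_def, commutatorElement_def]
      calc x * c * q * (x * c)⁻¹ * q⁻¹ = x * (c * q) * c⁻¹ * x⁻¹ * q⁻¹ := by group
        _ = _ := by rw [h3]; group
    rw [this]
    exact commutator_mem_commutator hx.1 hq
  have h3 : E = ⁅N, Q⁆ :=
    le_antisymm (h.EQ.trans (commutator_mono (hER.trans hRN) le_rfl)) h2
  have hEn : E.Normal := by
    rw [← normalizer_eq_top_iff, eq_top_iff, ← h.sup_eq_top]
    refine sup_le le_normalizer ?_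
    conv_rhs => rw [h3]
    exact (le_inf le_normalizer_of_normal h.LQ).trans (normalizer_le_normalizer_commutator N Q)
  exact ⟨hEn, r, hr.out, hrp, hR.to_le hER, h.nilpotencyClass_le hrp (hR.to_le hER)⟩

theorem genFitting_not_le (h : Hyp p S E L Q) (hO : pCore p G = ⊥) :
    ¬ generalizedFittingSubgroup G ≤ L := by
  intro hL
  have hQ := h.syl.isPGroup.to_le h.QS
  have h1 : generalizedFittingSubgroup G ⊓ Q = ⊥ := by
    rw [eq_bot_iff, ← hO]
    exact Solv.le_pCore_of_isSubnormal (isSubnormal_of_le_normalizer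
      (genFitting_normal G).isSubnormal inf_le_left
      (Solv.le_normalizer_inf le_normalizer (hL.trans h.LQ))) hQ.to_inf_right
  have h2 := h.commutator_le le_normalizer_of_normal hL
  rw [h1, le_bot_iff] at h2
  have h3 := Solv.le_pCore_of_le_fitting hQ ((commutator_eq_bot_iff_le_centralizer.1
    (commutator_eq_bot_symm h2)).trans (centralizer_genFitting_le_fitting G))
  rw [hO, le_bot_iff] at h3
  have h4 := h.EQ
  rw [h3, commutator_bot_right, le_bot_iff] at h4
  exact h.ne_bot h4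

theorem le_genFitting (h : Hyp p S E L Q) (hO : pCore p G = ⊥) :
    E ≤ generalizedFittingSubgroup G :=
  h.le_of_not_le le_normalizer_of_normal (h.genFitting_not_le hO)

omit hp in
theorem le_normalizer_sSup {A : Subgroup G} {T : Set (Subgroup G)}
    (h : ∀ a ∈ A, ∀ K ∈ T, cj a K ∈ T) : A ≤ normalizer ((sSup T : Subgroup G) : Set G) := by
  intro a ha
  apply mem_normalizer_of_cj_le
  rw [cj_le_iff_le_cj_inv]
  exact sSup_le fun K hK => cj_le_iff_le_cj_inv.1 (le_sSup (h a ha K hK))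

omit hp in
theorem inf_centralizer_le_fitting {N : Subgroup G} (hN : N.IsSubnormal) :
    N ⊓ centralizer (N : Set G) ≤ fittingSubgroup G := by
  refine Solv.le_fitting_of_isSubnormal (isSubnormal_of_le_normalizer hN inf_le_left
    (Solv.le_normalizer_inf le_normalizer (Solv.le_normalizer_centralizer le_normalizer))) ?_
  have : IsMulCommutative (N ⊓ centralizer (N : Set G) : Subgroup G) :=
    ⟨⟨fun a b => Subtype.ext (b.2.2 a a.2.1)⟩⟩
  exact Solv.isNilpotent_of_isMulCommutative _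

theorem main (h : Hyp p S E L Q) (hO : pCore p G = ⊥) {Y : Subgroup G}
    (hY : Y = normalClosure (E : Set G)) :
    (E.Normal ∧ ∃ t : ℕ, t.Prime ∧ t ≠ p ∧ IsPGroup t E ∧
      (⊤ : Subgroup E).lowerCentralSeries 2 = ⊥) ∨
    (p ∣ Nat.card Y ∧ ¬ Group.IsSolvable Y ∧ layer Y = ⊤ ∧ ∀ K₁ K₂ : Subgroup G, IsComponent K₁ →
      IsComponent K₂ → K₁ ≤ Y → K₂ ≤ Y → ∃ s ∈ S, K₂ = cj s K₁) := by
  have hYn : Y.Normal := hY ▸ inferInstance
  have hEY : E ≤ Y := hY ▸ le_normalClosure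
  by_cases hd : p ∣ Nat.card Y
  swap
  · exact Or.inl (h.coprime_case Y (coprime_iff_not_dvd'.2 hd) fun e => h.nle (hEY.trans e))
  by_cases hFL : fittingSubgroup G ≤ L
  swap
  · refine Or.inl (h.coprime_case _ ?_ hFL)
    have h1 := Solv.fitting_eq_pCore_sup_inf_pPrimeCore p G
    rw [hO, bot_sup_eq] at h1
    exact Nat.Coprime.coprime_dvd_left (card_dvd_of_le (h1.le.trans inf_le_right))
      (Solv.coprime_card_pPrimeCore p G)
  right
  have hZ : ∀ N : Subgroup G, N.IsSubnormal → E ≤ N → ¬ E ≤ centralizer (N : Set G) :=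
    fun N hN h1 h2 => h.nle ((le_inf h1 h2).trans ((inf_centralizer_le_fitting hN).trans hFL))
  have horb : ∀ K : Subgroup G, IsComponent K → ¬ K ≤ L →
      E ≤ sSup {K' | ∃ s ∈ S, K' = cj s K} := by
    intro K hK hKL
    refine h.le_of_not_le (le_normalizer_sSup ?_) fun e => hKL
      (le_trans (le_sSup (by exact ⟨1, one_mem _, (cj_one K).symm⟩)) e)
    rintro a ha _ ⟨s, hs, rfl⟩
    exact ⟨a * s, mul_mem ha hs, cj_cj _ _ _⟩
  have hcomp : ∀ K : Subgroup G, IsComponent K → ∀ K' ∈ {K' | ∃ s ∈ S, K' = cj s K},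
      IsComponent K' := by
    rintro K hK _ ⟨s, -, rfl⟩
    exact IsComponent.map_conj hK s
  have htr : ∀ K₁ K₂ : Subgroup G, IsComponent K₁ → IsComponent K₂ → ¬ K₁ ≤ L → ¬ K₂ ≤ L →
      ∃ s ∈ S, K₂ = cj s K₁ := by
    intro K₁ K₂ h1 h2 h3 h4
    by_contra hne
    refine hZ _ (isSubnormal_sSup_components (hcomp K₁ h1)) (horb K₁ h1 h3)
      ((horb K₂ h2 h4).trans (commutator_eq_bot_iff_le_centralizer.1
        (commutator_sSup_eq_bot_left fun A hA => ?_)))
    refine IsComponent.commutator_sSup_eq_bot (hcomp K₂ h2 A hA) (hcomp K₁ h1) ?_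
    obtain ⟨s, hs, rfl⟩ := hA
    rintro ⟨s', hs', e⟩
    exact hne ⟨s⁻¹ * s', mul_mem (inv_mem hs) hs', by rw [cj_mul, ← e, cj_inv_cj]⟩
  obtain ⟨K, hK, hKL⟩ : ∃ K : Subgroup G, IsComponent K ∧ ¬ K ≤ L := by
    by_contra hne
    push Not at hne
    exact h.genFitting_not_le hO (sup_le (layer_le_iff.2 hne) hFL)
  have hLN : L ≤ normalizer ((sSup {K' | IsComponent K' ∧ ¬ K' ≤ L} : Subgroup G) : Set G) :=
    le_normalizer_sSup fun a ha K' hK' => ⟨IsComponent.map_conj hK'.1 a, fun e => hK'.2 (by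
      rwa [← cj_eq_of_mem ha, cj_le_cj] at e)⟩
  have hEN := h.le_of_not_le (h.SL.trans hLN) fun e =>
    hKL (le_trans (le_sSup (by exact ⟨hK, hKL⟩)) e)
  have hNn : (sSup {K' | IsComponent K' ∧ ¬ K' ≤ L} : Subgroup G).Normal := by
    rw [← normalizer_eq_top_iff, eq_top_iff, ← h.sup_eq_top]
    exact sup_le (hEN.trans le_normalizer) hLN
  have hYN : Y ≤ sSup {K' | IsComponent K' ∧ ¬ K' ≤ L} := hY ▸ normalClosure_le_normal hEN
  have hKY : ∀ K' : Subgroup G, IsComponent K' → ¬ K' ≤ L → K' ≤ Y := by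
    intro K' h1 h2
    refine (IsComponent.le_or_commutator_eq_bot h1 hYn.isSubnormal).resolve_right fun h3 => ?_
    refine hZ _ hNn.isSubnormal hEN (hEY.trans (le_centralizer_iff.1 (sSup_le fun A hA => ?_)))
    obtain ⟨s, -, rfl⟩ := htr K' A h1 hA.1 h2 hA.2
    rw [← cj_eq_of_normal s (centralizer (Y : Set G))]
    exact cj_mono s (commutator_eq_bot_iff_le_centralizer.1 h3)
  refine ⟨hd, fun hs => IsComponent.not_le_of_isSolvable hK hs (hKY K hK hKL), ?_,
    fun K₁ K₂ h1 h2 h3 h4 => htr K₁ K₂ h1 h2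
      (IsComponent.mem_of_le_sSup h1 (fun _ hL => hL.1) (h3.trans hYN)).2
      (IsComponent.mem_of_le_sSup h2 (fun _ hL => hL.1) (h4.trans hYN)).2⟩
  rw [eq_top_iff]
  intro x _
  obtain ⟨y, hy, e⟩ := (hYN.trans (sSup_le fun A hA =>
    IsComponent.le_map_layer_subtype hA.1 (hKY A hA.1 hA.2))) x.2
  exact (Subtype.ext e : y = x) ▸ hy

theorem map_pCore (h : Hyp p S E L Q) :
    Hyp p (S.map (QuotientGroup.mk' (pCore p G))) (E.map (QuotientGroup.mk' (pCore p G)))
      (L.map (QuotientGroup.mk' (pCore p G))) (Q.map (QuotientGroup.mk' (pCore p G))) :=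
  h.map _ (QuotientGroup.mk'_surjective _) (by
    rw [QuotientGroup.ker_mk']
    exact (h.syl.le_of_normal (Solv.pCore_isPGroup p G) le_top le_normalizer_of_normal).trans h.SL)

theorem lift (h : Hyp p S E L Q) {Y : Subgroup G} (hY : Y = normalClosure (E : Set G)) :
    (E = Y ∧ ∃ t : ℕ, t.Prime ∧ t ≠ p ∧ IsPGroup t (Y ⧸ pCore p Y) ∧
      ∃ _ : Group.IsNilpotent (Y ⧸ pCore p Y), Group.nilpotencyClass (Y ⧸ pCore p Y) ≤ 2) ∨
    (¬ Group.IsSolvable Y ∧ p ∣ Nat.card (Y ⧸ pCore p Y) ∧ layer (Y ⧸ pCore p Y) = ⊤ ∧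
      ∀ K₁ K₂ : Subgroup (Y ⧸ pCore p Y), IsComponent K₁ → IsComponent K₂ →
        ∃ s ∈ S, (K₂.comap (QuotientGroup.mk' (pCore p Y))).map Y.subtype =
          cj s ((K₁.comap (QuotientGroup.mk' (pCore p Y))).map Y.subtype)) := by
  have hYn : Y.Normal := hY ▸ inferInstance
  have hsurj := QuotientGroup.mk'_surjective (pCore p G)
  have hOS : pCore p G ≤ S :=
    h.syl.le_of_normal (Solv.pCore_isPGroup p G) le_top le_normalizer_of_normal
  have hY' : Y.map (QuotientGroup.mk' (pCore p G)) =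
      normalClosure ((E.map (QuotientGroup.mk' (pCore p G)) : Subgroup _) : Set _) := by
    rw [hY, map_normalClosure _ _ hsurj, coe_map]
  have hYn' : (Y.map (QuotientGroup.mk' (pCore p G))).Normal := hYn.map _ hsurj
  have hker : pCore p Y = ((QuotientGroup.mk' (pCore p G)).subgroupMap Y).ker := by
    ext y
    rw [← MSS.mem_pCoreOf_coe, pCoreOf, Solv.map_pCore_eq_inf_of_normal, MonoidHom.mem_ker,
      Subtype.ext_iff]
    exact ⟨fun h1 => (QuotientGroup.eq_one_iff _).2 h1.1,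
      fun h1 => ⟨(QuotientGroup.eq_one_iff _).1 h1, y.2⟩⟩
  obtain ⟨e, he⟩ : ∃ e : (Y ⧸ pCore p Y) ≃* Y.map (QuotientGroup.mk' (pCore p G)),
      ∀ y : Y, (e (QuotientGroup.mk y) : G ⧸ pCore p G) = QuotientGroup.mk (y : G) :=
    ⟨(QuotientGroup.quotientMulEquivOfEq hker).trans (QuotientGroup.quotientKerEquivOfSurjective _
      ((QuotientGroup.mk' (pCore p G)).subgroupMap_surjective Y)), fun _ => rfl⟩
  rcases h.map_pCore.main (Solv.pCore_quotient_pCore p G) hY' with
    ⟨hn, t, ht, htp, h1, h2⟩ | ⟨h1, h2, h3, h4⟩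
  · have hEn : E.Normal := by
      have h3 := hn.comap (QuotientGroup.mk' (pCore p G))
      rw [comap_map_eq, QuotientGroup.ker_mk'] at h3
      have h4 : (resOf p (E ⊔ pCore p G)).Normal := inferInstance
      rwa [resOf_sup_of_isPGroup (Solv.pCore_isPGroup p G) (hOS.trans h.SE), h.res] at h4
    have hEY : E = Y := by rw [hY, normalClosure_eq_self]
    subst hEY
    have : Fact t.Prime := ⟨ht⟩
    have h3 := h1.of_equiv e.symm
    have := h1.isNilpotent
    exact Or.inl ⟨rfl, t, ht, htp, h3, h3.isNilpotent,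
      (Group.nilpotencyClass_le_of_surjective e.symm.toMonoidHom e.symm.surjective).trans
        (Subgroup.lowerCentralSeries_eq_bot_iff_nilpotencyClass_le.1 h2)⟩
  · refine Or.inr ⟨fun hs => h2 ?_, by rwa [Nat.card_congr e.toEquiv], ?_, fun K₁ K₂ hK₁ hK₂ => ?_⟩
    · exact Group.isSolvable_of_surjective
        ((QuotientGroup.mk' (pCore p G)).subgroupMap_surjective Y)
    · rw [← comap_layer_equiv e, h3, comap_top]
    · have key : ∀ K : Subgroup (Y ⧸ pCore p Y),
          (K.comap (QuotientGroup.mk' (pCore p Y))).map Y.subtype =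
            ((K.map e.toMonoidHom).map (Subgroup.subtype _)).comap
              (QuotientGroup.mk' (pCore p G)) ⊓ Y := by
        intro K
        ext x
        constructor
        · rintro ⟨y, hy, rfl⟩
          exact ⟨⟨_, ⟨_, hy, rfl⟩, he y⟩, y.2⟩
        · rintro ⟨⟨_, ⟨k, hk, rfl⟩, e1⟩, hx⟩
          refine ⟨⟨x, hx⟩, ?_, rfl⟩
          have : k = QuotientGroup.mk ⟨x, hx⟩ :=
            e.injective (Subtype.ext (e1.trans (he ⟨x, hx⟩).symm))
          subst this
          exact hk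
      obtain ⟨_, ⟨s, hs, rfl⟩, e1⟩ := h4 _ _
        (IsComponent.map_subtype (IsComponent.map_equiv hK₁ e) hYn'.isSubnormal)
        (IsComponent.map_subtype (IsComponent.map_equiv hK₂ e) hYn'.isSubnormal)
        (map_subtype_le _) (map_subtype_le _)
      exact ⟨s, hs, by
        rw [key, key, cj_inf, cj_eq_of_normal s Y, ← comap_cj]
        exact congrArg (fun X => Subgroup.comap _ X ⊓ Y) e1⟩

end Hyp

theorem hyp_of_isolated (S : Sylow p G) {P L : Subgroup G} (hSP : (S : Subgroup G) ≤ P)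
    (hP : IsPMinimal p P)
    (hL : L = normalizer ((S : Subgroup G) : Set G) ⊔ ⨆ P' : {P' : Subgroup G //
      (S : Subgroup G) ≤ P' ∧ IsPMinimal p P' ∧ P' ≠ P}, (P' : Subgroup G))
    (hiso : ¬ pCoreOf p L ≤ pCoreOf p P) : Hyp p S (resOf p P) L (pCoreOf p L) := by
  have hNL : normalizer ((S : Subgroup G) : Set G) ≤ L := hL ▸ le_sup_left
  have hSL : (S : Subgroup G) ≤ L := le_normalizer.trans hNL
  have hQS := MSS.pCoreOf_le_sylow S hSL
  have hPE := resOf_sup_sylowIn (isSylowIn_of_le S hSP)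
  have hmin : ∀ P' : Subgroup G, (S : Subgroup G) ≤ P' → IsPMinimal p P' → P' ≠ P → P' ≤ L :=
    fun P' h1 h2 h3 => hL ▸ le_sup_of_le_right (le_iSup_of_le ⟨P', h1, h2, h3⟩ le_rfl)
  refine ⟨isSylowIn_top S, hSL, hQS, le_normalizer_pCoreOf L, hSP.trans (le_normalizer_resOf P),
    resOf_resOf P, (MSS.commutator_resOf_eq_of_isPIrreducible (MSS.isPIrreducible_of_isPMinimal hP)
      (isSylowIn_of_le S hSP) hQS (hSL.trans (le_normalizer_pCoreOf L)) hiso).ge, fun e => ?_,
    fun H hH => ?_⟩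
  · exact hiso (pCoreOf_le_of_le (hQS.trans hSP) (hPE ▸ sup_le e hSL))
  · have hH' := isSylowIn_of_le S hH
    by_cases hPH : P ≤ H
    · refine Or.inr ⟨(resOf_le P).trans hPH, (MSS.pElementClosure_sup_normalizer hH').ge.trans
        (sup_le (MSS.pElementClosure_le_of_forall_isPMinimal H hH'
          (le_sup_of_le_right (le_inf hH hSL)) fun P' h1 h2 h3 => ?_)
          (le_sup_of_le_right (inf_le_inf_left H hNL)))⟩
      by_cases e : P' = P
      · rw [e]
        conv_lhs => rw [← hPE]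
        exact sup_le_sup_left (le_inf hH hSL) _
      · exact le_sup_of_le_right (le_inf h2 (hmin P' h1 h3 e))
    · exact Or.inl ((MSS.pElementClosure_sup_normalizer hH').ge.trans
        (sup_le (MSS.pElementClosure_le_of_forall_isPMinimal H hH' hSL
          fun P' h1 h2 h3 => hmin P' h1 h3 fun e => hPH (e ▸ h2)) (inf_le_right.trans hNL)))

end Cfsg.Lib.Trans.IsoPM
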