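import Cfsg.Agent.Trans.JRepl
import Cfsg.Agent.Trans.ZJ

/-!
Thompson's replacement lemma for an arbitrary element `x` with `[x, A]` abelian.
-/

set_option autoImplicit false

open scoped commutatorElement

namespace Cfsg.Lib.Trans.TJ

open Cfsg Subgroup Cfsg.Lib.Solv

variable {G : Type*} [Group G] {n : ℕ}

/-- The subgroup generated by the commutators `[x, a]`, `a ∈ A`. -/
def eltComm (x : G) (A : Subgroup G) : Subgroup G := closure {g | ∃ a ∈ A, g = ⁅x, a⁆}

theorem mem_eltComm {x a : G} {A : Subgroup G} (ha : a ∈ A) : ⁅x, a⁆ ∈ eltComm x A :=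
  subset_closure ⟨a, ha, rfl⟩

theorem eltComm_le_iff {x : G} {A H : Subgroup G} : eltComm x A ≤ H ↔ ∀ a ∈ A, ⁅x, a⁆ ∈ H := by
  rw [eltComm, closure_le]
  exact ⟨fun h a ha => h ⟨a, ha, rfl⟩, by rintro h _ ⟨a, ha, rfl⟩; exact h a ha⟩

theorem le_normalizer_eltComm [Finite G] (x : G) (A : Subgroup G) :
    A ≤ normalizer (eltComm x A : Set G) := by
  intro e he
  refine mem_normalizer_of_cj_le ?_
  rw [cj_le_iff_le_cj_inv, eltComm_le_iff]
  intro a ha
  rw [mem_cj_inv]
  have : e * ⁅x, a⁆ * e⁻¹ = ⁅x, e⁆⁻¹ * ⁅x, e * a⁆ := by simp only [commutatorElement_def]; group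
  rw [this]
  exact mul_mem (inv_mem (mem_eltComm he)) (mem_eltComm (A.mul_mem he ha))

theorem mem_centralizer_eltComm {x c : G} {A : Subgroup G}
    (hA : ∀ a ∈ A, ∀ b ∈ A, a * b = b * a)
    (hM : ∀ a ∈ eltComm x A, ∀ b ∈ eltComm x A, a * b = b * a) (hc : c ∈ A)
    (h : ⁅x, c⁆ ∈ centralizer (A : Set G)) : c ∈ centralizer (eltComm x A : Set G) := by
  rw [← zpowers_le, ← le_centralizer_iff, eltComm_le_iff]
  intro e he
  rw [mem_centralizer_zpowers_iff]
  have e1 : ⁅x, e * c⁆ = ⁅x, e⁆ * (e * ⁅x, c⁆ * e⁻¹) := by simp only [commutatorElement_def]; group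
  have e2 : ⁅x, c * e⁆ = ⁅x, c⁆ * (c * ⁅x, e⁆ * c⁻¹) := by simp only [commutatorElement_def]; group
  rw [h e he, mul_inv_cancel_right, hA _ he _ hc, e2, hM _ (mem_eltComm he) _ (mem_eltComm hc),
    mul_right_inj, mul_inv_eq_iff_eq_mul] at e1
  exact e1

/-- Thompson's replacement lemma. -/
theorem MaxEA.replace_elt [Finite G] {S A : Subgroup G} (hA : MaxEA n S A) {x : G} (hx : x ∈ S)
    (hM : IsElementaryAbelian n (eltComm x A)) :
    MaxEA n S (eltComm x A ⊔ (A ⊓ centralizer (eltComm x A : Set G))) := by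
  have hMS : eltComm x A ≤ S := eltComm_le_iff.2 fun a ha =>
    S.mul_mem (S.mul_mem (S.mul_mem hx (hA.le ha)) (S.inv_mem hx)) (S.inv_mem (hA.le ha))
  have key : (centralizer (eltComm x A : Set G)).relIndex A ≤
      (centralizer (A : Set G)).relIndex (eltComm x A) := by
    refine relIndex_le_of_map (fun a => ⟨⁅x, (a : G)⁆, mem_eltComm a.2⟩) fun a b hab => ?_
    refine mem_centralizer_eltComm (fun _ h _ h' => ea_comm hA.ea h h')
      (fun _ h _ h' => ea_comm hM h h') (A.mul_mem (A.inv_mem a.2) b.2) ?_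
    have := inv_conj_mem_of_mem_normalizer (le_normalizer_centralizer le_normalizer a.2) hab
    convert this using 1
    simp only [commutatorElement_def]
    group
  set M := eltComm x A
  refine hA.of_card_le (sup_le hMS (inf_le_left.trans hA.le))
    (ea_sup hM (ea_mono hA.ea inf_le_left) (le_centralizer_iff.1 inf_le_right)) ?_
  have g₁ := card_sup_mul_card_inf_of_le_normalizer (N := M) (H := A ⊓ centralizer (M : Set G))
    (inf_le_right.trans (centralizer_le_normalizer _))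
  have g₃ : Nat.card ↥(M ⊓ (A ⊓ centralizer (M : Set G))) ≤
      Nat.card ↥(centralizer (A : Set G) ⊓ M) :=
    card_le_of_le (le_inf ((inf_le_right.trans inf_le_left).trans (ea_le_centralizer hA.ea))
      inf_le_left)
  apply Nat.le_of_mul_le_mul_right _ (Nat.card_pos (α := ↥(centralizer (A : Set G) ⊓ M)))
  calc Nat.card A * Nat.card ↥(centralizer (A : Set G) ⊓ M)
      = Nat.card ↥(A ⊓ centralizer (M : Set G)) * ((centralizer (M : Set G)).relIndex A *
          Nat.card ↥(centralizer (A : Set G) ⊓ M)) := by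
        rw [← mul_assoc, inf_comm A, card_inf_mul_relIndex]
    _ ≤ Nat.card ↥(A ⊓ centralizer (M : Set G)) * ((centralizer (A : Set G)).relIndex M *
          Nat.card ↥(centralizer (A : Set G) ⊓ M)) := by gcongr
    _ = Nat.card M * Nat.card ↥(A ⊓ centralizer (M : Set G)) := by
        rw [mul_comm (relIndex _ _), card_inf_mul_relIndex, mul_comm]
    _ ≤ _ := by rw [← g₁]; gcongr

/-- Gillam's theorem, relative form: if `[S, N] ≤ V ≤ N` with `V` abelian, a large abelian subgroup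
inside `N` can be replaced by one normalized by `S`. -/
theorem MaxEA.exists_le_normalizer [Finite G] {S A N V : Subgroup G} (hA : MaxEA n S A)
    (hAN : A ≤ N) (hV : IsElementaryAbelian n V) (hVN : V ≤ N) (hc : ⁅S, N⁆ ≤ V) :
    ∃ B, MaxEA n S B ∧ B ≤ N ∧ S ≤ normalizer (B : Set G) := by
  obtain ⟨B, ⟨h1, h2⟩, hmax⟩ := Set.exists_max_image {B | MaxEA n S B ∧ B ≤ N}
    (fun B => Nat.card ↥(B ⊓ V)) (Set.toFinite _) ⟨A, hA, hAN⟩
  refine ⟨B, h1, h2, ?_⟩
  rw [le_normalizer_iff_commutator_le, commutator_comm, commutator_le]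
  intro x hx b hb
  have hM : eltComm x B ≤ V := eltComm_le_iff.2 fun a ha => hc (commutator_mem_commutator hx (h2 ha))
  have h3 := h1.replace_elt hx (ea_mono hV hM)
  have h4 := eq_of_le_of_card_ge (le_inf (le_sup_right.trans' (le_inf inf_le_left
    (ea_le_centralizer_of_le hV inf_le_right hM))) inf_le_right :
      B ⊓ V ≤ (eltComm x B ⊔ (B ⊓ centralizer (eltComm x B : Set G))) ⊓ V)
    (hmax _ ⟨h3, sup_le (hM.trans hVN) (inf_le_left.trans h2)⟩)
  have h5 : ⁅x, b⁆ ∈ B ⊓ V := h4 ▸ ⟨mem_sup_left (mem_eltComm hb), hM (mem_eltComm hb)⟩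
  exact h5.1

end Cfsg.Lib.Trans.TJ
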