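import Cfsg.Agent.Trans.JDegree
import Cfsg.Agent.Trans.KInfGlobal

/-!
The degree bounds for the abelian Thompson subgroup and control of transfer for `p ≥ 7`.
-/

set_option autoImplicit false

open scoped commutatorElement

universe u

namespace Cfsg.Lib.Trans.TJ

open Cfsg Subgroup Cfsg.Lib.Solv

variable {G : Type*} [Group G] {p : ℕ}

namespace JSetup

variable {S T C Z A : Subgroup G} [C.Normal] [Z.Normal]

theorem memC {u : G} (hu : u ∈ C) (a : G) : ⁅u, a⁆ ∈ C :=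
  comm_mem_of_le_normalizer (le_normalizer_of_normal (mem_top a)) hu

omit [C.Normal] [Z.Normal] in
theorem memZ (h : JSetup p S T C Z A) {u t : G} (hu : u ∈ C) (ht : t ∈ T) : ⁅u, t⁆ ∈ Z :=
  h.comm (commutator_mem_commutator hu ht)

omit [C.Normal] [Z.Normal] in
theorem theta_mul (h : JSetup p S T C Z A) {u w t : G} (hu : u ∈ C) (hw : w ∈ C) (ht : t ∈ T) :
    ⁅u * w, t⁆ = ⁅u, t⁆ * ⁅w, t⁆ := by
  rw [comm_mul_left_of_commute (h.cent (h.memZ hw ht) u hu)]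
  exact h.commZ _ (h.memZ hw ht) _ (h.memZ hu ht)

omit [C.Normal] [Z.Normal] in
theorem theta_inv (h : JSetup p S T C Z A) {u t : G} (hu : u ∈ C) (ht : t ∈ T) :
    ⁅u⁻¹, t⁆ = ⁅u, t⁆⁻¹ := by
  rw [eq_inv_iff_mul_eq_one, ← h.theta_mul (C.inv_mem hu) hu ht, inv_mul_cancel,
    commutatorElement_one_left]

omit [Z.Normal] in
theorem theta_comm (h : JSetup p S T C Z A) {u t a : G} (hu : u ∈ C) (ht : t ∈ A ⊓ T)
    (ha : a ∈ A) : ⁅⁅u, a⁆, t⁆ = ⁅⁅u, t⁆, a⁆ := by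
  have e1 : ⁅u, a⁆ = u * (a * u⁻¹ * a⁻¹) := by simp only [commutatorElement_def]; group
  have e2 : ⁅a * u⁻¹ * a⁻¹, t⁆ = a * ⁅u⁻¹, a⁻¹ * t * a⁆ * a⁻¹ := by
    simp only [commutatorElement_def]; group
  have e3 : a⁻¹ * t * a = t := by rw [mul_assoc, h.commA _ ht.1 _ ha, inv_mul_cancel_left]
  rw [e1, h.theta_mul hu (Normal.conj_mem inferInstance _ (C.inv_mem hu) a) ht.2, e2, e3,
    h.theta_inv hu ht.2]
  simp only [commutatorElement_def, mul_assoc]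

omit [C.Normal] in
theorem comm_mul_central (h : JSetup p S T C Z A) {u z : G} (hu : u ∈ C) (hz : z ∈ Z) (e : G) :
    ⁅u * z, e⁆ = ⁅z, e⁆ * ⁅u, e⁆ :=
  comm_mul_left_of_commute (h.cent (memC hz e) u hu)

omit [C.Normal] [Z.Normal] in
theorem phi_mul_right (h : JSetup p S T C Z A) {u w w' : G} (hu : u ∈ C) (hw : w ∈ C)
    (hw' : w' ∈ C) : ⁅u, w * w'⁆ = ⁅u, w⁆ * ⁅u, w'⁆ := by
  rw [← commutatorElement_inv, h.theta_mul hw hw' (h.CT hu), mul_inv_rev, commutatorElement_inv,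
    commutatorElement_inv]
  exact h.commZ _ (h.memZ hu (h.CT hw')) _ (h.memZ hu (h.CT hw))

omit [C.Normal] in
theorem phi_congr (h : JSetup p S T C Z A) {u w w' : G} (hu : u ∈ C) (hw : w ∈ C)
    (e : (QuotientGroup.mk' Z) w = (QuotientGroup.mk' Z) w') : ⁅u, w⁆ = ⁅u, w'⁆ := by
  have hz : w⁻¹ * w' ∈ Z := QuotientGroup.eq.1 e
  rw [← mul_inv_cancel_left w w', h.phi_mul_right hu hw (h.ZC hz),
    commutatorElement_eq_one_iff_mul_comm.2 (h.cent hz u hu), mul_one]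

omit [Z.Normal] in
theorem phi_shift (h : JSetup p S T C Z A) {u w : G} (hu : u ∈ C) (hw : w ∈ C) (a : G) :
    ⁅⁅u, a⁆, w⁆ = ⁅u, ⁅w, a⁻¹⁆⁆ * ⁅⁅u, a⁻¹ * w * a⁆, a⁆ := by
  have hw' : a⁻¹ * w * a ∈ C := Normal.conj_mem' inferInstance _ hw a
  have e1 : ⁅u, a⁆ = u * (a * u⁻¹ * a⁻¹) := by simp only [commutatorElement_def]; group
  have e2 : ⁅a * u⁻¹ * a⁻¹, w⁆ = a * ⁅u⁻¹, a⁻¹ * w * a⁆ * a⁻¹ := by
    simp only [commutatorElement_def]; group
  have e3 : ⁅w, a⁻¹⁆ = w * (a⁻¹ * w * a)⁻¹ := by simp only [commutatorElement_def]; group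
  have e4 : ⁅u, (a⁻¹ * w * a)⁻¹⁆ = ⁅u, a⁻¹ * w * a⁆⁻¹ := by
    rw [← commutatorElement_inv, h.theta_inv hw' (h.CT hu), commutatorElement_inv,
      commutatorElement_inv, ← commutatorElement_inv]
  rw [e1, h.theta_mul hu (Normal.conj_mem inferInstance _ (C.inv_mem hu) a) (h.CT hw), e2,
    h.theta_inv hu (h.CT hw'), e3, h.phi_mul_right hu hw (C.inv_mem hw'), e4]
  generalize ⁅u, a⁻¹ * w * a⁆ = z
  simp only [commutatorElement_def]
  group

variable [Finite G] [Fact p.Prime] [T.Normal]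

theorem quartic_of_not_quad (h : JSetup p S T C Z A) {v : G} (hv : v ∈ Z) (hk : ¬ Kill A 2 v)
    {x a b e f : G} (hx : x ∈ C) (ha : a ∈ A) (hb : b ∈ A) (he : e ∈ A) (hf : f ∈ A) :
    ⁅⁅⁅⁅x, a⁆, b⁆, e⁆, f⁆ ∈ Z := by
  obtain ⟨c, hc, hcl⟩ := h.exists_mem_inf ha hb
  have hz : ⁅x, c⁆ ∈ Z := h.memZ hx hc.2
  have hy : ⁅⁅x, a⁆, b⁆ ∈ C := memC (memC hx a) b
  have hy' : ⁅⁅x, a⁆, b⁆ * ⁅x, c⁆⁻¹ ∈ C := C.mul_mem hy (C.inv_mem (h.ZC hz))
  have key : ⁅⁅⁅⁅x, a⁆, b⁆ * ⁅x, c⁆⁻¹, e⁆, f⁆ ∈ Z := by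
    refine h.comm_mem_of_cent hv hk (memC hy' e) (fun t ht => ?_) hf
    have hθ : ⁅x, t⁆ ∈ Z := h.memZ hx ht.2
    rw [h.theta_comm hy' ht he, h.theta_mul hy (C.inv_mem (h.ZC hz)) ht.2,
      h.theta_inv (h.ZC hz) ht.2, h.theta_comm (memC hx a) ht hb, h.theta_comm hx ht ha,
      h.theta_comm hx ht hc.1,
      comm_mul_left_of_comm h.commZ (le_normalizer_of_normal (mem_top e))
        (memC (memC hθ a) b) (Z.inv_mem (memC hθ c)),
      comm_inv_left_of_comm h.commZ (le_normalizer_of_normal (mem_top e)) (memC hθ c),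
      hcl _ hθ e he, mul_inv_cancel]
  rw [← inv_mul_cancel_right ⁅⁅x, a⁆, b⁆ ⁅x, c⁆, h.comm_mul_central hy' hz,
    ← h.cent (memC hz e) _ (memC hy' e), h.comm_mul_central (memC hy' e) (memC hz e)]
  exact Z.mul_mem (memC (memC hz e) f) key

omit [C.Normal] [Finite G] [Fact p.Prime] [T.Normal] in
theorem comm_map (h : JSetup p S T C Z A) :
    ∀ x ∈ C.map (QuotientGroup.mk' Z), ∀ y ∈ C.map (QuotientGroup.mk' Z), x * y = y * x := by
  rintro _ ⟨x, hx, rfl⟩ _ ⟨y, hy, rfl⟩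
  rw [← commutatorElement_eq_one_iff_mul_comm, ← map_commutatorElement]
  exact (QuotientGroup.eq_one_iff _).2 (h.memZ hx (h.CT hy))

omit [C.Normal] [Finite G] [Fact p.Prime] [T.Normal] in
theorem commA_map (h : JSetup p S T C Z A) :
    ∀ x ∈ A.map (QuotientGroup.mk' Z), ∀ y ∈ A.map (QuotientGroup.mk' Z), x * y = y * x := by
  rintro _ ⟨x, hx, rfl⟩ _ ⟨y, hy, rfl⟩
  rw [← map_mul, h.commA _ hx _ hy, map_mul]

theorem quartic_of_quad (hp : p ≠ 2) (h : JSetup p S T C Z A) (hq : ∀ z ∈ Z, Kill A 2 z)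
    {x : G} (hx : x ∈ C) (h5 : Kill (A.map (QuotientGroup.mk' Z)) 5 (QuotientGroup.mk' Z x))
    {a b : G} (ha : a ∈ A) (hb : b ∈ A) : Kill A 2 ⁅⁅x, a⁆, b⁆ := by
  set π := QuotientGroup.mk' Z with hπ
  haveI : (C.map π).Normal := Normal.map inferInstance π (QuotientGroup.mk'_surjective Z)
  have mA : ∀ {a : G}, a ∈ A → π a ∈ A.map π := fun ha => mem_map_of_mem π ha
  have mC : ∀ {a : G}, a ∈ C → π a ∈ C.map π := fun ha => mem_map_of_mem π ha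
  set Z₀ := Z ⊓ centralizer (A : Set G) with hZ₀
  have hZ₀c : ∀ z ∈ Z₀, ∀ e ∈ A, ⁅z, e⁆ = 1 := fun z hz e he =>
    commutatorElement_eq_one_iff_mul_comm.2 (hz.2 e he).symm
  have hZ₀m : ∀ z ∈ Z, ∀ e ∈ A, ⁅z, e⁆ ∈ Z₀ := fun z hz e he =>
    ⟨memC hz e, fun f hf => (commutatorElement_eq_one_iff_mul_comm.1 (hq z hz e he f hf)).symm⟩
  have shift : ∀ {u w : G}, u ∈ C → w ∈ C → ∀ {e : G}, e ∈ A →
      ∃ z ∈ Z₀, ⁅⁅u, e⁆, w⁆ = ⁅u, ⁅w, e⁻¹⁆⁆ * z := fun hu hw e he =>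
    ⟨_, hZ₀m _ (h.memZ hu (h.CT (Normal.conj_mem' inferInstance _ hw e))) e he,
      h.phi_shift hu hw e⟩
  have hG : ∀ {e f : G}, e ∈ A → f ∈ A → ⁅x, ⁅⁅⁅⁅x, a⁆, b⁆, e⁆, f⁆⁆ ∈ Z₀ := by
    intro e f he hf
    have ht : ⁅⁅⁅⁅x, a⁆, b⁆, e⁆, f⁆ ∈ C := memC (memC (memC (memC hx a) b) e) f
    obtain ⟨z₁, hz₁, e₁⟩ := shift (memC (memC (memC hx a) b) e) hx hf
    obtain ⟨z₂, hz₂, e₂⟩ := shift (memC (memC hx a) b) (memC hx f⁻¹) he
    obtain ⟨z₃, hz₃, e₃⟩ := shift (memC hx a) (memC (memC hx f⁻¹) e⁻¹) hb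
    obtain ⟨z₄, hz₄, e₄⟩ := shift hx (memC (memC (memC hx f⁻¹) e⁻¹) b⁻¹) ha
    have e₅ : ⁅x, ⁅⁅⁅⁅x, f⁻¹⁆, e⁻¹⁆, b⁻¹⁆, a⁻¹⁆⁆ = ⁅x, ⁅⁅⁅⁅x, a⁆, b⁆, e⁆, f⁆⁆ := by
      refine h.phi_congr hx (memC (memC (memC (memC hx _) _) _) _) ?_
      simp only [map_commutatorElement, map_inv]
      exact quartic_inv h.comm_map le_normalizer_of_normal h.commA_map (mC hx) h5
        (mA ha) (mA hb) (mA he) (mA hf)
    rw [e₂, e₃, e₄, e₅, ← commutatorElement_inv] at e₁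
    have hgS : ⁅x, ⁅⁅⁅⁅x, a⁆, b⁆, e⁆, f⁆⁆ ∈ S := h.TS (h.CT (memC hx _))
    generalize ⁅x, ⁅⁅⁅⁅x, a⁆, b⁆, e⁆, f⁆⁆ = g at e₁ hgS ⊢
    have h2 : g ^ 2 ∈ Z₀ := by
      have : g ^ 2 = (z₄ * z₃ * z₂ * z₁)⁻¹ := by
        rw [eq_inv_iff_mul_eq_one]
        calc g ^ 2 * (z₄ * z₃ * z₂ * z₁) = g * (g * z₄ * z₃ * z₂ * z₁) := by
              rw [pow_two]; group
          _ = 1 := by rw [← e₁, mul_inv_cancel]
      rw [this]
      exact Z₀.inv_mem (Z₀.mul_mem (Z₀.mul_mem (Z₀.mul_mem hz₄ hz₃) hz₂) hz₁)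
    obtain ⟨k, hk⟩ := IsPGroup.iff_orderOf.1 h.pS ⟨g, hgS⟩
    rw [orderOf_mk] at hk
    obtain ⟨m, hm⟩ := exists_pow_eq_self_of_coprime (x := g) (n := 2) (by
      rw [hk]
      exact Nat.Coprime.pow_right _
        ((Nat.coprime_primes Nat.prime_two Fact.out).2 (Ne.symm hp)))
    rw [← hm]
    exact Z₀.pow_mem h2 m
  have hy : ⁅⁅x, a⁆, b⁆ ∈ C := memC (memC hx a) b
  have hcomm : ∀ e ∈ A, ⁅⁅⁅x, a⁆, b⁆, ⁅⁅⁅x, a⁆, b⁆, e⁆⁆ = 1 := by
    intro e he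
    have hu : ⁅⁅⁅x, a⁆, b⁆, e⁆ ∈ C := memC hy e
    have hG' : ∀ {f : G}, f ∈ A → ⁅x, ⁅⁅⁅⁅x, a⁆, b⁆, e⁆, f⁆⁆ ∈ Z₀ := fun hf => hG he hf
    have k2 : Kill (A.map π) 2 (π ⁅⁅⁅x, a⁆, b⁆, e⁆) := by
      simp only [map_commutatorElement]
      exact h5 _ (mA ha) _ (mA hb) _ (mA he)
    generalize ⁅⁅⁅x, a⁆, b⁆, e⁆ = u at hu hG' k2 ⊢
    have ha' := A.inv_mem ha
    have hb' := A.inv_mem hb
    have hw : ⁅u, b⁻¹⁆ ∈ C := memC hu _
    have k1 : π ⁅⁅u, b⁻¹⁆, a⁻¹⁆ = 1 := by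
      simp only [map_commutatorElement]
      exact k2 _ (mA hb') _ (mA ha')
    have hcj : ∀ {w : G} (c : G), w ∈ C → c⁻¹ * w * c = ⁅w, c⁻¹⁆⁻¹ * w := fun c _ => by
      simp only [commutatorElement_def]; group
    have s1 : ⁅⁅x, a⁆, b⁻¹ * u * b⁆ ∈ Z₀ := by
      obtain ⟨z, hz, e⟩ := shift hx (Normal.conj_mem' inferInstance _ hu b) ha
      rw [e]
      refine Z₀.mul_mem ?_ hz
      rw [h.phi_congr (w' := ⁅u, a⁻¹⁆) hx (memC (Normal.conj_mem' inferInstance _ hu b) _)]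
      · exact hG' ha'
      · rw [hcj b hu, ← hπ, map_commutatorElement, map_mul, map_inv,
          comm_mul_left_of_comm h.comm_map (le_normalizer_of_normal (mem_top _))
            (inv_mem (mC hw)) (mC hu),
          comm_inv_left_of_comm h.comm_map (le_normalizer_of_normal (mem_top _)) (mC hw),
          ← map_commutatorElement, k1, inv_one, one_mul, map_commutatorElement]
    have s2 : ⁅⁅x, a⁆, ⁅u, b⁻¹⁆⁆ = 1 := by
      rw [h.phi_shift hx hw, h.phi_congr (w' := 1) hx (memC hw _) (by rw [← hπ, k1, map_one]),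
        commutatorElement_one_right, one_mul,
        h.phi_congr (w' := ⁅u, b⁻¹⁆) hx (Normal.conj_mem' inferInstance _ hw a)
          (by rw [hcj a hw, ← hπ, map_mul, map_inv, k1, inv_one, one_mul])]
      exact hZ₀c _ (hG' hb') a ha
    rw [h.phi_shift (memC hx a) hu, s2, one_mul]
    exact hZ₀c _ s1 b hb
  have hcent : ∀ t ∈ A ⊓ T, ⁅⁅⁅x, a⁆, b⁆, t⁆ = 1 := by
    intro t ht
    rw [h.theta_comm (memC hx a) ht hb, h.theta_comm hx ht ha]
    exact hq _ (h.memZ hx ht.2) a ha b hb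
  generalize ⁅⁅x, a⁆, b⁆ = y at hy hcomm hcent ⊢
  have hconj : ∀ e ∈ A, y * (e * y * e⁻¹) = (e * y * e⁻¹) * y := by
    intro e he
    have e1 : e * y * e⁻¹ = ⁅y, e⁆⁻¹ * y := by simp only [commutatorElement_def]; group
    have e2 := commutatorElement_eq_one_iff_commute.1 (hcomm e he)
    rw [e1]
    exact (e2.inv_right.mul_right (Commute.refl y)).eq
  refine h.quad_of_cent (W := closure {w | ∃ e ∈ A, w = e * y * e⁻¹}) ?_ ?_ ?_ ?_
    (subset_closure ⟨1, A.one_mem, by simp⟩)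
  · rw [closure_le]
    rintro _ ⟨e, -, rfl⟩
    exact Normal.conj_mem inferInstance _ (h.CT hy) e
  · refine ea_zero_iff.1 (ea_closure ?_ fun a _ => pow_zero a)
    rintro _ ⟨e, he, rfl⟩ _ ⟨f, hf, rfl⟩
    have := hconj (e⁻¹ * f) (A.mul_mem (A.inv_mem he) hf)
    calc e * y * e⁻¹ * (f * y * f⁻¹) = e * (y * (e⁻¹ * f * y * (e⁻¹ * f)⁻¹)) * e⁻¹ := by group
      _ = _ := by rw [this]; group
  · intro g hg
    refine mem_normalizer_of_conj_mem fun w hw => ?_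
    refine (cj_le_iff.1 ?_) w hw
    rw [cj_closure, closure_le]
    rintro _ ⟨_, ⟨e, he, rfl⟩, rfl⟩
    exact subset_closure ⟨g * e, A.mul_mem hg he, by group⟩
  · rw [le_centralizer_iff, closure_le]
    rintro _ ⟨e, he, rfl⟩ t ht
    have e1 := commutatorElement_eq_one_iff_mul_comm.1 (hcent t ht)
    have e2 := h.commA _ ht.1 _ he
    calc t * (e * y * e⁻¹) = (t * e) * y * e⁻¹ := by group
      _ = e * (y * t) * e⁻¹ := by rw [e2, e1]; group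
      _ = e * y * e⁻¹ * (e * t) * e⁻¹ := by group
      _ = _ := by rw [← e2]; group

theorem iterCommutator_four_le (hp : p ≠ 2) (h : JSetup p S T C Z A) :
    iterCommutator C A 4 ≤ Z := by
  rw [le_iff_map_mk'_eq_bot, map_iterCommutator]
  set π := QuotientGroup.mk' Z with hπ
  haveI : (C.map π).Normal := Normal.map inferInstance π (QuotientGroup.mk'_surjective Z)
  refine iterCommutator_eq_bot_of_kill h.comm_map le_normalizer_of_normal le_rfl fun y hy => ?_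
  refine kill_descent ((h.pS.to_le (h.CT.trans h.TS)).map π) ((h.pS.to_le h.max.le).map π)
    le_normalizer_of_normal ?_ hy
  rintro _ ⟨x, hx, rfl⟩ h5 _ ⟨a, ha, rfl⟩ _ ⟨b, hb, rfl⟩ _ ⟨e, he, rfl⟩ _ ⟨f, hf, rfl⟩
  rw [kill_zero, ← map_commutatorElement, ← map_commutatorElement, ← map_commutatorElement,
    ← map_commutatorElement]
  refine (QuotientGroup.eq_one_iff _).2 ?_
  by_cases hq : ∀ z ∈ Z, Kill A 2 z
  · rw [kill_zero.1 (h.quartic_of_quad hp hq hx h5 ha hb e he f hf)]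
    exact Z.one_mem
  · push Not at hq
    obtain ⟨v, hv, hk⟩ := hq
    exact h.quartic_of_not_quad hv hk hx ha hb he hf

omit [C.Normal] in
theorem chiefKilled_three (h : JSetup p S T C Z A) : ChiefKilled Z A 3 := by
  intro U V hUV hU
  haveI := hUV.2.1
  haveI := hUV.2.2.1
  have hT : ⁅U, T⁆ ≤ V := IsChiefFactor.commutator_le_of_isPGroup hUV
    (h.pS.to_le (hU.trans ((h.ZC.trans h.CT).trans h.TS))) (h.pS.to_le h.TS)
  rw [le_iff_map_mk'_eq_bot, map_iterCommutator]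
  set π := QuotientGroup.mk' V with hπ
  haveI : (U.map π).Normal := Normal.map inferInstance π (QuotientGroup.mk'_surjective V)
  refine iterCommutator_eq_bot_of_kill ?_ le_normalizer_of_normal le_rfl ?_
  · rintro _ ⟨x, hx, rfl⟩ _ ⟨y, hy, rfl⟩
    rw [← map_mul, h.commZ _ (hU hx) _ (hU hy), map_mul]
  rintro _ ⟨x, hx, rfl⟩ _ ⟨a, ha, rfl⟩ _ ⟨b, hb, rfl⟩ _ ⟨e, he, rfl⟩
  rw [kill_zero, ← map_commutatorElement, ← map_commutatorElement, ← map_commutatorElement]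
  refine (QuotientGroup.eq_one_iff _).2 ?_
  obtain ⟨c, hc, hcl⟩ := h.exists_mem_inf ha hb
  rw [← hcl x (hU hx) e he]
  exact memC (hT (commutator_mem_commutator hx hc.2)) e

end JSetup

variable [Finite G] [Fact p.Prime]

/-- Glauberman's degree bounds. -/
theorem exists_maxAbelian_chiefKilled (hp : p ≠ 2) {S T : Subgroup G} [T.Normal]
    (hS : IsPGroup p S) (hTS : T ≤ S) (hJ : ¬ thompsonSubgroupOf 0 S ≤ T) :
    ∃ A C : Subgroup G, MaxEA 0 S A ∧ ¬ A ≤ T ∧ C.Normal ∧ C ≤ T ∧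
      T ⊓ centralizer (C : Set G) ≤ C ∧ ChiefKilled C A 4 ∧ ChiefKilled T A 6 := by
  obtain ⟨C, hCn, hCT, h1, h2⟩ := exists_normal_critical T (hS.to_le hTS)
  obtain ⟨A, h⟩ := exists_jSetup (Z := C ⊓ centralizer (C : Set G)) hS hTS hCT inf_le_left
    (commutator_comm T C ▸ h1) inf_le_right hJ
  have h3 := h.chiefKilled_three
  have h4 : ChiefKilled C A 4 := (h3.mono le_rfl (by norm_num)).step (h.iterCommutator_four_le hp)
  exact ⟨A, C, h.max, h.notle, hCn, hCT, h2, h4,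
    chiefKilled_of_critical (hS.to_le hTS) hCT (inf_le_left.trans hCT) h1
      (le_inf h2 inf_le_right) (by norm_num) h4 h3⟩

/-- The abelian Thompson subgroup as a functor. -/
def jaFunctor (Q : Type u) [Group Q] : Subgroup Q := thompsonSubgroupA Q

theorem inducedFunctor_jaFunctor {X : Type u} [Group X] (S : Subgroup X) :
    inducedFunctor jaFunctor S = thompsonSubgroupOf 0 S := by
  rw [thompsonSubgroupOf_zero]; rfl

theorem isCharPFunctor_jaFunctor (p : ℕ) : IsCharPFunctor.{u} p jaFunctor := by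
  refine ⟨fun Q _ _ _ _ => ?_, fun Q R _ _ _ _ φ => ?_⟩
  · obtain ⟨x, hx⟩ := exists_ne (1 : Q)
    rw [jaFunctor, ← thompsonSubgroup_zero, ← J_top]
    exact J_ne_bot_of_exists (mem_top x) hx (pow_zero x)
  · rw [jaFunctor, jaFunctor, ← thompsonSubgroup_zero, ← thompsonSubgroup_zero]
    exact map_thompsonSubgroup_equiv φ

theorem not_J_le_pCore_of_not_normal {n : ℕ} {S : Subgroup G} (hTS : pCore p G ≤ S)
    (h : ¬ (thompsonSubgroupOf n S).Normal) : ¬ thompsonSubgroupOf n S ≤ pCore p G := by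
  intro hle
  rw [← J_eq_of_le hle hTS] at h
  exact h (PG.normal_of_top_le_normalizer
    (le_normalizer_of_normal.trans (normalizer_le_normalizer_J _)))

theorem ja_controlsTransferIn (hp : 7 ≤ p) (X : Type u) [Group X] [Finite X] :
    ControlsTransferIn p (inducedFunctor (G := X) jaFunctor) ⊤ := by
  have h𝓦 := singleton_isCharPFunctor (isCharPFunctor_jaFunctor.{u} p)
  rw [t_iff_famT, ← indFam_singleton]
  refine famT_section_of_not_minT (X := X) h𝓦 (fun K R _ S h => ?_) _ (involves_refl X)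
  have hn := h.normalizer_induced_ne_top (W := jaFunctor) rfl
  rw [inducedFunctor_jaFunctor, Ne, normalizer_eq_top_iff] at hn
  obtain ⟨A, C, hA, hAT, -, -, -, -, h6⟩ := exists_maxAbelian_chiefKilled (by omega) S.isPGroup'
    (pCore_le_sylow S) (not_J_le_pCore_of_not_normal (pCore_le_sylow S) hn)
  obtain ⟨g, hg, hgT⟩ := SetLike.not_le_iff_exists.1 hAT
  obtain ⟨U, V, h2, h3, h4⟩ := (minT_structure h𝓦 ⟨_, rfl⟩ h rfl).2 g (hA.le hg) hgT
  exact h4 ((iterCommutator_mono_right _ (zpowers_le.2 hg) _).trans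
    (h6.mono le_rfl (by omega) U V h2 h3))

theorem inf_commutator_le_of_ja (hp : 7 ≤ p) (S : Sylow p G) :
    commutator G ⊓ (S : Subgroup G) ≤ ⁅normalizer (thompsonSubgroupAOf (S : Subgroup G) : Set G),
      normalizer (thompsonSubgroupAOf (S : Subgroup G) : Set G)⁆ := by
  have h := (t_iff (isConjugacyFunctor_induced (isCharPFunctor_jaFunctor p)) (isSylowIn_top S)).mp
    (ja_controlsTransferIn hp G)
  rw [top_inf_eq, inducedFunctor_jaFunctor, thompsonSubgroupOf_zero] at h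
  rw [inf_comm]
  exact h

end Cfsg.Lib.Trans.TJ
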