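import Mathlib

/-!
The five-term grading of a ring given by an inverse pair `s y s = s`, `y s y = y`, `s² = y² = 0`.
-/

set_option autoImplicit false

namespace Cfsg.Lib.QG

variable {k : Type*} [Field k] {E : Type*} [Ring E] [Algebra k E]

/-- An inverse pair of square-zero elements. -/
structure IP (s y : E) : Prop where
  ss : s * s = 0
  yy : y * y = 0
  sys : s * y * s = s
  ysy : y * s * y = y

theorem IP.symm {s y : E} (h : IP s y) : IP y s := ⟨h.yy, h.ss, h.ysy, h.sys⟩

/-- The three orthogonal idempotents. -/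
def ee (s y : E) (n : ℤ) : E :=
  if n = 1 then s * y else if n = -1 then y * s else if n = 0 then 1 - s * y - y * s else 0

variable {s y : E}

theorem ee_one : ee s y 1 = s * y := rfl
theorem ee_neg_one : ee s y (-1) = y * s := rfl
theorem ee_zero : ee s y 0 = 1 - s * y - y * s := rfl

theorem ee_eq_zero {n : ℤ} (h : n < -1 ∨ 1 < n) : ee s y n = 0 := by
  rw [ee, if_neg (by omega), if_neg (by omega), if_neg (by omega)]

theorem ee_symm (n : ℤ) : ee y s n = ee s y (-n) := by
  by_cases h1 : n = 1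
  · subst h1; rfl
  by_cases h2 : n = -1
  · subst h2; rfl
  by_cases h3 : n = 0
  · subst h3; rw [neg_zero, ee_zero, ee_zero]; abel
  rw [ee_eq_zero (by omega), ee_eq_zero (by omega)]

theorem ee_sum : ee s y 1 + ee s y 0 + ee s y (-1) = 1 := by
  rw [ee_one, ee_zero, ee_neg_one]; abel

theorem ee_cases (n : ℤ) : n = 1 ∨ n = 0 ∨ n = -1 ∨ ee s y n = 0 := by
  by_cases h : n < -1 ∨ 1 < n
  · exact Or.inr (Or.inr (Or.inr (ee_eq_zero h)))
  · omega

namespace IP

theorem ss' (h : IP s y) (x : E) : s * (s * x) = 0 := by rw [← mul_assoc, h.ss, zero_mul]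
theorem yy' (h : IP s y) (x : E) : y * (y * x) = 0 := by rw [← mul_assoc, h.yy, zero_mul]
theorem sys' (h : IP s y) (x : E) : s * (y * (s * x)) = s * x := by
  rw [← mul_assoc, ← mul_assoc, h.sys]
theorem ysy' (h : IP s y) (x : E) : y * (s * (y * x)) = y * x := by
  rw [← mul_assoc, ← mul_assoc, h.ysy]
theorem sys0 (h : IP s y) : s * (y * s) = s := by rw [← mul_assoc, h.sys]
theorem ysy0 (h : IP s y) : y * (s * y) = y := by rw [← mul_assoc, h.ysy]

theorem ee_mul_self (h : IP s y) (n : ℤ) : ee s y n * ee s y n = ee s y n := by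
  rcases ee_cases (s := s) (y := y) n with rfl | rfl | rfl | h0
  · simp [ee_one, mul_assoc, h.ysy0]
  · simp [ee_zero, mul_assoc, mul_sub, sub_mul, h.ss', h.yy', h.sys', h.ysy', h.sys0, h.ysy0]
  · simp [ee_neg_one, mul_assoc, h.sys0]
  · rw [h0, mul_zero]

theorem ee_mul_ne (h : IP s y) {n m : ℤ} (hnm : n ≠ m) : ee s y n * ee s y m = 0 := by
  rcases ee_cases (s := s) (y := y) n with rfl | rfl | rfl | h0
  all_goals first
    | rw [h0, zero_mul]
    | (rcases ee_cases (s := s) (y := y) m with rfl | rfl | rfl | h0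
       all_goals first
        | exact absurd rfl hnm
        | rw [h0, mul_zero]
        | simp [ee_one, ee_zero, ee_neg_one, mul_assoc, mul_sub, sub_mul, h.ss', h.yy', h.sys',
            h.ysy', h.sys0, h.ysy0])

end IP

/-- The elements whose components have degrees in `P`. -/
def Sp (k : Type*) [Field k] [Algebra k E] (s y : E) (P : ℤ → Prop) : Submodule k E where
  carrier := {x | ∀ n m : ℤ, ¬ P (n - m) → ee s y n * x * ee s y m = 0}
  zero_mem' := fun n m _ => by simp
  add_mem' := fun hx hy n m h => by rw [mul_add, add_mul, hx n m h, hy n m h, add_zero]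
  smul_mem' := fun c x hx n m h => by rw [mul_smul_comm, smul_mul_assoc, hx n m h, smul_zero]

/-- The homogeneous elements of degree `i`. -/
def Gr (k : Type*) [Field k] [Algebra k E] (s y : E) (i : ℤ) : Submodule k E := Sp k s y (· = i)

/-- The elements of degree at least `i`. -/
def Fil (k : Type*) [Field k] [Algebra k E] (s y : E) (i : ℤ) : Submodule k E := Sp k s y (i ≤ ·)

theorem Sp.mono {P Q : ℤ → Prop} (h : ∀ i, -2 ≤ i → i ≤ 2 → P i → Q i) :
    Sp k s y P ≤ Sp k s y Q := fun x hx n m hq => by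
  by_cases hn : n < -1 ∨ 1 < n
  · rw [ee_eq_zero hn, zero_mul, zero_mul]
  by_cases hm : m < -1 ∨ 1 < m
  · rw [ee_eq_zero hm, mul_zero]
  exact hx n m fun hp => hq (h _ (by omega) (by omega) hp)

theorem Sp.mul {P Q R : ℤ → Prop} (h : ∀ a b, P a → Q b → R (a + b)) {x x' : E}
    (hx : x ∈ Sp k s y P) (hx' : x' ∈ Sp k s y Q) (hh : IP s y) : x * x' ∈ Sp k s y R := by
  intro n m hr
  have key : ∀ l, ee s y n * x * ee s y l * x' * ee s y m = 0 := fun l => by
    by_cases hp : P (n - l)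
    · have hq : ¬ Q (l - m) := fun hq => hr (by simpa using h _ _ hp hq)
      rw [← hh.ee_mul_self l, ← mul_assoc, mul_assoc _ (ee s y l) x', mul_assoc _ _ (ee s y m),
        hx' l m hq, mul_zero]
    · rw [hx n l hp, zero_mul, zero_mul]
  have : ee s y n * (x * x') * ee s y m =
      ee s y n * x * (ee s y 1 + ee s y 0 + ee s y (-1)) * x' * ee s y m := by
    rw [ee_sum, mul_one, ← mul_assoc (ee s y n)]
  rw [this]
  simp only [mul_add, add_mul, key, add_zero]

theorem eq_zero_of_mem_Sp {P : ℤ → Prop} {x : E} (hx : x ∈ Sp k s y P)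
    (h : ∀ i, -2 ≤ i → i ≤ 2 → ¬ P i) : x = 0 := by
  have hx' : x ∈ Sp k s y (fun _ => False) := Sp.mono (fun i h1 h2 hp => h i h1 h2 hp) hx
  have : x = (ee s y 1 + ee s y 0 + ee s y (-1)) * x * (ee s y 1 + ee s y 0 + ee s y (-1)) := by
    rw [ee_sum, one_mul, mul_one]
  rw [this]
  simp only [mul_add, add_mul, fun n m => hx' n m not_false, add_zero]

theorem Sp_symm {P : ℤ → Prop} {x : E} : x ∈ Sp k y s P ↔ x ∈ Sp k s y (fun i => P (-i)) := by
  constructor
  · intro h n m hp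
    have := h (-n) (-m) (by rwa [show -n - -m = -(n - m) by ring])
    rwa [ee_symm, ee_symm (-m), neg_neg, neg_neg] at this
  · intro h n m hp
    rw [ee_symm, ee_symm m]
    exact h _ _ (by show ¬ P _; rwa [show -(-n - -m) = n - m by ring])

theorem Gr_symm {i : ℤ} {x : E} : x ∈ Gr k y s i ↔ x ∈ Gr k s y (-i) := by
  rw [Gr, Sp_symm, Gr]
  exact ⟨fun h => Sp.mono (fun j _ _ hj => by omega) h, fun h => Sp.mono (fun j _ _ hj => by omega) h⟩

theorem Gr.mul (hh : IP s y) {i j l : ℤ} {x x' : E} (hx : x ∈ Gr k s y i) (hx' : x' ∈ Gr k s y j)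
    (hl : i + j = l := by norm_num) : x * x' ∈ Gr k s y l :=
  Sp.mul (fun a b ha hb => by omega) hx hx' hh

theorem Fil.mul (hh : IP s y) {i j l : ℤ} {x x' : E} (hx : x ∈ Fil k s y i) (hx' : x' ∈ Fil k s y j)
    (hl : l ≤ i + j := by norm_num) : x * x' ∈ Fil k s y l :=
  Sp.mul (fun a b ha hb => by omega) hx hx' hh

theorem Gr.fil {i j : ℤ} {x : E} (hx : x ∈ Gr k s y i) (h : j ≤ i := by norm_num) :
    x ∈ Fil k s y j := Sp.mono (fun a _ _ ha => by omega) hx

theorem Fil.mono {i j : ℤ} {x : E} (hx : x ∈ Fil k s y i) (h : j ≤ i := by norm_num) :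
    x ∈ Fil k s y j := Sp.mono (fun a _ _ ha => by omega) hx

theorem mem_Fil_neg_two (x : E) : x ∈ Fil k s y (-2) :=
  Sp.mono (P := fun _ => True) (fun a h _ _ => h) fun _ _ h => absurd trivial h

theorem Fil.eq_zero {i : ℤ} {x : E} (hx : x ∈ Fil k s y i) (h : 3 ≤ i := by norm_num) : x = 0 :=
  eq_zero_of_mem_Sp hx fun j _ _ hj => by omega

theorem Gr.eq_zero {i : ℤ} {x : E} (hx : x ∈ Gr k s y i) (h : i ≤ -3 ∨ 3 ≤ i := by norm_num) :
    x = 0 := eq_zero_of_mem_Sp hx fun j _ _ hj => by omega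

theorem Fil.gr_two {x : E} (hx : x ∈ Fil k s y 2) : x ∈ Gr k s y 2 :=
  Sp.mono (fun a _ _ ha => by omega) hx

theorem IP.ee_mem (hh : IP s y) (n : ℤ) : ee s y n ∈ Gr k s y 0 := fun a b hab => by
  by_cases h : a = n
  · rw [mul_assoc, hh.ee_mul_ne (by omega), mul_zero]
  · rw [hh.ee_mul_ne h, zero_mul]

theorem IP.one_mem (hh : IP s y) : (1 : E) ∈ Gr k s y 0 := fun a b hab => by
  rw [mul_one, hh.ee_mul_ne (by omega)]

theorem IP.s_mem (hh : IP s y) : s ∈ Gr k s y 2 := fun a b hab => by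
  have e : s = ee s y 1 * s * ee s y (-1) := by
    rw [ee_one, ee_neg_one, hh.sys, hh.sys0]
  rw [e]
  by_cases h : a = 1
  · rw [mul_assoc, mul_assoc _ (ee s y (-1)), ← e, hh.ee_mul_ne (n := -1) (by omega), mul_zero,
      mul_zero]
  · rw [← mul_assoc, ← mul_assoc, ← e, hh.ee_mul_ne h, zero_mul, zero_mul, zero_mul]

theorem IP.y_mem (hh : IP s y) : y ∈ Gr k s y (-2) := Gr_symm.1 hh.symm.s_mem

/-- The component of degree `i`. -/
def cp (k : Type*) [Field k] [Algebra k E] (s y : E) (i : ℤ) : E →ₗ[k] E where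
  toFun x := ee s y (1 + i) * x * ee s y 1 + ee s y i * x * ee s y 0 + ee s y (-1 + i) * x * ee s y (-1)
  map_add' x x' := by simp only [mul_add, add_mul]; abel
  map_smul' c x := by simp only [mul_smul_comm, smul_mul_assoc, RingHom.id_apply, smul_add]

theorem cp_apply (i : ℤ) (x : E) : cp k s y i x =
    ee s y (1 + i) * x * ee s y 1 + ee s y i * x * ee s y 0 + ee s y (-1 + i) * x * ee s y (-1) := rfl

theorem IP.ee_mul_mul_mem (hh : IP s y) (n m : ℤ) (x : E) {i : ℤ} (hi : n - m = i) :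
    ee s y n * x * ee s y m ∈ Gr k s y i := fun a b hab => by
  by_cases h : a = n
  · rw [mul_assoc, mul_assoc _ (ee s y m), hh.ee_mul_ne (n := m) (by omega), mul_zero, mul_zero]
  · rw [← mul_assoc, ← mul_assoc, hh.ee_mul_ne h, zero_mul, zero_mul, zero_mul]

theorem IP.cp_mem (hh : IP s y) (i : ℤ) (x : E) : cp k s y i x ∈ Gr k s y i :=
  add_mem (add_mem (hh.ee_mul_mul_mem _ _ _ (by ring)) (hh.ee_mul_mul_mem _ _ _ (by ring)))
    (hh.ee_mul_mul_mem _ _ _ (by ring))

theorem cp_eq_zero {P : ℤ → Prop} {x : E} (hx : x ∈ Sp k s y P) {i : ℤ} (hi : ¬ P i) :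
    cp k s y i x = 0 := by
  rw [cp_apply, hx _ _ (by simpa using hi), hx _ _ (by simpa using hi), hx _ _ (by simpa using hi),
    add_zero, add_zero]

theorem Gr.cp_ne {x : E} {j : ℤ} (hx : x ∈ Gr k s y j) {i : ℤ} (hi : i ≠ j := by norm_num) :
    cp k s y i x = 0 := cp_eq_zero hx hi

theorem Fil.cp_lt {x : E} {j : ℤ} (hx : x ∈ Fil k s y j) {i : ℤ} (hi : i < j := by norm_num) :
    cp k s y i x = 0 := cp_eq_zero hx (by simpa using hi)

theorem cp_sum (x : E) :
    cp k s y (-2) x + cp k s y (-1) x + cp k s y 0 x + cp k s y 1 x + cp k s y 2 x = x := by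
  have : x = (ee s y 1 + ee s y 0 + ee s y (-1)) * x * (ee s y 1 + ee s y 0 + ee s y (-1)) := by
    rw [ee_sum, one_mul, mul_one]
  conv_rhs => rw [this]
  simp only [cp_apply, mul_add, add_mul]
  norm_num
  simp only [ee_eq_zero (s := s) (y := y) (n := -2) (by norm_num),
    ee_eq_zero (s := s) (y := y) (n := -3) (by norm_num),
    ee_eq_zero (s := s) (y := y) (n := 2) (by norm_num),
    ee_eq_zero (s := s) (y := y) (n := 3) (by norm_num), zero_mul, add_zero, zero_add]
  abel

theorem Gr.cp_self {x : E} {i : ℤ} (hx : x ∈ Gr k s y i) : cp k s y i x = x := by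
  by_cases h : i ≤ -3 ∨ 3 ≤ i
  · rw [Gr.eq_zero hx h, map_zero]
  have e := cp_sum (k := k) (s := s) (y := y) x
  have h' : i = -2 ∨ i = -1 ∨ i = 0 ∨ i = 1 ∨ i = 2 := by omega
  rcases h' with rfl | rfl | rfl | rfl | rfl <;>
    simpa (disch := norm_num) only [fun j hj => Gr.cp_ne hx (i := j) hj, add_zero, zero_add] using e

theorem Gr.cp_eq {x : E} {j : ℤ} (hx : x ∈ Gr k s y j) (i : ℤ) :
    cp k s y i x = if i = j then x else 0 := by
  split_ifs with h
  · rw [h, Gr.cp_self hx]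
  · exact Gr.cp_ne hx h

theorem cp_symm (i : ℤ) (x : E) : cp k y s i x = cp k s y (-i) x := by
  simp only [cp_apply, ee_symm (s := s) (y := y)]
  rw [show -(1 + i) = -1 + -i by ring, show -(-1 + i) = 1 + -i by ring, neg_zero, neg_neg]
  abel

theorem IP.mem_Sp_of_cp (hh : IP s y) {P : ℤ → Prop} {x : E}
    (h : ∀ i, -2 ≤ i → i ≤ 2 → ¬ P i → cp k s y i x = 0) : x ∈ Sp k s y P := by
  rw [← cp_sum (k := k) (s := s) (y := y) x]
  have : ∀ i, -2 ≤ i → i ≤ 2 → cp k s y i x ∈ Sp k s y P := fun i h1 h2 => by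
    by_cases hp : P i
    · exact Sp.mono (fun j _ _ hj => hj ▸ hp) (hh.cp_mem i x)
    · rw [h i h1 h2 hp]; exact zero_mem _
  refine add_mem (add_mem (add_mem (add_mem ?_ ?_) ?_) ?_) ?_ <;> apply this <;> norm_num

theorem IP.sub_cp_mem (hh : IP s y) {i : ℤ} {x : E} (hx : x ∈ Fil k s y i) :
    x - cp k s y i x ∈ Fil k s y (i + 1) := hh.mem_Sp_of_cp fun j _ _ hj => by
  rw [map_sub, Gr.cp_eq (hh.cp_mem i x)]
  split_ifs with h
  · rw [h, sub_self]
  · rw [Fil.cp_lt hx (by omega), sub_zero]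

theorem IP.mem_Fil_succ (hh : IP s y) {i : ℤ} {x : E} (hx : x ∈ Fil k s y i)
    (h : cp k s y i x = 0) : x ∈ Fil k s y (i + 1) := by
  simpa [h] using hh.sub_cp_mem hx

/-- The leading component of a product. -/
theorem IP.cp_mul (hh : IP s y) {i j l : ℤ} {x x' : E} (hx : x ∈ Fil k s y i)
    (hx' : x' ∈ Fil k s y j) (hl : i + j = l := by norm_num) :
    cp k s y l (x * x') = cp k s y i x * cp k s y j x' := by
  have e : x * x' = cp k s y i x * cp k s y j x' + (cp k s y i x * (x' - cp k s y j x') +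
      (x - cp k s y i x) * x') := by noncomm_ring
  have h1 : cp k s y i x * (x' - cp k s y j x') + (x - cp k s y i x) * x' ∈ Fil k s y (l + 1) :=
    add_mem (Fil.mul hh (Gr.fil (hh.cp_mem i x) le_rfl) (hh.sub_cp_mem hx') (by omega))
      (Fil.mul hh (hh.sub_cp_mem hx) hx' (by omega))
  rw [e, map_add, Fil.cp_lt h1 (by omega), add_zero,
    Gr.cp_self (Gr.mul hh (hh.cp_mem i x) (hh.cp_mem j x') hl)]

theorem IP.cp_mul_left (hh : IP s y) {i j l : ℤ} {a : E} (ha : a ∈ Gr k s y i) (x : E)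
    (hl : i + j = l := by norm_num) : cp k s y l (a * x) = a * cp k s y j x := by
  by_cases hj : j ≤ -3 ∨ 3 ≤ j
  · rw [Gr.eq_zero (hh.cp_mem j x) hj, mul_zero, ← cp_sum (k := k) (s := s) (y := y) x]
    simp only [mul_add, map_add]
    rw [Gr.cp_ne (Gr.mul hh ha (hh.cp_mem _ x) rfl) (by omega),
      Gr.cp_ne (Gr.mul hh ha (hh.cp_mem _ x) rfl) (by omega),
      Gr.cp_ne (Gr.mul hh ha (hh.cp_mem _ x) rfl) (by omega),
      Gr.cp_ne (Gr.mul hh ha (hh.cp_mem _ x) rfl) (by omega),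
      Gr.cp_ne (Gr.mul hh ha (hh.cp_mem _ x) rfl) (by omega)]
    simp
  conv_lhs => rw [← cp_sum (k := k) (s := s) (y := y) x]
  simp only [mul_add, map_add, fun n => Gr.cp_eq (Gr.mul hh ha (hh.cp_mem n x) rfl) l]
  have h' : j = -2 ∨ j = -1 ∨ j = 0 ∨ j = 1 ∨ j = 2 := by omega
  subst hl
  rcases h' with rfl | rfl | rfl | rfl | rfl <;> simp

theorem IP.cp_mul_right (hh : IP s y) {i j l : ℤ} {a : E} (ha : a ∈ Gr k s y i) (x : E)
    (hl : j + i = l := by norm_num) : cp k s y l (x * a) = cp k s y j x * a := by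
  by_cases hj : j ≤ -3 ∨ 3 ≤ j
  · rw [Gr.eq_zero (hh.cp_mem j x) hj, zero_mul, ← cp_sum (k := k) (s := s) (y := y) x]
    simp only [add_mul, map_add]
    rw [Gr.cp_ne (Gr.mul hh (hh.cp_mem _ x) ha rfl) (by omega),
      Gr.cp_ne (Gr.mul hh (hh.cp_mem _ x) ha rfl) (by omega),
      Gr.cp_ne (Gr.mul hh (hh.cp_mem _ x) ha rfl) (by omega),
      Gr.cp_ne (Gr.mul hh (hh.cp_mem _ x) ha rfl) (by omega),
      Gr.cp_ne (Gr.mul hh (hh.cp_mem _ x) ha rfl) (by omega)]
    simp
  conv_lhs => rw [← cp_sum (k := k) (s := s) (y := y) x]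
  simp only [add_mul, map_add, fun n => Gr.cp_eq (Gr.mul hh (hh.cp_mem n x) ha rfl) l]
  have h' : j = -2 ∨ j = -1 ∨ j = 0 ∨ j = 1 ∨ j = 2 := by omega
  subst hl
  rcases h' with rfl | rfl | rfl | rfl | rfl <;> simp

theorem cp_neg_two (x : E) : cp k s y (-2) x = y * s * x * (s * y) := by
  rw [cp_apply, ee_eq_zero (n := -2) (by norm_num), ee_eq_zero (n := -1 + -2) (by norm_num)]
  simp [ee_one, ee_neg_one]

theorem cp_two (x : E) : cp k s y 2 x = s * y * x * (y * s) := by
  rw [cp_apply, ee_eq_zero (n := 2) (by norm_num), ee_eq_zero (n := 1 + 2) (by norm_num)]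
  simp [ee_one, ee_neg_one]

theorem IP.eq_of_gr_two (hh : IP s y) {x : E} (hx : x ∈ Gr k s y 2) : x = s * (y * x * y) * s := by
  conv_lhs => rw [← Gr.cp_self hx, cp_two]
  simp only [mul_assoc]

theorem IP.mem_Fil_neg_one_iff (hh : IP s y) {x : E} : x ∈ Fil k s y (-1) ↔ s * x * s = 0 := by
  constructor
  · intro h
    exact Fil.eq_zero (i := 3) (Fil.mul hh (Fil.mul hh (l := 1) (Gr.fil hh.s_mem le_rfl) h)
      (Gr.fil hh.s_mem le_rfl))
  · intro h
    refine hh.mem_Fil_succ (i := -2) (mem_Fil_neg_two x) ?_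
    rw [cp_neg_two, mul_assoc y, mul_assoc y, ← mul_assoc _ s y, h, zero_mul, mul_zero]

/-- The elements killing `s` on both sides and mapping its kernel into its range. -/
def Core (s x : E) : Prop := s * x = 0 ∧ x * s = 0 ∧ ∀ z, s * z = 0 → ∃ w, x * z = s * w

theorem IP.mem_Fil_one_iff (hh : IP s y) {x : E} : x ∈ Fil k s y 1 ↔ Core s x := by
  constructor
  · intro h
    have h1 : s * x = 0 := Fil.eq_zero (i := 3) (Fil.mul hh (Gr.fil hh.s_mem le_rfl) h)
    have h2 : x * s = 0 := Fil.eq_zero (i := 3) (Fil.mul hh h (Gr.fil hh.s_mem le_rfl))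
    refine ⟨h1, h2, fun z hz => ⟨y * x * z, ?_⟩⟩
    have h3 := h 0 0 (by norm_num)
    have h4 : x * ee s y 0 * z = x * z := by
      simp [ee_zero, mul_sub, sub_mul, mul_assoc, hz, ← mul_assoc x s, h2]
    have h5 : ee s y 0 * x = x - s * y * x := by
      simp [ee_zero, sub_mul, mul_assoc, h1]
    have h6 : ee s y 0 * x * ee s y 0 * z = 0 := by rw [h3, zero_mul]
    rw [mul_assoc (ee s y 0), mul_assoc (ee s y 0), h4, ← mul_assoc, h5, sub_mul, sub_eq_zero] at h6
    rw [h6]; simp only [mul_assoc]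
  · rintro ⟨h1, h2, h3⟩ n m hnm
    have a1 : ee s y (-1) * x = 0 := by rw [ee_neg_one, mul_assoc, h1, mul_zero]
    have a2 : x * ee s y 1 = 0 := by rw [ee_one, ← mul_assoc, h2, zero_mul]
    have a3 : ee s y 0 * x * ee s y 0 = 0 := by
      obtain ⟨w, hw⟩ := h3 (ee s y 0) (by simp [ee_zero, mul_sub, hh.ss', hh.sys0])
      rw [mul_assoc, hw, ← mul_assoc]
      simp [ee_zero, sub_mul, hh.sys, mul_assoc y s s, hh.ss]
    rcases ee_cases (s := s) (y := y) n with rfl | rfl | rfl | h0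
    · rcases ee_cases (s := s) (y := y) m with rfl | rfl | rfl | h0
      · rw [mul_assoc, a2, mul_zero]
      · norm_num at hnm
      · norm_num at hnm
      · rw [h0, mul_zero]
    · rcases ee_cases (s := s) (y := y) m with rfl | rfl | rfl | h0
      · rw [mul_assoc, a2, mul_zero]
      · exact a3
      · norm_num at hnm
      · rw [h0, mul_zero]
    · rw [a1, zero_mul]
    · rw [h0, zero_mul, zero_mul]

/-- An element commuting with `s` and `y` has degree zero. -/
theorem IP.mem_gr_zero_of_commute (hh : IP s y) {x : E} (h1 : Commute x s) (h2 : Commute x y) :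
    x ∈ Gr k s y 0 := fun n m hnm => by
  have : Commute x (ee s y m) := by
    rcases ee_cases (s := s) (y := y) m with rfl | rfl | rfl | h0
    · exact h1.mul_right h2
    · exact ((Commute.one_right x).sub_right (h1.mul_right h2)).sub_right (h2.mul_right h1)
    · exact h2.mul_right h1
    · rw [h0]; exact Commute.zero_right x
  rw [mul_assoc, this.eq, ← mul_assoc, hh.ee_mul_ne (by omega), zero_mul]

theorem IP.ee_mul_gr (hh : IP s y) {x : E} {i : ℤ} (hx : x ∈ Gr k s y i) (n : ℤ) :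
    x * ee s y n = ee s y (n + i) * x := by
  have h1 : ∀ l, l ≠ n + i → ee s y l * x * ee s y n = 0 := fun l hl => hx l n (by omega)
  have h2 : ∀ l, l ≠ n → ee s y (n + i) * x * ee s y l = 0 := fun l hl => hx _ l (by omega)
  have e1 : x * ee s y n = ee s y (n + i) * x * ee s y n := by
    conv_lhs => rw [← one_mul x, ← ee_sum (s := s) (y := y)]
    simp only [add_mul]
    rcases ee_cases (s := s) (y := y) (n + i) with h | h | h | h0
    · rw [h1 0 (by omega), h1 (-1) (by omega), h]; simp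
    · rw [h1 1 (by omega), h1 (-1) (by omega), h]; simp
    · rw [h1 1 (by omega), h1 0 (by omega), h]; simp
    · by_cases hh' : n + i < -1 ∨ 1 < n + i
      · rw [h1 1 (by omega), h1 0 (by omega), h1 (-1) (by omega), h0]; simp
      · have : n + i = 1 ∨ n + i = 0 ∨ n + i = -1 := by omega
        rcases this with h | h | h
        · rw [h1 0 (by omega), h1 (-1) (by omega), h]; simp
        · rw [h1 1 (by omega), h1 (-1) (by omega), h]; simp
        · rw [h1 1 (by omega), h1 0 (by omega), h]; simp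
  have e2 : ee s y (n + i) * x = ee s y (n + i) * x * ee s y n := by
    conv_lhs => rw [← mul_one (ee s y (n + i) * x), ← ee_sum (s := s) (y := y)]
    simp only [mul_add]
    by_cases hh' : n < -1 ∨ 1 < n
    · rw [h2 1 (by omega), h2 0 (by omega), h2 (-1) (by omega), ee_eq_zero hh']; simp
    · have : n = 1 ∨ n = 0 ∨ n = -1 := by omega
      rcases this with h | h | h
      · rw [h2 0 (by omega), h2 (-1) (by omega), h]; simp
      · rw [h2 1 (by omega), h2 (-1) (by omega), h]; simp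
      · rw [h2 1 (by omega), h2 0 (by omega), h]; simp
  rw [e1, ← e2]

/-- An element of degree zero commuting with `s` commutes with `y`. -/
theorem IP.commute_y (hh : IP s y) {x : E} (hx : x ∈ Gr k s y 0) (h : Commute x s) :
    Commute x y := by
  have e1 := hh.ee_mul_gr hx 1
  have e2 := hh.ee_mul_gr hx (-1)
  rw [add_zero, ee_one] at e1
  rw [add_zero, ee_neg_one] at e2
  calc x * y = x * (y * s) * y := by rw [mul_assoc, hh.ysy]
    _ = y * (s * x) * y := by rw [e2, mul_assoc y s x]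
    _ = y * (x * (s * y)) := by rw [← h.eq, mul_assoc, mul_assoc]
    _ = y * x := by rw [e1, ← mul_assoc, hh.ysy0]

/-- The diagonal element with eigenvalues `c`, `1`, `d`. -/
def dg (s y : E) (c d : k) : E := c • ee s y 1 + ee s y 0 + d • ee s y (-1)

theorem IP.dg_mem (hh : IP s y) (c d : k) : dg s y c d ∈ Gr k s y 0 :=
  add_mem (add_mem (Submodule.smul_mem _ _ (hh.ee_mem _)) (hh.ee_mem _))
    (Submodule.smul_mem _ _ (hh.ee_mem _))

theorem IP.dg_mul (hh : IP s y) (c d c' d' : k) :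
    dg s y c d * dg s y c' d' = dg s y (c * c') (d * d') := by
  simp (disch := norm_num) only [dg, mul_add, add_mul, smul_mul_assoc, mul_smul_comm, hh.ee_mul_self,
    fun n m h => hh.ee_mul_ne (n := n) (m := m) h, smul_zero, add_zero, zero_add, smul_smul]
  rw [mul_comm c', mul_comm d']

theorem dg_one : dg s y (1 : k) 1 = 1 := by rw [dg, one_smul, one_smul, ee_sum]

theorem IP.dg_mul_ee (hh : IP s y) (c : k) (hc : c ≠ 0) (n : ℤ) :
    dg s y c c⁻¹ * ee s y n = c ^ n • ee s y n ∧ ee s y n * dg s y c c⁻¹ = c ^ n • ee s y n := by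
  rcases ee_cases (s := s) (y := y) n with rfl | rfl | rfl | h0
  all_goals first
    | (rw [h0]; simp)
    | simp (disch := norm_num) only [dg, mul_add, add_mul, smul_mul_assoc, mul_smul_comm,
        hh.ee_mul_self, fun n m h => hh.ee_mul_ne (n := n) (m := m) h, smul_zero, add_zero, zero_add,
        zpow_one, zpow_zero, one_smul, zpow_neg_one, and_self]

theorem IP.dg_mul_gr (hh : IP s y) (c : k) (hc : c ≠ 0) {x : E} {i : ℤ} (hx : x ∈ Gr k s y i) :
    dg s y c c⁻¹ * x = c ^ i • (x * dg s y c c⁻¹) := by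
  have key : ∀ n, dg s y c c⁻¹ * x * ee s y n = c ^ i • (x * dg s y c c⁻¹) * ee s y n := fun n => by
    rw [mul_assoc, hh.ee_mul_gr hx, ← mul_assoc, (hh.dg_mul_ee c hc _).1, smul_mul_assoc,
      smul_mul_assoc, mul_assoc x, (hh.dg_mul_ee c hc _).1, mul_smul_comm, hh.ee_mul_gr hx, smul_smul,
      zpow_add₀ hc, mul_comm]
  rw [← mul_one (dg s y c c⁻¹ * x), ← mul_one (c ^ i • _), ← ee_sum (s := s) (y := y)]
  simp only [mul_add, key]

end Cfsg.Lib.QG
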