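import Mathlib
import Cfsg.Agent.Class.QuadFinal
import Cfsg.Agent.Trans.QuadGrade

/-!
The unipotent radical `UG G s` of the normalizer of a quadratic root subgroup is transitive on the partners of `s`.
-/

set_option autoImplicit false

namespace Cfsg.Lib.QG

open Cfsg.Lib.Class

section ring

variable {k : Type*} [Field k] {E : Type*} [Ring E] [Algebra k E]

/-- Conjugation by a unit. -/
def cj (k : Type*) [Field k] [Algebra k E] (g : Eˣ) : E →ₐ[k] E where
  toFun x := g * x * (g⁻¹ : Eˣ)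
  map_one' := by simp
  map_mul' x y := by simp [mul_assoc]
  map_zero' := by simp
  map_add' x y := by simp [mul_add, add_mul]
  commutes' c := by rw [← Algebra.commutes, mul_assoc, Units.mul_inv, mul_one]

theorem cj_apply (g : Eˣ) (x : E) : cj k g x = g * x * (g⁻¹ : Eˣ) := rfl

theorem cj_cj (g h : Eˣ) (x : E) : cj k g (cj k h x) = cj k (g * h) x := by
  simp [cj_apply, mul_assoc]

@[simp] theorem cj_one (x : E) : cj k 1 x = x := by simp [cj_apply]

@[simp] theorem cj_inv_cj (g : Eˣ) (x : E) : cj k g⁻¹ (cj k g x) = x := by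
  rw [cj_cj, inv_mul_cancel, cj_one]

@[simp] theorem cj_cj_inv (g : Eˣ) (x : E) : cj k g (cj k g⁻¹ x) = x := by
  rw [cj_cj, mul_inv_cancel, cj_one]

theorem cj_injective (g : Eˣ) : Function.Injective (cj k g) :=
  Function.LeftInverse.injective (cj_inv_cj g)

theorem cj_val (g h : Eˣ) : cj k g h = ((g * h * g⁻¹ : Eˣ) : E) := by simp [cj_apply]

theorem cj_eq_self_iff {g : Eˣ} {x : E} : cj k g x = x ↔ Commute (g : E) x := by
  rw [cj_apply, Units.mul_inv_eq_iff_eq_mul]; rfl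

theorem cj_eq_zero_iff {g : Eˣ} {x : E} : cj k g x = 0 ↔ x = 0 :=
  map_eq_zero_iff _ (cj_injective g)

theorem IP.cj {s y : E} (h : IP s y) (g : Eˣ) : IP (cj k g s) (cj k g y) :=
  ⟨by rw [← map_mul, h.ss, map_zero], by rw [← map_mul, h.yy, map_zero],
    by rw [← map_mul, ← map_mul, h.sys], by rw [← map_mul, ← map_mul, h.ysy]⟩

theorem cj_ee {s y : E} (g : Eˣ) (n : ℤ) : cj k g (ee s y n) = ee (cj k g s) (cj k g y) n := by
  unfold ee
  split_ifs <;> simp

theorem cj_dg {s y : E} (g : Eˣ) (c d : k) :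
    cj k g (dg s y c d) = dg (cj k g s) (cj k g y) c d := by
  simp [dg, cj_ee]

theorem Core.cj {s x : E} (h : Core s x) (g : Eˣ) : Core (cj k g s) (cj k g x) := by
  refine ⟨by rw [← map_mul, h.1, map_zero], by rw [← map_mul, h.2.1, map_zero], fun z hz => ?_⟩
  obtain ⟨w, hw⟩ := h.2.2 (QG.cj k g⁻¹ z) (cj_injective (k := k) g (by rw [map_mul, cj_cj_inv, hz, map_zero]))
  exact ⟨QG.cj k g w, by rw [← map_mul, ← hw, map_mul, cj_cj_inv]⟩

variable {s y : E}

theorem IP.mem_gr_zero_of_commute_dg (hh : IP s y) {c : k} (hc : c ≠ 0) (hc2 : c ^ 2 ≠ 1) {x : E}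
    (h : Commute (dg s y c c⁻¹) x) : x ∈ Gr k s y 0 := hh.mem_Sp_of_cp fun i h1 h2 hi => by
  have e1 := hh.cp_mul_left (hh.dg_mem c c⁻¹) x (zero_add i)
  have e2 := hh.cp_mul_right (hh.dg_mem c c⁻¹) x (add_zero i)
  rw [h.eq, e2, hh.dg_mul_gr c hc (hh.cp_mem i x)] at e1
  have hc1 : c ≠ 1 := fun h => hc2 (by rw [h, one_pow])
  have hne : c ^ i ≠ 1 := by
    have : i = -2 ∨ i = -1 ∨ i = 1 ∨ i = 2 := by omega
    rcases this with rfl | rfl | rfl | rfl
    · rwa [zpow_neg, Ne, inv_eq_one, zpow_two, ← sq]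
    · rwa [zpow_neg_one, Ne, inv_eq_one]
    · rwa [zpow_one]
    · rwa [zpow_two, ← sq]
  have e3 : (c ^ i - 1) • (cp k s y i x * dg s y c c⁻¹) = 0 := by rw [sub_smul, ← e1, one_smul, sub_self]
  have e4 := congrArg (· * dg s y c⁻¹ c) ((smul_eq_zero.1 e3).resolve_left (sub_ne_zero.2 hne))
  simpa only [mul_assoc, hh.dg_mul, mul_inv_cancel₀ hc, inv_mul_cancel₀ hc, dg_one, mul_one,
    zero_mul] using e4

theorem eq_zero_of_gr_of_fil {i j : ℤ} {x : E} (h : x ∈ Gr k s y i) (h' : x ∈ Fil k s y j)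
    (hij : i < j := by norm_num) : x = 0 := by rw [← Gr.cp_self h, Fil.cp_lt h' hij]

theorem IP.eq_of_dg_eq {y' : E} (hh : IP s y) (hh' : IP s y') {c : k} (hc : c ≠ 0) (hc2 : c ^ 2 ≠ 1)
    (h : dg s y c c⁻¹ = dg s y' c c⁻¹) : y = y' := by
  have hd : y' - y ∈ Fil k s y (-1) := hh.mem_Fil_neg_one_iff.2 (by
    rw [mul_sub, sub_mul, hh.sys, hh'.sys, sub_self])
  have key : ∀ n, ee s y' n ∈ Gr k s y 0 := fun n => hh.mem_gr_zero_of_commute_dg hc hc2 (by
    rw [h, Commute, SemiconjBy, (hh'.dg_mul_ee c hc n).1, (hh'.dg_mul_ee c hc n).2])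
  have h1 : s * (y' - y) = 0 := eq_zero_of_gr_of_fil (k := k) (i := 0) (j := 1)
    (by rw [mul_sub]; exact sub_mem (key 1) (hh.ee_mem 1))
    (Fil.mul hh (Gr.fil hh.s_mem le_rfl) hd)
  have h2 : (y' - y) * s = 0 := eq_zero_of_gr_of_fil (k := k) (i := 0) (j := 1)
    (by rw [sub_mul]; exact sub_mem (ee_neg_one (s := s) (y := y') ▸ key (-1)) (hh.ee_mem (-1)))
    (Fil.mul hh hd (Gr.fil hh.s_mem le_rfl))
  rw [mul_sub, sub_eq_zero] at h1
  rw [sub_mul, sub_eq_zero] at h2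
  rw [← hh'.ysy, h2, mul_assoc, h1, hh.ysy0]

theorem IP.n_val (hh : IP s y) : (1 + s) * (1 - y) * (1 + s) = s - y + ee s y 0 := by
  simp [ee_zero, mul_add, add_mul, mul_sub, sub_mul, mul_assoc, hh.ss, hh.sys0]
  abel

theorem IP.smul (hh : IP s y) {c : k} (hc : c ≠ 0) : IP (c • s) (c⁻¹ • y) :=
  ⟨by simp [hh.ss], by simp [hh.yy], by simp [hh.sys, smul_smul, hc], by simp [hh.ysy, smul_smul, hc]⟩

theorem IP.neg (hh : IP s y) : IP (-s) (-y) :=
  ⟨by simp [hh.ss], by simp [hh.yy], by simp [hh.sys], by simp [hh.ysy]⟩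

theorem ee_congr {s' y' : E} (h1 : s' * y' = s * y) (h2 : y' * s' = y * s) : ee s' y' = ee s y := by
  funext n
  simp only [ee, h1, h2]

end ring

/-- Prime fields with at least five elements. -/
structure HK (k : Type*) [Field k] : Prop where
  h2 : ringChar k ≠ 2
  h3 : Nat.card k ≠ 3
  nat : ∀ c : k, ∃ n : ℕ, (n : k) = c

theorem hk_zmod {p : ℕ} [Fact p.Prime] (hp : 5 ≤ p) : HK (ZMod p) :=
  ⟨by rw [ZMod.ringChar_zmod_n]; omega, by rw [Nat.card_zmod]; omega,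
    fun c => ⟨c.val, ZMod.natCast_zmod_val c⟩⟩

variable {k : Type*} [Field k] {M : Type*} [AddCommGroup M] [Module k M]
variable {G : Subgroup (LinearMap.GeneralLinearGroup k M)}

theorem HK.two_ne (hk : HK k) : (2 : k) ≠ 0 := Ring.two_ne_zero hk.h2

theorem mem_QS_of_val (hk : HK k) {g : LinearMap.GeneralLinearGroup k M} (hg : g ∈ G)
    {x : Module.End k M} (h : (g : Module.End k M) = 1 + x) (hx : x * x = 0) : x ∈ QS G := by
  refine ⟨hx, fun c => ?_⟩
  obtain ⟨n, rfl⟩ := hk.nat c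
  refine ⟨g ^ n, G.pow_mem hg n, ?_⟩
  induction n with
  | zero => simp
  | succ n ih =>
    rw [pow_succ, Units.val_mul, ih, h, Nat.cast_succ, add_smul, one_smul, add_mul, mul_add, mul_add,
      smul_mul_assoc, smul_mul_assoc, hx]
    simp only [mul_one, one_mul, smul_zero, add_zero]; abel

section cjlemmas

variable {γ : LinearMap.GeneralLinearGroup k M}
  (hγ : γ ∈ Subgroup.normalizer (G : Set (LinearMap.GeneralLinearGroup k M)))
include hγ

theorem QS_cj {s : Module.End k M} (hs : s ∈ QS G) : cj k γ s ∈ QS G := by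
  refine ⟨by rw [← map_mul, hs.1, map_zero], fun c => ?_⟩
  obtain ⟨g, hg, e⟩ := hs.2 c
  exact ⟨γ * g * γ⁻¹, (Subgroup.mem_normalizer_iff.1 hγ g).1 hg, by
    rw [← cj_val (k := k), e, map_add, map_one, map_smul]⟩

theorem Esp_cj {t x : Module.End k M} (h : x ∈ Esp G t) : cj k γ x ∈ Esp G (cj k γ t) :=
  ⟨QS_cj hγ h.1, (conj_mem_Esp (G := ⊤) (t := t) (x := x) ⟨QS.mono le_top h.1, h.2⟩
    (Subgroup.mem_top γ)).2⟩

theorem EG_cj {t : Module.End k M} {g : LinearMap.GeneralLinearGroup k M} (h : g ∈ EG G t) :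
    γ * g * γ⁻¹ ∈ EG G (cj k γ t) := by
  rw [mem_EG, ← cj_val (k := k), ← map_one (cj k γ), ← map_sub]
  exact Esp_cj hγ h

variable [FiniteDimensional k M]

theorem QD_cj {t : Module.End k M} (ht : t ∈ QD G) : cj k γ t ∈ QD G :=
  QD.of_rk_le ht (QS_cj hγ ht.1) (cj_eq_zero_iff.not.2 ht.2.1) (rk_conj γ t).le

theorem Conn_cj {a b : Module.End k M} (h : Conn G a b) : Conn G (cj k γ a) (cj k γ b) := by
  induction h with
  | refl => exact Conn.refl _
  | tail _ h ih =>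
    refine ih.trans (conn_of_opp (QD_cj hγ h.1) (QD_cj hγ h.2.1) ?_)
    rw [← map_mul, ← map_mul]
    exact cj_eq_zero_iff.not.2 h.2.2

theorem GQ_cj {t : Module.End k M} {g : LinearMap.GeneralLinearGroup k M} (h : g ∈ GQ G t) :
    γ * g * γ⁻¹ ∈ GQ G (cj k γ t) := by
  have : GQ G t ≤ (GQ G (cj k γ t)).comap (MulAut.conj γ).toMonoidHom :=
    GQ_le_iff.2 fun s hs g hg => EG_le_GQ (Conn_cj hγ hs) (EG_cj hγ hg)
  exact this h

end cjlemmas

/-- A minimal quadratic element with a partner. -/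
structure Std (G : Subgroup (LinearMap.GeneralLinearGroup k M)) (s y : Module.End k M) : Prop where
  s_mem : s ∈ QD G
  y_mem : y ∈ QD G
  ip : IP s y

variable {s y : Module.End k M}

theorem Std.symm (h : Std G s y) : Std G y s := ⟨h.y_mem, h.s_mem, h.ip.symm⟩

theorem Std.opp (h : Std G s y) : s * y * s ≠ 0 := by rw [h.ip.sys]; exact h.s_mem.2.1

theorem Std.conn (h : Std G s y) : Conn G s y := conn_of_opp h.s_mem h.y_mem h.symm.opp

theorem Std.sup_le_GQ (h : Std G s y) : EG G s ⊔ EG G y ≤ GQ G s :=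
  sup_le (EG_le_GQ (Conn.refl s)) (EG_le_GQ h.conn)

theorem IP.gr_of_Esp (hh : IP s y) {x : Module.End k M} (hx : x ∈ Esp G s) : x ∈ Gr k s y 2 := by
  obtain ⟨a, ha⟩ := Esp.exists_right hx
  obtain ⟨b, hb⟩ := Esp.exists_left hx
  have : x = ee s y 1 * x * ee s y (-1) := by
    rw [ee_one, ee_neg_one]
    nth_rewrite 2 [ha]
    rw [← mul_assoc (s * y), hh.sys, ← ha]
    conv_rhs => rw [hb, mul_assoc, hh.sys0, ← hb]
  rw [this]
  exact hh.ee_mul_mul_mem _ _ _ (by norm_num)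

theorem IP.Esp_of_gr (hh : IP s y) {x : Module.End k M} (hx : x ∈ QS G) (h : x ∈ Gr k s y 2) :
    x ∈ Esp G s := by
  have e := hh.eq_of_gr_two h
  refine mem_Esp_of hh.ss hx ?_ ?_
  · rw [e]; exact ker_le_ker_mul _ _
  · rw [e, mul_assoc]; exact range_mul_le _ _

theorem IP.Esp_of_val (hk : HK k) (hh : IP s y) {g : LinearMap.GeneralLinearGroup k M} (hg : g ∈ G)
    {x : Module.End k M} (e : (g : Module.End k M) = 1 + x) (h : x ∈ Gr k s y 2) : x ∈ Esp G s :=
  hh.Esp_of_gr (mem_QS_of_val hk hg e (Gr.eq_zero (i := 4) (Gr.mul hh h h))) h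

/-- The Weyl element of an inverse pair. -/
theorem exists_n {a b : Module.End k M} (ha : a ∈ Esp G s) (hb : b ∈ Esp G y) (h : IP a b) :
    ∃ n ∈ EG G s ⊔ EG G y, (n : Module.End k M) = a - b + ee a b 0 ∧
      ((n⁻¹ : LinearMap.GeneralLinearGroup k M) : Module.End k M) = -a + b + ee a b 0 := by
  refine ⟨unitOf a h.ss * (unitOf b h.yy)⁻¹ * unitOf a h.ss, Subgroup.mul_mem _ (Subgroup.mul_mem _
    (Subgroup.mem_sup_left (unitOf_mem_EG ha)) (Subgroup.inv_mem _ (Subgroup.mem_sup_right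
    (unitOf_mem_EG hb)))) (Subgroup.mem_sup_left (unitOf_mem_EG ha)), h.n_val, ?_⟩
  have := h.neg.n_val
  rw [ee_congr (s := a) (y := b) (neg_mul_neg _ _) (neg_mul_neg _ _), sub_neg_eq_add,
    sub_neg_eq_add, ← sub_eq_add_neg] at this
  rw [← this, mul_inv_rev, mul_inv_rev, inv_inv, ← mul_assoc]
  rfl

theorem Std.exists_dg (h : Std G s y) {c : k} (hc : c ≠ 0) :
    ∃ t ∈ EG G s ⊔ EG G y, (t : Module.End k M) = dg s y c c⁻¹ ∧
      ((t⁻¹ : LinearMap.GeneralLinearGroup k M) : Module.End k M) = dg s y c⁻¹ c := by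
  have hs := self_mem_Esp h.s_mem.1
  have hy := self_mem_Esp h.y_mem.1
  obtain ⟨n, hn, -, e1⟩ := exists_n hs hy h.ip
  obtain ⟨m, hm, e2, -⟩ := exists_n (Submodule.smul_mem _ c hs) (Submodule.smul_mem _ c⁻¹ hy)
    (h.ip.smul hc)
  rw [ee_congr (s := s) (y := y) (by simp [smul_smul, hc]) (by simp [smul_smul, hc])] at e2
  have e : ((m * n⁻¹ : LinearMap.GeneralLinearGroup k M) : Module.End k M) = dg s y c c⁻¹ := by
    rw [Units.val_mul, e1, e2, dg, ee_one, ee_zero, ee_neg_one]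
    simp [mul_add, add_mul, mul_sub, sub_mul, mul_assoc, h.ip.ss, h.ip.yy, h.ip.ss', h.ip.yy',
      h.ip.sys0, h.ip.ysy0]
    abel
  refine ⟨m * n⁻¹, Subgroup.mul_mem _ hm (Subgroup.inv_mem _ hn), e, ?_⟩
  refine Units.inv_eq_of_mul_eq_one_right ?_
  rw [e, h.ip.dg_mul, mul_inv_cancel₀ hc, inv_mul_cancel₀ hc, dg_one]

/-- The unipotent radical of the normalizer of the root subgroup of `s`. -/
def UG (G : Subgroup (LinearMap.GeneralLinearGroup k M)) (s : Module.End k M) :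
    Subgroup (LinearMap.GeneralLinearGroup k M) where
  carrier := {g | g ∈ G ∧ Core s ((g : Module.End k M) - 1)}
  one_mem' := ⟨G.one_mem, by simp, by simp, fun z _ => ⟨0, by simp⟩⟩
  mul_mem' := by
    rintro g h ⟨hg, a1, a2, a3⟩ ⟨hh, b1, b2, b3⟩
    have e : ((g * h : LinearMap.GeneralLinearGroup k M) : Module.End k M) - 1 =
        ((g : Module.End k M) - 1) * ((h : Module.End k M) - 1) + ((g : Module.End k M) - 1) +
          ((h : Module.End k M) - 1) := by rw [Units.val_mul]; noncomm_ring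
    refine ⟨G.mul_mem hg hh, ?_, ?_, fun z hz => ?_⟩
    · rw [e, mul_add, mul_add, ← mul_assoc, a1, b1]; simp
    · rw [e, add_mul, add_mul, mul_assoc, a2, b2]; simp
    · obtain ⟨w, hw⟩ := a3 z hz
      obtain ⟨w', hw'⟩ := b3 z hz
      exact ⟨w + w', by rw [e, add_mul, add_mul, mul_assoc, hw, hw', ← mul_assoc, a2, mul_add]; simp⟩
  inv_mem' := by
    rintro g ⟨hg, a1, a2, a3⟩
    have e1 : ((g⁻¹ : LinearMap.GeneralLinearGroup k M) : Module.End k M) - 1 =
        -(((g : Module.End k M) - 1) * (g⁻¹ : LinearMap.GeneralLinearGroup k M)) := by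
      simp [sub_mul]
    have e2 : ((g⁻¹ : LinearMap.GeneralLinearGroup k M) : Module.End k M) - 1 =
        -((g⁻¹ : LinearMap.GeneralLinearGroup k M) * ((g : Module.End k M) - 1)) := by
      simp [mul_sub]
    have h2 : (((g⁻¹ : LinearMap.GeneralLinearGroup k M) : Module.End k M) - 1) * s = 0 := by
      rw [e2, neg_mul, mul_assoc, a2, mul_zero, neg_zero]
    refine ⟨G.inv_mem hg, by rw [e1, mul_neg, ← mul_assoc, a1, zero_mul, neg_zero], h2, fun z hz => ?_⟩
    obtain ⟨w, hw⟩ := a3 z hz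
    rw [sub_mul, one_mul, sub_eq_zero] at h2
    exact ⟨-w, by rw [e2, neg_mul, mul_assoc, hw, ← mul_assoc, h2, mul_neg]⟩

theorem UG_le : UG G s ≤ G := fun _ h => h.1

theorem IP.mem_UG (hh : IP s y) {g : LinearMap.GeneralLinearGroup k M} :
    g ∈ UG G s ↔ g ∈ G ∧ (g : Module.End k M) - 1 ∈ Fil k s y 1 := by
  rw [hh.mem_Fil_one_iff]; rfl

theorem UG_cj {γ : LinearMap.GeneralLinearGroup k M}
    (hγ : γ ∈ Subgroup.normalizer (G : Set (LinearMap.GeneralLinearGroup k M)))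
    {g : LinearMap.GeneralLinearGroup k M} (h : g ∈ UG G s) : γ * g * γ⁻¹ ∈ UG G (cj k γ s) := by
  refine ⟨(Subgroup.mem_normalizer_iff.1 hγ g).1 h.1, ?_⟩
  rw [← cj_val (k := k), ← map_one (cj k γ), ← map_sub]
  exact h.2.cj γ

theorem cj_eq_of_mem_UG {g : LinearMap.GeneralLinearGroup k M} (h : g ∈ UG G s) : cj k g s = s := by
  have h1 := h.2.1
  have h2 := h.2.2.1
  rw [mul_sub, mul_one, sub_eq_zero] at h1
  rw [sub_mul, one_mul, sub_eq_zero] at h2
  rw [cj_eq_self_iff, Commute, SemiconjBy, h1, h2]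

theorem IP.EG_le_UG (hh : IP s y) : EG G s ≤ UG G s := fun _ hg =>
  hh.mem_UG.2 ⟨EG_le s hg, Gr.fil (hh.gr_of_Esp hg)⟩

theorem IP.isPGroup_UG (hh : IP s y) {p : ℕ} [Fact p.Prime] [CharP k p] :
    IsPGroup p (UG G s) := by
  rintro ⟨g, hg⟩
  refine ⟨2, Subtype.ext (Units.ext ?_)⟩
  have h := (hh.mem_UG.1 hg).2
  have h3 : ((g : Module.End k M) - 1) ^ 3 = 0 := by
    rw [pow_three']
    exact Fil.eq_zero (i := 3) (Fil.mul hh (Fil.mul hh (l := 2) h h) h)
  rcases subsingleton_or_nontrivial (Module.End k M) with hE | hE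
  · exact Subsingleton.elim _ _
  haveI : CharP (Module.End k M) p := charP_of_injective_algebraMap' k p
  have h4 : ((g : Module.End k M) - 1) ^ p ^ 2 = 0 :=
    pow_eq_zero_of_le (le_trans (by norm_num) (Nat.pow_le_pow_left (Fact.out : p.Prime).two_le 2)) h3
  rw [sub_pow_char_pow_of_commute _ _ (Commute.one_right _), one_pow, sub_eq_zero] at h4
  simpa using h4

variable [FiniteDimensional k M]

theorem Std.cj (h : Std G s y) {γ : LinearMap.GeneralLinearGroup k M}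
    (hγ : γ ∈ Subgroup.normalizer (G : Set (LinearMap.GeneralLinearGroup k M))) :
    Std G (cj k γ s) (cj k γ y) := ⟨QD_cj hγ h.s_mem, QD_cj hγ h.y_mem, h.ip.cj γ⟩

theorem exists_std (hk : HK k) {t : Module.End k M} (hs : s ∈ QD G) (ht : t ∈ QD G)
    (h : s * t * s ≠ 0) : ∃ y ∈ Esp G t, Std G s y := by
  obtain ⟨y, hy, h0, h1, h2⟩ := exists_invpair hk.h2 hk.h3 ht hs h
  exact ⟨y, hy, hs, Esp.qd ht hy h0, hs.1.1, Esp.sq hy, h1, h2⟩

theorem exists_std' (hk : HK k) (hG : NU G) (hs : s ∈ QD G) : ∃ y, Std G s y := by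
  obtain ⟨r, hr, h⟩ := exists_opp hk.h2 hk.h3 hG hs
  obtain ⟨y, -, h'⟩ := exists_std hk hs hr (opp_symm hk.h2 hk.h3 hs.1 hr h)
  exact ⟨y, h'⟩

/-- Every non-zero member of `Esp G s` has a partner in `Esp G y`, defining the same grading. -/
theorem Std.partner (hk : HK k) (h : Std G s y) {a : Module.End k M} (ha : a ∈ Esp G s) (h0 : a ≠ 0) :
    ∃ b ∈ Esp G y, Std G a b ∧ a * b = s * y ∧ b * a = y * s := by
  have had := Esp.qd h.s_mem ha h0
  obtain ⟨b, hb, h'⟩ := exists_std hk had h.y_mem (opp_of_mem_Esp hk.h2 hk.h3 h.y_mem h.s_mem h.opp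
    (self_mem_Esp h.y_mem.1) h.y_mem.2.1 ha h0)
  refine ⟨b, hb, h', ?_, ?_⟩
  · obtain ⟨u, hu⟩ := Esp.exists_right (Esp.symm h.s_mem ha h0)
    obtain ⟨v, hv⟩ := Esp.exists_left hb
    have e1 : a * b * s = s := by rw [hu, ← mul_assoc, h'.ip.sys]
    rw [← e1, mul_assoc, mul_assoc]
    congr 1
    rw [hv, mul_assoc, h.ip.ysy0]
  · obtain ⟨u, hu⟩ := Esp.exists_left (Esp.symm h.s_mem ha h0)
    obtain ⟨v, hv⟩ := Esp.exists_right hb
    have e1 : s * (b * a) = s := by rw [hu, mul_assoc, h'.ip.sys0]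
    rw [← e1, ← mul_assoc, ← mul_assoc]
    congr 1
    rw [hv, ← mul_assoc, h.ip.ysy]

theorem Std.mul_mul_mem (hk : HK k) (h : Std G s y) {a x : Module.End k M} (ha : a ∈ Esp G s)
    (hx : x ∈ QS G) : a * x * a ∈ Esp G s := by
  by_cases h0 : a = 0
  · rw [h0, mul_zero]; exact zero_mem _
  have := aeval_zz_mul_mem_Esp hk.h2 hk.h3 hx (Esp.qd h.s_mem ha h0) Polynomial.X
  rwa [Polynomial.aeval_X, zz_mul_right (Esp.sq ha), Esp.esp_eq h.s_mem ha h0] at this

/-- `UG G s` is transitive on the partners of `s`. -/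
theorem Std.exists_cj_eq [Finite k] (hk : HK k) (h : Std G s y) {y' : Module.End k M}
    (h' : Std G s y') : ∃ u ∈ UG G s, QG.cj k u y = y' := by
  haveI : Finite M := Module.finite_of_finite k
  haveI : Finite (Module.End k M) := Finite.of_injective _ DFunLike.coe_injective
  obtain ⟨c, hc, hc2⟩ := exists_sq_ne_one hk.h2 hk.h3
  obtain ⟨t, ht, e1, e2⟩ := h.exists_dg hc
  obtain ⟨t', ht', e1', -⟩ := h'.exists_dg hc
  have htG : t ∈ G := sup_le (EG_le s) (EG_le y) ht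
  have hd : y' - y ∈ Fil k s y (-1) := h.ip.mem_Fil_neg_one_iff.2 (by
    rw [mul_sub, sub_mul, h.ip.sys, h'.ip.sys, sub_self])
  have ht0 : (t : Module.End k M) ∈ Fil k s y 0 := e1 ▸ Gr.fil (h.ip.dg_mem _ _)
  have ht0' : ((t⁻¹ : LinearMap.GeneralLinearGroup k M) : Module.End k M) ∈ Fil k s y 0 :=
    e2 ▸ Gr.fil (h.ip.dg_mem _ _)
  have hr : t⁻¹ * t' ∈ UG G s := h.ip.mem_UG.2 ⟨G.mul_mem (G.inv_mem htG)
    (sup_le (EG_le s) (EG_le y') ht'), by
      have : ((t⁻¹ * t' : LinearMap.GeneralLinearGroup k M) : Module.End k M) - 1 =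
          (t⁻¹ : LinearMap.GeneralLinearGroup k M) * ((c - 1) • (s * (y' - y)) +
            (c⁻¹ - 1) • ((y' - y) * s)) := by
        rw [← Units.inv_mul t, Units.val_mul, ← mul_sub, e1, e1']
        congr 1
        simp only [dg, ee_one, ee_zero, ee_neg_one, mul_sub, sub_mul, sub_smul, smul_sub, one_smul]
        abel
      rw [this]
      exact Fil.mul h.ip ht0' (add_mem
        (Submodule.smul_mem _ _ (Fil.mul h.ip (l := 1) (Gr.fil h.ip.s_mem le_rfl) hd))
        (Submodule.smul_mem _ _ (Fil.mul h.ip (l := 1) hd (Gr.fil h.ip.s_mem le_rfl))))⟩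
  have hn : ∀ u ∈ UG G s, t⁻¹ * u * t ∈ UG G s := fun u hu =>
    h.ip.mem_UG.2 ⟨G.mul_mem (G.mul_mem (G.inv_mem htG) hu.1) htG, by
      have : ((t⁻¹ * u * t : LinearMap.GeneralLinearGroup k M) : Module.End k M) - 1 =
          (t⁻¹ : LinearMap.GeneralLinearGroup k M) * ((u : Module.End k M) - 1) * t := by
        simp [mul_sub, sub_mul]
      rw [this]
      exact Fil.mul h.ip (Fil.mul h.ip (l := 1) ht0' (h.ip.mem_UG.1 hu).2) ht0⟩
  let f : UG G s → UG G s := fun u => ⟨t⁻¹ * u * t * u⁻¹, mul_mem (hn u u.2) (inv_mem u.2)⟩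
  have hf : Function.Injective f := fun u v huv => by
    have e : t⁻¹ * u * t * (u : LinearMap.GeneralLinearGroup k M)⁻¹ =
        t⁻¹ * v * t * (v : LinearMap.GeneralLinearGroup k M)⁻¹ := congrArg Subtype.val huv
    have e' : t * ((v : LinearMap.GeneralLinearGroup k M)⁻¹ * u) =
        (v : LinearMap.GeneralLinearGroup k M)⁻¹ * u * t := by
      calc t * ((v : LinearMap.GeneralLinearGroup k M)⁻¹ * u)
          = (v : LinearMap.GeneralLinearGroup k M)⁻¹ * t *
            (t⁻¹ * v * t * (v : LinearMap.GeneralLinearGroup k M)⁻¹) * u := by group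
        _ = _ := by rw [← e]; group
    have hw := (h.ip.mem_UG.1 (mul_mem (inv_mem v.2) u.2)).2
    have hw0 := h.ip.mem_gr_zero_of_commute_dg hc hc2 (x := (((v : LinearMap.GeneralLinearGroup k M)⁻¹ *
      u : LinearMap.GeneralLinearGroup k M) : Module.End k M) - 1) (by
        rw [← e1]
        exact Commute.sub_right (by rw [Commute, SemiconjBy, ← Units.val_mul, e', Units.val_mul])
          (Commute.one_right _))
    have := eq_zero_of_gr_of_fil hw0 hw
    rw [sub_eq_zero, Units.val_eq_one, inv_mul_eq_one] at this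
    exact (Subtype.ext this).symm
  obtain ⟨u, hu⟩ := Finite.injective_iff_surjective.1 hf ⟨_, hr⟩
  have e : t⁻¹ * u * t * (u : LinearMap.GeneralLinearGroup k M)⁻¹ = t⁻¹ * t' := congrArg Subtype.val hu
  refine ⟨u, u.2, IP.eq_of_dg_eq ?_ h'.ip hc hc2 ?_⟩
  · simpa only [cj_eq_of_mem_UG u.2] using h.ip.cj (k := k) u
  · have := cj_dg (k := k) (s := s) (y := y) u c c⁻¹
    rw [cj_eq_of_mem_UG u.2] at this
    rw [← this, ← e1, ← e1', cj_val]
    congr 1
    rw [← mul_left_cancel_iff (a := t⁻¹), ← e]; group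

end Cfsg.Lib.QG
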