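import Mathlib
import Cfsg.Agent.Trans.QuadU

/-!
The non-identity elements of a quadratic root subgroup fall into at most two conjugacy classes.
-/

set_option autoImplicit false

namespace Cfsg.Lib.QG

open Cfsg.Lib.Class Polynomial

section ring

variable {k : Type*} [Field k] {E : Type*} [Ring E] [Algebra k E]

/-- A finite special Jordan division algebra has no anticommuting non-zero elements. -/
theorem no_anticomm (h2 : (2 : k) ≠ 0) (J : Submodule k E) [Finite J] {e : E} (heJ : e ∈ J)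
    (he : ∀ x ∈ J, e * x = x ∧ x * e = x) (hsq : ∀ x ∈ J, x * x ∈ J)
    (hzd : ∀ x ∈ J, ∀ y ∈ J, x * y = 0 → x = 0 ∨ y = 0) {a b : E} (ha : a ∈ J) (hb : b ∈ J)
    (hab : a * b + b * a = 0) : a = 0 ∨ b = 0 := by
  by_contra hne
  push Not at hne
  have half : ∀ x : E, x + x = 0 → x = 0 := fun x hx => by
    rw [← two_smul k] at hx
    exact (smul_eq_zero.1 hx).resolve_left h2
  have hmul : ∀ x ∈ J, ∀ y ∈ J, Commute x y → x * y ∈ J := fun x hx y hy h => by
    have : x * y = (2 : k)⁻¹ • ((x + y) * (x + y) - x * x - y * y) := by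
      rw [eq_inv_smul_iff₀ h2, two_smul, add_mul, mul_add, mul_add, h.eq]; abel
    rw [this]
    exact J.smul_mem _ (sub_mem (sub_mem (hsq _ (add_mem hx hy)) (hsq x hx)) (hsq y hy))
  let F : NonUnitalSubring E :=
    { carrier := {x | x ∈ J ∧ Commute x a ∧ Commute x b ∧
        ∀ z ∈ J, Commute z a → Commute z b → Commute x z}
      zero_mem' := ⟨J.zero_mem, Commute.zero_left _, Commute.zero_left _,
        fun _ _ _ _ => Commute.zero_left _⟩
      add_mem' := fun hx hy => ⟨add_mem hx.1 hy.1, hx.2.1.add_left hy.2.1, hx.2.2.1.add_left hy.2.2.1,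
        fun z hz h h' => (hx.2.2.2 z hz h h').add_left (hy.2.2.2 z hz h h')⟩
      neg_mem' := fun hx => ⟨neg_mem hx.1, hx.2.1.neg_left, hx.2.2.1.neg_left,
        fun z hz h h' => (hx.2.2.2 z hz h h').neg_left⟩
      mul_mem' := fun hx hy => ⟨hmul _ hx.1 _ hy.1 (hx.2.2.2 _ hy.1 hy.2.1 hy.2.2.1),
        hx.2.1.mul_left hy.2.1, hx.2.2.1.mul_left hy.2.2.1,
        fun z hz h h' => (hx.2.2.2 z hz h h').mul_left (hy.2.2.2 z hz h h')⟩ }
  have hce : ∀ x ∈ J, Commute e x := fun x hx => by rw [Commute, SemiconjBy, (he x hx).1, (he x hx).2]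
  have heF : e ∈ F := ⟨heJ, hce a ha, hce b hb, fun z hz _ _ => hce z hz⟩
  have hba : b * a = -(a * b) := eq_neg_of_add_eq_zero_right hab
  have haF : a * a ∈ F := ⟨hsq a ha, (Commute.refl a).mul_left (Commute.refl a), by
    rw [Commute, SemiconjBy, ← mul_assoc, hba, neg_mul, mul_assoc a b a, hba, mul_neg, neg_neg,
      mul_assoc], fun z _ h _ => h.symm.mul_left h.symm⟩
  have hbF : b * b ∈ F := ⟨hsq b hb, by
    rw [Commute, SemiconjBy, mul_assoc, hba, mul_neg, ← mul_assoc, hba, neg_mul, neg_neg, mul_assoc],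
    (Commute.refl b).mul_left (Commute.refl b), fun z _ _ h => h.symm.mul_left h.symm⟩
  letI : CommRing F :=
    { (inferInstance : NonUnitalRing F) with
      one := ⟨e, heF⟩
      one_mul := fun x => Subtype.ext (he x x.2.1).1
      mul_one := fun x => Subtype.ext (he x x.2.1).2
      mul_comm := fun x y => Subtype.ext (x.2.2.2.2 y y.2.1 y.2.2.1 y.2.2.2.1) }
  have coe_mul : ∀ x y : F, ((x * y : F) : E) = x * y := fun _ _ => rfl
  have coe_add : ∀ x y : F, ((x + y : F) : E) = x + y := fun _ _ => rfl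
  have coe_neg : ∀ x : F, ((-x : F) : E) = -x := fun _ => rfl
  have haa : a * a ≠ 0 := fun h => hne.1 ((hzd a ha a ha h).elim id id)
  haveI : Nontrivial F := ⟨⟨a * a, haF⟩, 0, fun h => haa (congrArg Subtype.val h)⟩
  haveI : NoZeroDivisors F := ⟨fun {x y} h => (hzd x x.2.1 y y.2.1 (congrArg Subtype.val h)).imp
    (fun h => Subtype.ext h) fun h => Subtype.ext h⟩
  haveI : IsDomain F := NoZeroDivisors.to_isDomain F
  haveI : Finite F := Finite.of_injective (fun x : F => (⟨x, x.2.1⟩ : J))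
    fun x y h => Subtype.ext (congrArg Subtype.val h :)
  letI := Fintype.ofFinite F
  have hodd : Fintype.card F % 2 = 1 := by
    by_contra h
    obtain ⟨x, hx⟩ := exists_prime_addOrderOf_dvd_card (G := F) 2 (by omega)
    have h1 : x + x = 0 := by rw [← two_nsmul, ← hx, addOrderOf_nsmul_eq_zero]
    have h3 : x = 0 := Subtype.ext (half x (congrArg Subtype.val h1))
    rw [h3, addOrderOf_zero] at hx
    exact absurd hx (by norm_num)
  have hA : (⟨a * a, haF⟩ : F) ≠ 0 := fun h => haa (congrArg Subtype.val h)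
  obtain ⟨x, z, hxz⟩ := FiniteField.exists_root_sum_quadratic (R := F) (f := X ^ 2)
    (g := -(C ⟨a * a, haF⟩ * X ^ 2 + C ⟨b * b, hbF⟩)) (degree_X_pow 2) (by
      rw [degree_neg, degree_add_C (by rw [degree_C_mul_X_pow 2 hA]; norm_num),
        degree_C_mul_X_pow 2 hA]; rfl) hodd
  simp only [eval_pow, eval_X, eval_neg, eval_add, eval_mul, eval_C, sq] at hxz
  have h0 : (x : E) * x + -(a * a * (z * z) + b * b) = 0 := congrArg Subtype.val hxz
  have hza := z.2.2.1
  have hzb := z.2.2.2.1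
  have hJ : (z : E) * a + b ∈ J := add_mem (hmul _ z.2.1 _ ha hza) hb
  have hc : Commute (x : E) (z * a + b) :=
    ((x.2.2.2.2 z z.2.1 hza hzb).mul_right x.2.2.1).add_right x.2.2.2.1
  have hsq' : ((z : E) * a + b) * (z * a + b) = x * x := by
    rw [add_neg_eq_zero] at h0
    rw [h0, add_mul, mul_add, mul_add, ← mul_assoc b, ← hzb.eq, mul_assoc _ b a, hba, mul_assoc _ a b,
      mul_neg, mul_assoc, ← mul_assoc a, ← hza.eq, mul_assoc, ← mul_assoc,
      ((hza.mul_right hza).mul_left (hza.mul_right hza)).eq]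
    abel
  have h5 : ((z : E) * a + b - x) * (z * a + b + x) = 0 := by
    rw [sub_mul, mul_add _ _ (x : E), mul_add (x : E), hsq', hc.eq]; abel
  have h6 : Commute ((z : E) * a + b) a := by
    rcases hzd _ (sub_mem hJ x.2.1) _ (add_mem hJ x.2.1) h5 with h | h
    · rw [sub_eq_zero.1 h]; exact x.2.2.1
    · rw [eq_neg_of_add_eq_zero_left h]; exact x.2.2.1.neg_left
  have h7 : Commute b a := by simpa using h6.sub_left (hza.mul_left (Commute.refl a))
  rw [h7.eq] at hab
  exact (hzd a ha b hb (half _ hab)).elim hne.1 hne.2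

end ring

variable {k : Type*} [Field k] {M : Type*} [AddCommGroup M] [Module k M] [FiniteDimensional k M]
variable {G : Subgroup (LinearMap.GeneralLinearGroup k M)} {s y : Module.End k M}

theorem Std.eq_or_eq_neg [Finite k] (hk : HK k) (h : Std G s y) {a a' : Module.End k M}
    (ha : a ∈ Esp G s) (ha' : a' ∈ Esp G s) (e : a * y * a = a' * y * a') : a' = a ∨ a' = -a := by
  haveI : Finite M := Module.finite_of_finite k
  haveI : Finite (Module.End k M) := Finite.of_injective _ DFunLike.coe_injective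
  have hys : ∀ x ∈ Esp G s, x * y * s = x := fun x hx => by
    obtain ⟨b, rfl⟩ := Esp.exists_left hx
    rw [mul_assoc, mul_assoc, h.ip.sys0]
  have hsy : ∀ x ∈ Esp G s, s * y * x = x := fun x hx => by
    obtain ⟨b, rfl⟩ := Esp.exists_right hx
    rw [← mul_assoc, h.ip.sys]
  have := no_anticomm hk.two_ne ((Esp G s).map (LinearMap.mulRight k y)) (e := s * y)
    ⟨s, self_mem_Esp h.s_mem.1, rfl⟩ (by
      rintro _ ⟨x, hx, rfl⟩
      refine ⟨by rw [LinearMap.mulRight_apply, ← mul_assoc, hsy x hx], ?_⟩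
      rw [LinearMap.mulRight_apply, ← mul_assoc, hys x hx]) (by
      rintro _ ⟨x, hx, rfl⟩
      exact ⟨x * y * x, h.mul_mul_mem hk hx h.y_mem.1, by simp [mul_assoc]⟩) (by
      rintro _ ⟨x, hx, rfl⟩ _ ⟨x', hx', rfl⟩ h0
      by_cases hx0 : x = 0
      · exact Or.inl (by simp [hx0])
      obtain ⟨b, -, -, -, h2⟩ := h.partner hk hx hx0
      have := congrArg (s * b * ·) h0
      simp only [LinearMap.mulRight_apply, mul_zero] at this
      rw [← mul_assoc, ← mul_assoc, ← mul_assoc, mul_assoc s b x, h2, h.ip.sys0, hsy x' hx'] at this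
      exact Or.inr this)
    (a := (a' - a) * y) (b := (a' + a) * y) ⟨_, sub_mem ha' ha, rfl⟩ ⟨_, add_mem ha' ha, rfl⟩ (by
      have e' : a * (y * (a * y)) = a' * (y * (a' * y)) := by
        simpa only [mul_assoc] using congrArg (· * y) e
      simp only [mul_add, add_mul, mul_sub, sub_mul, mul_assoc, e']
      abel)
  refine this.imp (fun h0 => ?_) fun h0 => ?_
  · rw [← sub_eq_zero, ← hys _ (sub_mem ha' ha), h0, zero_mul]
  · rw [← add_eq_zero_iff_eq_neg, ← hys _ (add_mem ha' ha), h0, zero_mul]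

theorem Std.exists_cj_eq_neg (hk : HK k) (h : Std G s y) {a b : Module.End k M} (ha : a ∈ Esp G s)
    (h0 : a ≠ 0) (hb : b ∈ Esp G y) :
    ∃ n ∈ EG G s ⊔ EG G y, QG.cj k n b = -(a * b * a) := by
  obtain ⟨a', ha', h', e1, e2⟩ := h.partner hk ha h0
  obtain ⟨n, hn, e3, e4⟩ := exists_n ha ha' h'.ip
  refine ⟨n, hn, ?_⟩
  have hb' : b ∈ Gr k a a' (-2) :=
    Gr_symm.1 (h'.ip.symm.gr_of_Esp (G := G) (by rwa [Esp.esp_eq h.y_mem ha' h'.y_mem.2.1]))
  have a1 : ee a a' 0 * b = 0 := by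
    rw [show (0 : ℤ) = 2 + -2 by norm_num, ← h'.ip.ee_mul_gr hb', ee_eq_zero (by norm_num), mul_zero]
  have a2 : b * ee a a' 0 = 0 := by
    rw [h'.ip.ee_mul_gr hb', ee_eq_zero (by norm_num), zero_mul]
  rw [cj_apply, e3, e4, add_mul, a1, sub_mul, Esp.mul_eq_zero ha' hb, sub_zero, add_zero, mul_add,
    mul_add, mul_assoc a b a', mul_assoc a b (ee _ _ _), a2, Esp.mul_eq_zero hb ha']
  simp

/-- Of three non-zero elements of `Esp G s`, two are conjugate. -/
theorem Std.two_conj [Finite k] (hk : HK k) (h : Std G s y) (K : Subgroup _)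
    (hK : EG G s ⊔ EG G y ≤ K) {a : Fin 3 → Module.End k M} (ha : ∀ i, a i ∈ Esp G s)
    (h0 : ∀ i, a i ≠ 0) : ∃ i j, i ≠ j ∧ ∃ g ∈ K, QG.cj k g (a i) = a j := by
  classical
  haveI : Finite M := Module.finite_of_finite k
  haveI : Finite (Module.End k M) := Finite.of_injective _ DFunLike.coe_injective
  letI := Fintype.ofFinite (Module.End k M)
  by_contra hne
  push Not at hne
  choose b hb hab using fun i => h.partner hk (ha i) (h0 i)
  let A : Finset (Module.End k M) := Finset.univ.filter fun x => x ∈ Esp G s ∧ x ≠ 0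
  have hA : ∀ x, x ∈ A ↔ x ∈ Esp G s ∧ x ≠ 0 := fun x => by simp [A]
  let S : Fin 3 → Finset (Module.End k M) := fun i => A.image fun x => x * b i * x
  have hS : ∀ i, ∀ z ∈ S i, ∃ g ∈ K, QG.cj k g (a i) = z := fun i z hz => by
    obtain ⟨x, hx, rfl⟩ := Finset.mem_image.1 hz
    obtain ⟨n, hn, e⟩ := h.exists_cj_eq_neg hk ((hA x).1 hx).1 ((hA x).1 hx).2 (hb i)
    obtain ⟨n', hn', e'⟩ := h.exists_cj_eq_neg hk (ha i) (h0 i) (hb i)
    rw [(hab i).1.ip.sys] at e'
    refine ⟨n * n'⁻¹, hK (mul_mem hn (inv_mem hn')), ?_⟩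
    rw [← cj_cj, ← neg_neg (a i), ← e', map_neg, cj_inv_cj, map_neg, e, neg_neg]
  have hSA : ∀ i, S i ⊆ A := fun i z hz => by
    obtain ⟨g, -, e⟩ := hS i z hz
    obtain ⟨x, hx, rfl⟩ := Finset.mem_image.1 hz
    exact (hA _).2 ⟨h.mul_mul_mem hk ((hA x).1 hx).1 (Esp.qs (hb i)),
      e ▸ cj_eq_zero_iff.not.2 (h0 i)⟩
  have hcard : ∀ i, A.card ≤ 2 * (S i).card := fun i => by
    refine Finset.card_le_mul_card_image A 2 fun z hz => ?_
    obtain ⟨x, hx, rfl⟩ := Finset.mem_image.1 hz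
    refine le_trans (Finset.card_le_card (t := {x, -x}) fun x' hx' => ?_) Finset.card_le_two
    rw [Finset.mem_filter] at hx'
    have e := Esp.esp_eq h.s_mem (ha i) (h0 i)
    simpa using (hab i).1.eq_or_eq_neg hk (e ▸ ((hA x).1 hx).1) (e ▸ ((hA x').1 hx'.1).1) hx'.2.symm
  have hdisj : ∀ i j, i ≠ j → Disjoint (S i) (S j) := fun i j hij => by
    rw [Finset.disjoint_left]
    intro z hi hj
    obtain ⟨g, hg, e⟩ := hS i z hi
    obtain ⟨g', hg', e'⟩ := hS j z hj
    exact hne i j hij (g'⁻¹ * g) (mul_mem (inv_mem hg') hg) (by rw [← cj_cj, e, ← e', cj_inv_cj])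
  have h1 := Finset.card_le_card (Finset.biUnion_subset.2 fun i (_ : i ∈ Finset.univ) => hSA i)
  rw [Finset.card_biUnion fun i _ j _ hij => hdisj i j hij, Fin.sum_univ_three] at h1
  have h2 : 0 < A.card := Finset.card_pos.2 ⟨a 0, (hA _).2 ⟨ha 0, h0 0⟩⟩
  have := hcard 0
  have := hcard 1
  have := hcard 2
  omega

end Cfsg.Lib.QG
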