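import Mathlib
import Cfsg.Agent.Trans.QuadJordan
import Cfsg.Agent.Solv.Glauberman
import Cfsg.Agent.S0205

/-!
A group of coprime order normalizing a group with quadratic elements centralizes an image of `SL₂(p)`.
-/

set_option autoImplicit false

namespace Cfsg.Lib.QG

open Cfsg.Lib.Class
open scoped MatrixGroups commutatorElement

variable {k : Type*} [Field k] {M : Type*} [AddCommGroup M] [Module k M] [FiniteDimensional k M]
variable {G Γ : Subgroup (LinearMap.GeneralLinearGroup k M)} {s y t : Module.End k M}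

/-- The stabilizer in `Γ` of the component of `t`. -/
def St (hk : HK k) (hΓ : Γ ≤ Subgroup.normalizer (G : Set (LinearMap.GeneralLinearGroup k M)))
    (t : Module.End k M) : Subgroup (LinearMap.GeneralLinearGroup k M) where
  carrier := {γ | γ ∈ Γ ∧ Conn G t (cj k γ t)}
  one_mem' := ⟨Γ.one_mem, by rw [cj_one]; exact Conn.refl t⟩
  mul_mem' := fun {a b} ha hb => ⟨Γ.mul_mem ha.1 hb.1, ha.2.trans (by
    rw [← cj_cj]; exact Conn_cj (hΓ ha.1) hb.2)⟩
  inv_mem' := fun {a} ha => ⟨Γ.inv_mem ha.1, Conn.symm hk.h2 hk.h3 (by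
    simpa using Conn_cj (hΓ (Γ.inv_mem ha.1)) ha.2)⟩

omit [FiniteDimensional k M] in
theorem Std.exists_invol (hk : HK k) (h : Std G s y) :
    ∃ i ∈ EG G s ⊔ EG G y, (i : Module.End k M) = dg s y (-1 : k) (-1)⁻¹ ∧ orderOf i = 2 := by
  obtain ⟨i, hi, e1, e2⟩ := h.exists_dg (c := -1) (by norm_num)
  refine ⟨i, hi, e1, orderOf_eq_prime (Units.ext ?_) fun h1 => ?_⟩
  · rw [sq, Units.val_mul, e1, h.ip.dg_mul]; norm_num [dg_one]
  · have := (h.ip.dg_mul_ee (-1 : k) (by norm_num) 1).1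
    rw [← e1, h1, Units.val_one, one_mul, zpow_one, neg_smul, one_smul, eq_neg_iff_add_eq_zero,
      ← two_smul k, smul_eq_zero] at this
    refine h.s_mem.2.1 ?_
    rw [← h.ip.sys, ← ee_one (s := s), this.resolve_left hk.two_ne, zero_mul]

/-- The conjugation action on endomorphisms. -/
@[reducible] def cjAct (k : Type*) [Field k] (E : Type*) [Ring E] [Algebra k E] : MulAction Eˣ E where
  smul g x := cj k g x
  one_smul := cj_one
  mul_smul g h x := (cj_cj g h x).symm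

theorem exists_cj_mem_Esp (hk : HK k) (ht : t ∈ QD G) (h : Conn G t s) :
    ∃ g ∈ GQ G t, cj k g s ∈ Esp G t := by
  obtain ⟨g, hg, e⟩ := exists_conjBy_of_conn hk.h2 hk.h3 h (h.symm hk.h2 hk.h3)
  rw [conjBy_EG s (GQ_le t hg), EG_eq_iff] at e
  exact ⟨g, hg, e ▸ self_mem_Esp (QS.conj (h.qd ht).1 (GQ_le t hg))⟩

theorem mem_normalizer_GQ (hk : HK k) {γ : LinearMap.GeneralLinearGroup k M}
    (hγ : γ ∈ Subgroup.normalizer (G : Set (LinearMap.GeneralLinearGroup k M)))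
    (h : Conn G t (cj k γ t)) :
    γ ∈ Subgroup.normalizer (GQ G t : Set (LinearMap.GeneralLinearGroup k M)) := by
  rw [Subgroup.mem_normalizer_iff]
  refine fun g => ⟨fun hg => GQ_eq_of_conn hk.h2 hk.h3 h ▸ GQ_cj hγ hg, fun hg => ?_⟩
  rw [GQ_eq_of_conn hk.h2 hk.h3 h] at hg
  simpa [mul_assoc] using GQ_cj (inv_mem hγ) hg

theorem conn_cj_of_mem_GQ (hk : HK k) (hG : NU G) (ht : t ∈ QD G) (hs : s ∈ QD G)
    {g : LinearMap.GeneralLinearGroup k M} (hg : g ∈ GQ G t) : Conn G s (cj k g s) :=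
  conn_conj hk.h2 hk.h3 hG (GQ_le_biSup ht hg) hs

variable [Finite k]

theorem exists_cj_eq_of_odd (hk : HK k) (hG : NU G) (ht : t ∈ QD G)
    {γ : LinearMap.GeneralLinearGroup k M}
    (hγ : γ ∈ Subgroup.normalizer (G : Set (LinearMap.GeneralLinearGroup k M)))
    (h : Conn G t (cj k γ t)) (hodd : Odd (orderOf γ)) : ∃ g ∈ GQ G t, cj k g t = cj k γ t := by
  obtain ⟨y, hy⟩ := exists_std' hk hG ht
  have hn := mem_normalizer_GQ hk hγ h
  let R : Module.End k M → Module.End k M → Prop := fun a b => ∃ g ∈ GQ G t, cj k g a = b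
  have Rsymm : ∀ {a b}, R a b → R b a := by
    rintro a b ⟨g, hg, rfl⟩
    exact ⟨g⁻¹, inv_mem hg, cj_inv_cj g a⟩
  have Rtrans : ∀ {a b c}, R a b → R b c → R a c := by
    rintro a b c ⟨g, hg, rfl⟩ ⟨g', hg', rfl⟩
    exact ⟨g' * g, mul_mem hg' hg, (cj_cj _ _ _).symm⟩
  have Rcj : ∀ {δ a b}, δ ∈ Subgroup.normalizer (GQ G t : Set (LinearMap.GeneralLinearGroup k M)) →
      R a b → R (cj k δ a) (cj k δ b) := by
    rintro δ a b hδ ⟨g, hg, rfl⟩
    exact ⟨δ * g * δ⁻¹, (Subgroup.mem_normalizer_iff.1 hδ g).1 hg, by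
      rw [cj_cj, cj_cj, inv_mul_cancel_right]⟩
  by_contra hne
  have hc : ∀ i : ℕ, Conn G t (cj k (γ ^ i) t) := fun i =>
    (Subgroup.pow_mem (St hk (Γ := Subgroup.normalizer _) le_rfl t)
      (show γ ∈ St hk (Γ := Subgroup.normalizer _) le_rfl t from ⟨hγ, h⟩) i).2
  choose g hg hg' using fun i : Fin 3 => exists_cj_mem_Esp hk ht (hc i)
  obtain ⟨i, j, hij, u, hu, e⟩ := hy.two_conj hk (GQ G t) hy.sup_le_GQ hg' fun i =>
    cj_eq_zero_iff.not.2 (cj_eq_zero_iff.not.2 ht.2.1)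
  have h1 : R (cj k (γ ^ (i : ℕ)) t) (cj k (γ ^ (j : ℕ)) t) :=
    Rtrans ⟨_, hg i, rfl⟩ (Rtrans ⟨u, hu, e⟩ (Rsymm ⟨_, hg j, rfl⟩))
  have h01 : ¬ R t (cj k γ t) := hne
  have h12 : ¬ R (cj k γ t) (cj k (γ ^ 2) t) := fun h' => h01 (by
    simpa only [cj_inv_cj, cj_cj, sq, inv_mul_cancel_left, inv_mul_cancel, cj_one]
      using Rcj (inv_mem hn) h')
  have h02 : R t (cj k (γ ^ 2) t) := by
    fin_cases i <;> fin_cases j <;> simp only [ne_eq, not_true_eq_false] at hij <;>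
      simp only [pow_zero, pow_one, cj_one] at h1
    · exact absurd h1 h01
    · exact h1
    · exact absurd (Rsymm h1) h01
    · exact absurd h1 h12
    · exact Rsymm h1
    · exact absurd (Rsymm h1) h12
  have h2 : ∀ n : ℕ, R t (cj k (γ ^ (2 * n)) t) := fun n => by
    induction n with
    | zero => exact ⟨1, one_mem _, by simp⟩
    | succ n ih =>
      refine Rtrans h02 ?_
      simpa only [cj_cj, ← pow_add, mul_add, mul_one, add_comm 2] using Rcj (pow_mem hn 2) ih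
  obtain ⟨m, hm⟩ := hodd
  have := h2 (m + 1)
  rw [show 2 * (m + 1) = orderOf γ + 1 by omega, pow_succ, pow_orderOf_eq_one, one_mul] at this
  exact h01 this

omit [Finite k] in
theorem odd_card_of_coprime (hk : HK k) (hG : NU G) (ht : t ∈ QD G)
    (hcop : (Nat.card Γ).Coprime (Nat.card G)) : Odd (Nat.card Γ) := by
  obtain ⟨y, hy⟩ := exists_std' hk hG ht
  obtain ⟨i, hi, -, h2⟩ := hy.exists_invol hk
  have := Subgroup.orderOf_dvd_natCard G (sup_le (EG_le t) (EG_le y) hi)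
  rw [h2] at this
  exact Nat.coprime_two_right.1 (Nat.Coprime.coprime_dvd_right this hcop)

theorem exists_fixed_std (hk : HK k) (hG : NU G)
    (hΓ : Γ ≤ Subgroup.normalizer (G : Set (LinearMap.GeneralLinearGroup k M)))
    (hcop : (Nat.card Γ).Coprime (Nat.card G)) (ht : t ∈ QD G) :
    ∃ s y, Conn G t s ∧ Std G s y ∧
      ∀ γ ∈ Γ, Conn G t (cj k γ t) → cj k γ s = s ∧ cj k γ y = y := by
  have : Finite M := Module.finite_of_finite k
  have : Finite (Module.End k M) := Finite.of_injective _ DFunLike.coe_injective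
  let _i := cjAct k (Module.End k M)
  have hodd := odd_card_of_coprime hk hG ht hcop
  have hle : St hk hΓ t ≤ Γ := fun _ h => h.1
  have hodd' : Odd (Nat.card (St hk hΓ t)) := hodd.of_dvd_nat (Subgroup.card_dvd_of_le hle)
  have hsol := Cfsg.Agent.S0205.result hodd'
  have hcop' : ∀ H ≤ G, (Nat.card (St hk hΓ t)).Coprime (Nat.card H) := fun H hH =>
    (hcop.coprime_dvd_left (Subgroup.card_dvd_of_le hle)).coprime_dvd_right (Subgroup.card_dvd_of_le hH)
  obtain ⟨g, hg, h1⟩ := Solv.glauberman_exists_fixed (GQ G t) (St hk hΓ t)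
    (fun γ hγ => mem_normalizer_GQ hk (hΓ hγ.1) hγ.2) (hcop' _ (GQ_le t)) (Or.inl hsol) t
    fun γ hγ => exists_cj_eq_of_odd hk hG ht (hΓ hγ.1) hγ.2
      (hodd'.of_dvd_nat (Subgroup.orderOf_dvd_natCard _ hγ))
  have hc := conn_cj_of_mem_GQ hk hG ht ht hg
  obtain ⟨y, hy⟩ := exists_std' hk hG (hc.qd ht)
  have h1' : ∀ γ ∈ St hk hΓ t, cj k γ (cj k g t) = cj k g t := h1
  obtain ⟨u, hu, h2⟩ := Solv.glauberman_exists_fixed (UG G (cj k g t)) (St hk hΓ t)
    (Subgroup.le_normalizer_iff.2 fun γ hγ u hu => by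
      simpa only [h1' γ hγ] using UG_cj (hΓ hγ.1) hu) (hcop' _ UG_le) (Or.inl hsol) y
    fun γ hγ => by
      have := hy.cj (hΓ hγ.1)
      rw [h1' γ hγ] at this
      exact hy.exists_cj_eq hk this
  refine ⟨cj k g t, cj k u y, hc, ?_, fun γ hγ hγ' => ⟨h1 γ ⟨hγ, hγ'⟩, h2 γ ⟨hγ, hγ'⟩⟩⟩
  simpa only [cj_eq_of_mem_UG hu] using hy.cj (Subgroup.le_normalizer hu.1)

theorem noncommProd_comp_equiv {ι X : Type*} [Fintype ι] [Monoid X] (F : ι → X) (σ : ι ≃ ι)
    (h h') : Finset.univ.noncommProd (F ∘ σ) h = Finset.univ.noncommProd F h' := by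
  unfold Finset.noncommProd
  congr 1
  rw [← Multiset.map_map, Multiset.map_univ_val_equiv]

/-- A coprime operator group centralizes an image of `SL₂(k)`. -/
theorem exists_sl2_fixed (hk : HK k) (hG : NU G)
    (hΓ : Γ ≤ Subgroup.normalizer (G : Set (LinearMap.GeneralLinearGroup k M)))
    (hcop : (Nat.card Γ).Coprime (Nat.card G)) (ht : t ∈ QD G) :
    ∃ φ : SL(2, k) →* LinearMap.GeneralLinearGroup k M, (∀ x, φ x ∈ G) ∧
      (∀ γ ∈ Γ, ∀ x, γ * φ x * γ⁻¹ = φ x) ∧ φ.ker ≤ Subgroup.center _ := by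
  classical
  have : Finite M := Module.finite_of_finite k
  have : Finite (Module.End k M) := Finite.of_injective _ DFunLike.coe_injective
  obtain ⟨s, y, hc, hs, hfix⟩ := exists_fixed_std hk hG hΓ hcop ht
  obtain ⟨φ, hφ, hU, hV⟩ := exists_sl2_hom_smul hs.ip.ss hs.ip.yy hs.ip.sys hs.ip.ysy hs.s_mem.2.1
  have h1 : ∀ x, φ x ∈ GQ G s := fun x => by
    have := sl2_eq_top_of_slU_slV ((GQ G s).comap φ)
      (fun a => EG_le_GQ (Conn.refl s) (by
        rw [mem_EG, hU, add_sub_cancel_left]; exact Submodule.smul_mem _ _ (self_mem_Esp hs.s_mem.1)))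
      (fun a => EG_le_GQ hs.conn (by
        rw [mem_EG, hV, add_sub_cancel_left]; exact Submodule.smul_mem _ _ (self_mem_Esp hs.y_mem.1)))
    exact (this.ge (Subgroup.mem_top x) : x ∈ (GQ G s).comap φ)
  have h2 : ∀ γ ∈ St hk hΓ t, ∀ x, γ * φ x * γ⁻¹ = φ x := fun γ hγ x => by
    have := sl2_eq_top_of_slU_slV (((MulAut.conj γ).toMonoidHom.comp φ).eqLocus φ)
      (fun a => Units.ext (by
        change ((γ * φ _ * γ⁻¹ : LinearMap.GeneralLinearGroup k M) : Module.End k M) = _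
        rw [← cj_val (k := k), hU, map_add, map_one, map_smul, (hfix γ hγ.1 hγ.2).1]))
      (fun a => Units.ext (by
        change ((γ * φ _ * γ⁻¹ : LinearMap.GeneralLinearGroup k M) : Module.End k M) = _
        rw [← cj_val (k := k), hV, map_add, map_one, map_smul, (hfix γ hγ.1 hγ.2).2]))
    exact this.ge (Subgroup.mem_top x)
  let ι := Γ ⧸ (St hk hΓ t).subgroupOf Γ
  let _i : Fintype ι := Fintype.ofFinite ι
  let f : ι → SL(2, k) →* LinearMap.GeneralLinearGroup k M := fun c =>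
    (MulAut.conj ((c.out : Γ) : LinearMap.GeneralLinearGroup k M)).toMonoidHom.comp φ
  have hf : ∀ (γ : Γ) x, f γ x = γ * φ x * γ⁻¹ := fun γ x => by
    obtain ⟨δ, hδ⟩ := QuotientGroup.mk_out_eq_mul ((St hk hΓ t).subgroupOf Γ) γ
    change ((Quotient.out (γ : ι) : Γ) : LinearMap.GeneralLinearGroup k M) * φ x *
      ((Quotient.out (γ : ι) : Γ) : LinearMap.GeneralLinearGroup k M)⁻¹ = _
    have h := h2 ((δ : Γ) : LinearMap.GeneralLinearGroup k M) δ.2 x
    rw [hδ, Subgroup.coe_mul, Subgroup.coe_inv]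
    conv_rhs => rw [← h]
    group
  have hcomm : Pairwise fun c c' => ∀ x x', Commute (f c x) (f c' x') := fun c c' hne x x' => by
    induction c using QuotientGroup.induction_on with | H γ => ?_
    induction c' using QuotientGroup.induction_on with | H γ' => ?_
    rw [hf, hf]
    have hn : ¬ Conn G (cj k γ s) (cj k γ' s) := fun h => hne (QuotientGroup.eq.2 ⟨(γ⁻¹ * γ').2, by
      have h3 := Conn_cj (hΓ (γ⁻¹).2) h
      rw [Subgroup.coe_inv, cj_inv_cj, cj_cj] at h3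
      exact hc.trans (h3.trans (Conn.symm hk.h2 hk.h3 (Conn_cj (hΓ (γ⁻¹ * γ').2) hc)))⟩)
    have := commutator_GQ_eq_bot hk.h2 hk.h3 hG (QD_cj (hΓ γ.2) hs.s_mem) (QD_cj (hΓ γ'.2) hs.s_mem) hn
    rw [Subgroup.commutator_eq_bot_iff_le_centralizer] at this
    exact (this (GQ_cj (hΓ γ.2) (h1 x)) _ (GQ_cj (hΓ γ'.2) (h1 x'))).symm
  let ψ : SL(2, k) →* LinearMap.GeneralLinearGroup k M :=
    (MonoidHom.noncommPiCoprod f hcomm).comp (Pi.constMonoidHom ι _)
  have hc' : ∀ x, (↑(Finset.univ : Finset ι) : Set ι).Pairwise (Function.onFun Commute fun c => f c x) :=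
    fun x _ _ _ _ h => hcomm h x x
  have hψ : ∀ x, ψ x = Finset.univ.noncommProd (fun c => f c x) (hc' x) := fun x => rfl
  refine ⟨ψ, fun x => ?_, fun γ hγ x => ?_, fun x hx => ?_⟩
  · rw [hψ]
    refine Subgroup.noncommProd_mem _ _ fun c _ => ?_
    induction c using QuotientGroup.induction_on with | H γ => ?_
    rw [hf]
    exact GQ_le _ (GQ_cj (hΓ γ.2) (h1 x))
  · rw [hψ, ← MulAut.conj_apply, Finset.map_noncommProd,
      ← noncommProd_comp_equiv (fun c => f c x) (MulAction.toPerm (⟨γ, hγ⟩ : Γ))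
        (fun _ _ _ _ h => hcomm ((MulAction.toPerm (⟨γ, hγ⟩ : Γ)).injective.ne h) x x) (hc' x)]
    refine Finset.noncommProd_congr rfl (fun c _ => ?_) _
    induction c using QuotientGroup.induction_on with | H δ => ?_
    change _ = f ((⟨γ, hγ⟩ * δ : Γ) : ι) x
    rw [hf, hf]
    simp [mul_assoc]
  · rw [Subgroup.mem_center_iff]
    intro z
    have e : ψ x = 1 := hx
    rw [hψ, ← Finset.mul_noncommProd_erase _ (Finset.mem_univ ((1 : Γ) : ι)),
      mul_eq_one_iff_eq_inv] at e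
    have : Commute (f (1 : Γ) z) (f (1 : Γ) x) := by
      rw [e]
      exact Commute.inv_right (Finset.noncommProd_commute _ _ _ _ fun c hc =>
        hcomm (Finset.ne_of_mem_erase hc).symm z x)
    rw [hf, hf] at this
    apply hφ
    simpa using this.eq

end Cfsg.Lib.QG
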