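import Mathlib
import Cfsg.Agent.Trans.QuadFix
import Cfsg.Agent.Trans.QuadGroup
import Cfsg.Agent.Trans.ZJFactor
import Cfsg.Agent.Solv.CoprimeFixed

/-!
`p`-stability from a coprime operator group whose fixed points do not involve `L₂(p)`.
-/

set_option autoImplicit false

namespace Cfsg.Lib.QG

open Cfsg.Lib.Class Cfsg.Lib.Trans Cfsg.Lib.Solv
open scoped MatrixGroups commutatorElement

theorem one_add_pow_of_sq {E : Type*} [Ring E] {s : E} (hs : s * s = 0) (n : ℕ) :
    (1 + s) ^ n = 1 + n • s := by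
  induction n with
  | zero => simp
  | succ n ih =>
    rw [pow_succ, ih, add_mul, mul_add, mul_add, smul_mul_assoc, smul_mul_assoc, hs, succ_nsmul]
    simp [add_assoc, add_comm s]

theorem solvable_or_of_coprime {A K : Type*} [Group A] [Group K] [Finite A] [Finite K]
    (h : (Nat.card A).Coprime (Nat.card K)) : Group.IsSolvable A ∨ Group.IsSolvable K := by
  rcases Nat.even_or_odd (Nat.card A) with h1 | h1
  · exact Or.inr (Cfsg.Agent.S0205.result
      (Nat.coprime_two_left.1 (h.coprime_dvd_left h1.two_dvd)))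
  · exact Or.inl (Cfsg.Agent.S0205.result h1)

theorem exists_mem_QD {k : Type*} [Field k] {M : Type*} [AddCommGroup M] [Module k M]
    {G : Subgroup (LinearMap.GeneralLinearGroup k M)} {s : Module.End k M} (hs : s ∈ QS G)
    (h0 : s ≠ 0) : ∃ t, t ∈ QD G := by
  obtain ⟨t, ht, h⟩ := (measure rk).wf.has_min {t | t ∈ QS G ∧ t ≠ 0} ⟨s, hs, h0⟩
  exact ⟨t, ht.1, ht.2, fun u hu hu0 => not_lt.1 (h u ⟨hu, hu0⟩)⟩

variable {p : ℕ} [hp : Fact p.Prime] {X : Type*} [Group X]

omit hp in
theorem inPCoreMod_inf {C D : Subgroup X} {a : X} (h : InPCoreMod p C a) (h' : InPCoreMod p D a) :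
    InPCoreMod p (C ⊓ D) a := by
  obtain ⟨K, hK, ha, h1⟩ := h
  obtain ⟨L, hL, hb, h2⟩ := h'
  refine ⟨K ⊓ L, inferInstance, ⟨ha, hb⟩, fun x hx => ?_⟩
  obtain ⟨m, hm⟩ := h1 x hx.1
  obtain ⟨n, hn⟩ := h2 x hx.2
  refine ⟨m + n, ?_, ?_⟩
  · rw [pow_add, pow_mul]; exact C.pow_mem hm _
  · rw [pow_add, mul_comm, pow_mul]; exact D.pow_mem hn _

omit hp in
theorem InPCoreMod.comap {Y : Type*} [Group Y] {f : X →* Y} {C : Subgroup Y} {a : X}
    (h : InPCoreMod p C (f a)) : InPCoreMod p (C.comap f) a := by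
  obtain ⟨K, hK, ha, h1⟩ := h
  exact ⟨K.comap f, hK.comap f, ha, fun x hx => (h1 _ hx).imp fun m hm => by
    rwa [Subgroup.mem_comap, map_pow]⟩

variable [Finite X] {N A : Subgroup X} [hN : N.Normal]

theorem involves_of_irreducible (hp5 : 5 ≤ p) (hcop : (Nat.card A).Coprime (Nat.card N))
    {M : Type*} [AddCommGroup M] [Module (ZMod p) M] [FiniteDimensional (ZMod p) M]
    (f : X →* LinearMap.GeneralLinearGroup (ZMod p) M) (hf : IsIrreducibleFor f.range) {x : X}
    (hx : x ∈ N) (hq : ((f x : Module.End (ZMod p) M) - 1) * ((f x : Module.End (ZMod p) M) - 1) = 0)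
    (h1 : f x ≠ 1) :
    Involves (Matrix.ProjectiveSpecialLinearGroup (Fin 2) (ZMod p))
      ↥(N ⊓ Subgroup.centralizer (A : Set X)) := by
  have hk := hk_zmod hp5
  have hnu : NU (N.map f) := nu_of_normal (nu_of_isIrreducibleFor hf) (Subgroup.map_le_range f N) (by
    rintro _ ⟨g, rfl⟩ _ ⟨n, hn, rfl⟩
    exact ⟨_, hN.conj_mem n hn g, by simp⟩)
  obtain ⟨t, ht⟩ := exists_mem_QD (mem_QS_of_val hk (Subgroup.mem_map_of_mem f hx)
    (add_sub_cancel _ _).symm hq) fun h => h1 (Units.ext (sub_eq_zero.1 h))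
  have hAN : A ≤ Subgroup.normalizer (N : Set X) := by rw [Subgroup.normalizer_eq_top]; exact le_top
  obtain ⟨φ, h2, h3, h4⟩ := exists_sl2_fixed (Γ := A.map f) hk hnu
    ((Subgroup.map_mono hAN).trans (Subgroup.le_normalizer_map f))
    ((hcop.coprime_dvd_left (Subgroup.card_map_dvd A f)).coprime_dvd_right
      (Subgroup.card_map_dvd N f)) ht
  have h5 : φ.range ≤ (N ⊓ Subgroup.centralizer (A : Set X)).map f := by
    rw [Coprime.map_inf_centralizer f hAN hcop (solvable_or_of_coprime hcop)]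
    rintro _ ⟨z, rfl⟩
    exact ⟨h2 z, fun γ hγ => mul_inv_eq_iff_eq_mul.1 (h3 γ hγ z)⟩
  refine involves_trans ?_ (involves_trans (involves_of_le h5) (involves_map f _))
  refine involves_of_injective_of_surjective (MonoidHom.id _) Function.injective_id
    ((QuotientGroup.map _ _ (MonoidHom.id _) h4).comp
      (QuotientGroup.quotientKerEquivRange φ).symm.toMonoidHom) ?_
  rintro ⟨z⟩
  exact ⟨QuotientGroup.quotientKerEquivRange φ z, congrArg (QuotientGroup.map _ _ (MonoidHom.id _) h4)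
    ((QuotientGroup.quotientKerEquivRange φ).symm_apply_apply z)⟩

universe u

theorem inPCoreMod_ker (hp5 : 5 ≤ p) (hcop : (Nat.card A).Coprime (Nat.card N))
    (hfix : ¬ Involves (Matrix.ProjectiveSpecialLinearGroup (Fin 2) (ZMod p))
      ↥(N ⊓ Subgroup.centralizer (A : Set X))) {x : X} (hx : x ∈ N) (n : ℕ) :
    ∀ (M : Type u) [AddCommGroup M] [Module (ZMod p) M] [FiniteDimensional (ZMod p) M]
      (ρ : Representation (ZMod p) X M), Module.finrank (ZMod p) M = n →
      (ρ x - 1) * (ρ x - 1) = 0 → InPCoreMod p (MonoidHom.ker ρ) x := by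
  induction n using Nat.strong_induction_on with | _ n ih => ?_
  intro M _ _ _ ρ hn hq
  by_cases h1 : ρ x = 1
  · exact ⟨MonoidHom.ker ρ, inferInstance, h1, fun y hy => ⟨0, by simpa using hy⟩⟩
  by_cases hirr : IsIrreducibleFor (MonoidHom.toHomUnits ρ).range
  · exact absurd (involves_of_irreducible hp5 hcop _ hirr hx hq
      fun h => h1 (congrArg Units.val h)) hfix
  have h0 : ∃ m : M, m ≠ 0 := by
    by_contra h
    push Not at h
    exact h1 (LinearMap.ext fun m => (h _).trans (h _).symm)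
  rw [IsIrreducibleFor, and_iff_right h0] at hirr
  push Not at hirr
  obtain ⟨W, hW, hb, ht⟩ := hirr
  have hW' : ∀ g, W ≤ W.comap (ρ g) := fun g w hw => hW _ ⟨g, rfl⟩ w hw
  have hq' : ∀ m, ρ x (ρ x m - m) = ρ x m - m := fun m => sub_eq_zero.1 (DFunLike.congr_fun hq m)
  have h2 := ih _ (hn ▸ Submodule.finrank_lt ht) W (ρ.subrepresentation W hW') rfl
    (LinearMap.ext fun w => Subtype.ext (sub_eq_zero.2 (hq' w)))
  have h3 := ih (Module.finrank (ZMod p) (M ⧸ W)) (by
      have := W.finrank_quotient_add_finrank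
      have := Submodule.finrank_eq_zero.not.2 hb
      omega) (M ⧸ W) (ρ.quotient W hW') rfl (LinearMap.ext fun w => by
    induction w using Submodule.Quotient.induction_on with | H m => ?_
    exact sub_eq_zero.2 (congrArg W.mkQ (hq' m)))
  refine (inPCoreMod_inf h2 h3).mono fun c hc => ⟨1, ?_⟩
  have h4 : (ρ c - 1) * (ρ c - 1) = 0 := LinearMap.ext fun m => by
    have h5 : ρ c m - m ∈ W := (Submodule.Quotient.eq W).1 (DFunLike.congr_fun hc.2 (W.mkQ m))
    have h6 : ρ c (ρ c m - m) = ρ c m - m :=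
      congrArg Subtype.val (DFunLike.congr_fun hc.1 (⟨_, h5⟩ : W))
    exact sub_eq_zero.2 h6
  rw [MonoidHom.mem_ker, pow_one, map_pow, ← add_sub_cancel 1 (ρ c), one_add_pow_of_sq h4,
    ← Nat.cast_smul_eq_nsmul (ZMod p), ZMod.natCast_self, zero_smul, add_zero]

/-- Stability of every quotient. -/
theorem stableOnNormal_of_fixed (hp5 : 5 ≤ p) (hcop : (Nat.card A).Coprime (Nat.card N))
    (hi : N.index.Coprime p)
    (hfix : ¬ Involves (Matrix.ProjectiveSpecialLinearGroup (Fin 2) (ZMod p))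
      ↥(N ⊓ Subgroup.centralizer (A : Set X))) (K : Subgroup X) [K.Normal] :
    StableOnNormal p (X ⧸ K) := by
  rintro B hBn hB a ⟨j, hj⟩ hq
  obtain ⟨x, hx, rfl⟩ : a ∈ N.map (QuotientGroup.mk' K) := by
    have := hN.map _ (QuotientGroup.mk'_surjective K)
    rw [← QuotientGroup.eq_one_iff, ← orderOf_eq_one_iff]
    refine Nat.eq_one_of_dvd_coprimes (hi.pow_right j) ((orderOf_dvd_natCard _).trans
      (Subgroup.index_map_dvd _ (QuotientGroup.mk'_surjective K))) (orderOf_dvd_of_pow_eq_one ?_)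
    rw [← QuotientGroup.mk_pow, hj, QuotientGroup.mk_one]
  have := elemAb_quotient_frattini hB
  let θ : X ⧸ K →* MulAut (B ⧸ frattini B) := (Quad.quotAut (frattini B)).comp MulAut.conjNormal
  obtain ⟨L, hL, h1, h2⟩ := inPCoreMod_ker hp5 hcop hfix hx _ (Vec p (B ⧸ frattini B))
    (Vec.rep p (θ.comp (QuotientGroup.mk' K))) rfl (Quad.rep_quadratic _ (by
      rintro ⟨v⟩
      exact congrArg (QuotientGroup.mk (s := frattini B)) (Subtype.ext (Quad.conj_quadratic hq v.2))))
  refine ⟨L.map (QuotientGroup.mk' K), hL.map _ (QuotientGroup.mk'_surjective K),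
    Subgroup.mem_map_of_mem _ h1, ?_⟩
  rintro _ ⟨y, hy, rfl⟩
  obtain ⟨m, hm⟩ := h2 y hy
  have h3 : MulAut.conjNormal (QuotientGroup.mk' K (y ^ p ^ m)) ∈ (Quad.quotAut (frattini B)).ker :=
    MulEquiv.ext fun v => congrArg Vec.toMul (DFunLike.congr_fun hm (Vec.ofMul p v))
  obtain ⟨l, hl⟩ := Quad.isPGroup_ker_quotAut_frattini hB ⟨_, h3⟩
  refine ⟨m + l, ?_⟩
  rw [← Quad.ker_conjNormal, MonoidHom.mem_ker, pow_add, pow_mul, ← map_pow (QuotientGroup.mk' K),
    map_pow MulAut.conjNormal]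
  exact congrArg Subtype.val hl

omit A in
theorem centralizer_pCore_le_of_normal (h0 : pPrimeCore p X = ⊥) (hi : N.index.Coprime p)
    (hc : IsPConstrained p N) : Subgroup.centralizer (pCore p X : Set X) ≤ pCore p X := by
  have h1 : pPrimeCore p N = ⊥ := by
    rw [← Subgroup.map_eq_bot_iff_of_injective _ N.subtype_injective, map_pPrimeCore_eq_inf_of_normal,
      h0, bot_inf_eq]
  rw [isPConstrained_iff_of_pPrimeCore_eq_bot h1] at hc
  set C := Subgroup.centralizer (pCore p X : Set X) with hC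
  have h2 : N ⊓ C ≤ pCore p X := fun x hx =>
    map_pCore_le_of_normal N ⟨⟨x, hx.1⟩, hc fun y hy =>
      Subtype.ext (hx.2 _ (map_pCore_le_of_normal N ⟨y, hy, rfl⟩)), rfl⟩
  obtain ⟨j, hj⟩ := ((pCore_isPGroup p X).to_le h2).exists_card_eq
  obtain ⟨K, hK⟩ := Subgroup.exists_right_complement'_of_coprime (N := N.subgroupOf C) (by
    rw [← Subgroup.inf_subgroupOf_right, Coprime.card_subgroupOf inf_le_right, hj,
      Subgroup.inf_subgroupOf_right]
    exact (hi.coprime_dvd_left (Subgroup.relIndex_dvd_index_of_normal N C)).symm.pow_left j)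
  have h3 : K.Normal := by
    rw [← Subgroup.normalizer_eq_top_iff, eq_top_iff, ← hK.sup_eq_top]
    refine sup_le (le_trans ?_ (Subgroup.centralizer_le_normalizer _)) Subgroup.le_normalizer
    exact fun x hx y _ => Subtype.ext (y.2 _ (h2 ⟨hx, x.2⟩)).symm
  have h4 : K = ⊥ := by
    rw [← Subgroup.map_eq_bot_iff_of_injective _ C.subtype_injective, eq_bot_iff, ← h0]
    refine le_trans (Subgroup.map_mono (le_pPrimeCore h3 ?_)) (map_pPrimeCore_le_of_normal C)
    rw [← hK.symm.index_eq_card]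
    exact hi.coprime_dvd_left (Subgroup.relIndex_dvd_index_of_normal N C)
  have h5 := hK.sup_eq_top
  rw [h4, sup_bot_eq, Subgroup.subgroupOf_eq_top] at h5
  exact fun x hx => h2 ⟨h5 hx, hx⟩

omit A in
theorem isPConstrained_of_normal (hi : N.index.Coprime p) (hc : IsPConstrained p N) :
    IsPConstrained p X := by
  have := hN.map _ (QuotientGroup.mk'_surjective (pPrimeCore p X))
  rw [isPConstrained_iff_quotient]
  refine centralizer_pCore_le_of_normal (N := N.map (QuotientGroup.mk' (pPrimeCore p X)))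
    (pPrimeCore_quotient_pPrimeCore p X)
    (hi.coprime_dvd_left (Subgroup.index_map_dvd _ (QuotientGroup.mk'_surjective _))) ?_
  rwa [isPConstrained_map_iff _ (by rw [QuotientGroup.ker_mk']; exact coprime_card_pPrimeCore p X)]

end Cfsg.Lib.QG
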