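import Cfsg.Agent.Trans.ThompsonNPC
import Cfsg.Agent.Trans.Involves
import Cfsg.Agent.Solv.HallBasic
import Cfsg.Agent.Solv.Factor
import Cfsg.Agent.S0609

/-! Hall `{p, q}`-subgroups of `p`-solvable groups, and Thompson's lemma on prime divisors of
automizers of `p`-subgroups. -/

set_option autoImplicit false

namespace Cfsg.Lib.Trans.AutMv

open Cfsg Subgroup Cfsg.Lib.Solv

universe u

variable {p q : ℕ} [hp : Fact p.Prime] [hq : Fact q.Prime]

theorem index_eq_relIndex_of_sup {G : Type*} [Group G] [Finite G] {M N : Subgroup G} [M.Normal]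
    (h : M ⊔ N = ⊤) : N.index = N.relIndex M := by
  have h1 := card_mul_card_inf_of_forall_mul (H := M) (K := N) fun g => by
    have : g ∈ ((M ⊔ N : Subgroup G) : Set G) := h ▸ mem_top g
    rw [normal_mul] at this
    obtain ⟨a, ha, b, hb, rfl⟩ := this
    exact ⟨a, ha, b, hb, rfl⟩
  have h2 := card_mul_relIndex (inf_le_left : M ⊓ N ≤ M)
  rw [inf_relIndex_left] at h2
  rw [← N.card_mul_index, ← h2] at h1
  have h3 : 0 < Nat.card N * Nat.card (M ⊓ N : Subgroup G) := Nat.mul_pos Nat.card_pos Nat.card_pos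
  apply Nat.eq_of_mul_eq_mul_left h3
  linarith

/-- A `p`-solvable group has Hall `{p, q}`-subgroups. -/
theorem exists_hall_pair_aux (n : ℕ) : ∀ (G : Type u) [Group G] [Finite G], Nat.card G = n →
    IsPSolvable p G → ∃ D : Subgroup G, IsPiHall {p, q} D := by
  induction n using Nat.strong_induction_on with
  | _ n ih =>
  intro G _ _ hn hs
  have quot : ∀ M : Subgroup G, ∀ [M.Normal], M ≠ ⊥ → ∃ D : Subgroup (G ⧸ M), IsPiHall {p, q} D :=
    fun M _ hM => ih _ (hn ▸ card_quotient_lt_of_ne_bot M hM) _ rfl (hs.quotient M)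
  have pi : ∀ M : Subgroup G, M.Normal → M ≠ ⊥ → IsPiSubgroup {p, q} M →
      ∃ D : Subgroup G, IsPiHall {p, q} D := fun M _ hM h => by
    obtain ⟨D, hD⟩ := quot M hM
    exact ⟨_, isPiHall_comap_mk' h hD⟩
  by_cases hG : (⊤ : Subgroup G) = ⊥
  · refine ⟨⊤, fun r hr h => ?_, fun r hr _ h => ?_⟩
    · rw [hG, card_bot, Nat.dvd_one] at h; exact absurd h hr.ne_one
    · rw [index_top, Nat.dvd_one] at h; exact hr.ne_one h
  obtain ⟨M, hMn, hM, -, h | h⟩ := (hs.subgroup ⊤).exists_normal_le hG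
  · exact pi M hMn hM (isPiSubgroup_of_isPGroup (by simp) h)
  obtain ⟨Q, hQ⟩ := exists_isSylowIn (p := q) M
  by_cases hN : normalizer (Q : Set G) = ⊤
  · by_cases hQ1 : Q = ⊥
    · obtain ⟨D, hD⟩ := quot M hM
      set H := D.comap (QuotientGroup.mk' M)
      have hMH : M ≤ H := fun x hx => by
        rw [mem_comap, QuotientGroup.mk'_apply, (QuotientGroup.eq_one_iff x).2 hx]
        exact one_mem D
      have hi : (M.subgroupOf H).index = Nat.card D := by
        have := relIndex_ker (K := H) (QuotientGroup.mk' M)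
        rwa [QuotientGroup.ker_mk', map_comap_eq_self_of_surjective
          (QuotientGroup.mk'_surjective M)] at this
      have hc : Nat.card (M.subgroupOf H) = Nat.card M :=
        Nat.card_congr (subgroupOfEquivOfLe hMH).toEquiv
      have hMpi : ∀ r : ℕ, r.Prime → r ∈ ({p, q} : Set ℕ) → ¬ r ∣ Nat.card M := by
        rintro r hr (rfl | rfl)
        · exact (Nat.Prime.coprime_iff_not_dvd hr).1 h.symm
        · exact hQ.eq_bot_iff.1 hQ1
      obtain ⟨K, hK⟩ := exists_right_complement'_of_coprime (N := M.subgroupOf H) (by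
        rw [hi, hc]
        exact Nat.coprime_of_dvd fun r hr h1 h2 => hMpi r hr (hD.1 r hr h2) h1)
      refine ⟨K.map H.subtype, fun r hr h1 => hD.1 r hr ?_, fun r hr h1 h2 => ?_⟩
      · rwa [card_map_of_injective H.subtype_injective, ← hK.symm.index_eq_card, hi] at h1
      · rw [index_map_subtype, hK.index_eq_card, hc,
          index_comap_of_surjective _ (QuotientGroup.mk'_surjective M)] at h2
        rcases (Nat.Prime.dvd_mul hr).1 h2 with h2 | h2
        · exact hMpi r hr h1 h2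
        · exact hD.2 r hr h1 h2
    · exact pi Q (normalizer_eq_top_iff.1 hN) hQ1 (isPiSubgroup_of_isPGroup (by simp) hQ.isPGroup)
  · obtain ⟨D, hD⟩ := ih _ (hn ▸ (by
      rw [← Subgroup.card_top (G := G)]
      exact Lib.Trans.card_lt_of_lt (lt_top_iff_ne_top.2 hN))) (normalizer (Q : Set G)) rfl
      (hs.subgroup _)
    refine ⟨_, isPiHall_of_isPiHallOf (isPiHallOf_map_subtype_iff.2 hD) fun r hr h1 h2 => ?_⟩
    have h3 : M ⊔ normalizer (Q : Set G) = ⊤ := by
      rw [eq_top_iff]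
      intro g _
      obtain ⟨k, hk, m, hm, rfl⟩ := hQ.frattini (g := g) (by rw [normalizer_eq_top]; trivial)
      exact mul_mem (mem_sup_left hk) (mem_sup_right hm)
    rw [index_eq_relIndex_of_sup h3] at h1
    rcases h2 with rfl | rfl
    · exact (Nat.Prime.coprime_iff_not_dvd hr).1 h.symm (h1.trans (relIndex_dvd_card _ _))
    · exact hQ.not_dvd_relIndex_of_le le_normalizer h1

theorem exists_hall_pair {G : Type*} [Group G] [Finite G] (q : ℕ) [Fact q.Prime]
    (hs : IsPSolvable p G) : ∃ D : Subgroup G, IsPiHall {p, q} D :=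
  exists_hall_pair_aux _ G rfl hs

variable {G : Type*} [Group G] [Finite G]

/-- Ambient form: a Hall `{p, q}`-subgroup containing a given Sylow `p`-subgroup. -/
theorem exists_hallOf_pair (q : ℕ) [Fact q.Prime] {P N : Subgroup G} (hs : IsPSolvable p N)
    (hP : IsSylowIn p P N) : ∃ D : Subgroup G, IsPiHallOf {p, q} D N ∧ P ≤ D := by
  obtain ⟨D, hD⟩ := exists_hall_pair q hs
  have h1 := isPiHallOf_map_subtype_iff.2 hD
  obtain ⟨T, hT⟩ := exists_isSylowIn (p := p) (D.map N.subtype)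
  obtain ⟨x, hx, h⟩ := hP.exists_cj_eq (hT.trans h1.1 (h1.2.2 p hp.out (by simp)))
  refine ⟨cj x (D.map N.subtype), ?_, h ▸ cj_mono x hT.le⟩
  rw [← conj_smul_eq_cj]
  exact isPiHallOf_conj_of_mem_normalizer h1 (le_normalizer hx)

omit hq in
theorem isThompsonFactorizable_of_pair (h23 : ¬ ((p = 2 ∧ q = 3) ∨ (p = 3 ∧ q = 2)))
    (hs : IsPSolvable p G) (h : IsPiNum {p, q} (Nat.card G)) : IsThompsonFactorizable p G := by
  by_contra hn
  rw [Cfsg.Agent.S0609.result] at hn
  obtain ⟨h1, h2⟩ := TJ.involves_SL2_of_not_factorizable (hs.quotient _)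
    (pPrimeCore_quotient_pPrimeCore p G) hn
  have h3 := (card_dvd_of_involves h2).trans (card_quotient_dvd_card _)
  rcases h1 with rfl | rfl
  · have h4 : Nat.card (TJ.SL2 2) = 6 := by rw [Nat.card_eq_fintype_card]; decide
    rcases h 3 Nat.prime_three ((h4 ▸ (by norm_num : 3 ∣ 6)).trans h3) with h5 | h5
    · omega
    · exact h23 (Or.inl ⟨rfl, h5.symm⟩)
  · have h4 : Nat.card (TJ.SL2 3) = 24 := by rw [Nat.card_eq_fintype_card]; decide
    rcases h 2 Nat.prime_two ((h4 ▸ (by norm_num : 2 ∣ 24)).trans h3) with h5 | h5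
    · omega
    · exact h23 (Or.inr ⟨rfl, h5.symm⟩)

/-- Some `q`-element of `L` normalizes but does not centralize `H`. -/
def QA {G : Type*} [Group G] (q : ℕ) (H L : Subgroup G) : Prop :=
  ∃ y ∈ L, y ∈ normalizer (H : Set G) ∧ (∃ k : ℕ, y ^ q ^ k = 1) ∧ y ∉ centralizer (H : Set G)

omit [Finite G] hq in
theorem mem_of_pow_mem {C : Subgroup G} {y : G} {a b : ℕ} (h : a.Coprime b) (ha : y ^ a ∈ C)
    (hb : y ^ b ∈ C) : y ∈ C := by
  have : y = (y ^ a) ^ Nat.gcdA a b * (y ^ b) ^ Nat.gcdB a b := by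
    rw [← zpow_natCast, ← zpow_natCast, ← zpow_mul, ← zpow_mul, ← zpow_add, ← Nat.gcd_eq_gcd_ab,
      h.gcd_eq_one, Nat.cast_one, zpow_one]
  rw [this]
  exact mul_mem (zpow_mem ha _) (zpow_mem hb _)

omit [Finite G] in
theorem dvd_relIndex_of_pow_mem {C X : Subgroup G} (hX : X ≤ normalizer (C : Set G)) {y : G}
    (hy : y ∈ X) (hn : y ∉ C) {k : ℕ} (hk : y ^ q ^ k ∈ C) : q ∣ C.relIndex X := by
  by_contra h
  have : (C.subgroupOf X).Normal := normal_subgroupOf_of_le_normalizer hX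
  exact hn (mem_of_pow_mem ((hq.out.coprime_iff_not_dvd.2 h).pow_left k) hk
    (mem_subgroupOf.1 ((C.subgroupOf X).pow_index_mem ⟨y, hy⟩)))

theorem qa_of_dvd {H X : Subgroup G} (hX : X ≤ normalizer (H : Set G))
    (h : q ∣ (centralizer (H : Set G)).relIndex X) : QA q H X := by
  obtain ⟨Q, hQ⟩ := exists_isSylowIn (p := q) X
  obtain ⟨y, hy, hn⟩ := SetLike.not_le_iff_exists.1 fun h1 => hQ.not_dvd_relIndex_of_le h1 h
  obtain ⟨k, hk⟩ := hQ.isPGroup ⟨y, hy⟩
  exact ⟨y, hQ.le hy, hX (hQ.le hy), ⟨k, congrArg Subtype.val hk⟩, hn⟩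

omit [Finite G] in
theorem QA.dvd {H L X : Subgroup G} (h : QA q H L) (hX : X ≤ normalizer (H : Set G))
    (hL : L ⊓ normalizer (H : Set G) ≤ X) : q ∣ (centralizer (H : Set G)).relIndex X := by
  obtain ⟨y, h1, h2, ⟨k, hk⟩, h3⟩ := h
  exact dvd_relIndex_of_pow_mem (hX.trans (normalizer_le_normalizer_centralizer H)) (hL ⟨h1, h2⟩)
    h3 (hk ▸ one_mem _)

omit [Finite G] hq in
theorem QA.mono {H L L' : Subgroup G} (h : QA q H L) (hL : L ≤ L') : QA q H L' :=
  let ⟨y, h1, h2⟩ := h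
  ⟨y, hL h1, h2⟩

omit [Finite G] hq in
theorem QA.cj {H : Subgroup G} (h : QA q H ⊤) (g : G) : QA q (cj g H) ⊤ := by
  obtain ⟨y, -, h2, ⟨k, hk⟩, h3⟩ := h
  refine ⟨g * y * g⁻¹, trivial, ?_, ⟨k, by rw [conj_pow, hk]; group⟩, fun h => h3 ?_⟩
  · rw [← cj_normalizer]; exact conj_mem_cj.2 h2
  · rw [← cj_centralizer, mem_cj] at h
    simpa [mul_assoc] using h

theorem isPSolvable_of_normal_sylow {T X : Subgroup G} (h : IsSylowIn p T X)
    (hX : X ≤ normalizer (T : Set G)) : IsPSolvable p X := by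
  have : (T.subgroupOf X).Normal := normal_subgroupOf_of_le_normalizer hX
  exact IsPSolvable.extension (T.subgroupOf X)
    (IsPSolvable.of_isPGroup (isPGroup_subgroupOf h.isPGroup X))
    (IsPSolvable.of_coprime (hp.out.coprime_iff_not_dvd.2 h.not_dvd).symm)

/-- The local step. -/
theorem exists_char (h23 : ¬ ((p = 2 ∧ q = 3) ∨ (p = 3 ∧ q = 2))) {H P : Subgroup G}
    (hH : IsPGroup p H) (hP : IsSylowIn p P (normalizer (H : Set G))) (hP1 : P ≠ ⊥)
    (hs : IsPSolvable p (normalizer (H : Set G) ⧸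
      (centralizer (H : Set G)).subgroupOf (normalizer (H : Set G)))) (hq : QA q H ⊤) :
    ∃ W : Subgroup G, W ≠ ⊥ ∧ W ≤ P ∧ normalizer (P : Set G) ≤ normalizer (W : Set G) ∧
      QA q H (normalizer (W : Set G)) := by
  set N := normalizer (H : Set G)
  set C := centralizer (H : Set G)
  have hCN : C ≤ N := centralizer_le_normalizer _
  have hNC : N ≤ normalizer (C : Set G) := normalizer_le_normalizer_centralizer H
  have hHP : H ≤ P := hP.le_of_normal hH le_normalizer le_rfl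
  have hPC : IsSylowIn p (P ⊓ C) C := hP.inf_normal_of_le hNC hCN
  set N₁ := N ⊓ normalizer ((P ⊓ C : Subgroup G) : Set G)
  have hPN : P ≤ N₁ := le_inf hP.le
    ((le_inf le_normalizer (hP.le.trans hNC)).trans inf_normalizer_le_normalizer_inf)
  have h1 : q ∣ C.relIndex N₁ := by
    obtain ⟨y, -, h2, ⟨k, hk⟩, h3⟩ := hq
    obtain ⟨c, hc, n, hn, rfl⟩ := hPC.frattini (hNC h2)
    have hnN : n ∈ N := (mul_mem_cancel_left (hCN hc)).1 h2
    refine dvd_relIndex_of_pow_mem (inf_le_left.trans hNC) ⟨hnN, hn⟩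
      (fun h => h3 (mul_mem hc h)) (k := k) ?_
    have h4 : ∀ m : ℕ, (c * n) ^ m * (n ^ m)⁻¹ ∈ C := by
      intro m
      induction m with
      | zero => simp
      | succ m ih =>
        have : (c * n) ^ (m + 1) * (n ^ (m + 1))⁻¹ =
            c * (n * ((c * n) ^ m * (n ^ m)⁻¹) * n⁻¹) := by
          rw [pow_succ', pow_succ']; group
        rw [this]
        exact mul_mem hc (mem_normalizer_conj (hNC hnN) ih)
    have := h4 (q ^ k)
    rwa [hk, one_mul, inv_mem_iff] at this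
  have h2 : IsPSolvable p N₁ := by
    let f : N₁ →* N ⧸ C.subgroupOf N :=
      (QuotientGroup.mk' (C.subgroupOf N)).comp (inclusion inf_le_left)
    refine IsPSolvable.of_ker_range f ?_ (hs.subgroup _)
    have h3 : f.ker = (N₁ ⊓ C).subgroupOf N₁ := by
      ext x
      rw [MonoidHom.mem_ker, inf_subgroupOf_left]
      exact QuotientGroup.eq_one_iff _
    rw [h3]
    exact (isPSolvable_of_normal_sylow (hPC.mono (le_inf (inf_le_left.trans hPN) inf_le_right)
      inf_le_right) (inf_le_left.trans inf_le_right)).subgroupOf _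
  obtain ⟨D, hD, hPD⟩ := exists_hallOf_pair q h2 (hP.mono hPN inf_le_left)
  have hDN : D ≤ N := hD.1.trans inf_le_left
  have h3 : q ∣ C.relIndex D := by
    have h4 := h1.trans (relIndex_dvd_of_le_left N₁ (inf_le_left : C ⊓ D ≤ C))
    rw [← relIndex_mul_relIndex (C ⊓ D) D N₁ inf_le_right hD.1, inf_relIndex_right] at h4
    exact ((Nat.Prime.dvd_mul Fact.out).1 h4).resolve_right (hD.2.2 q Fact.out (by simp))
  have hf := isThompsonFactorizable_of_pair h23 (h2.of_le hD.1) hD.2.1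
  have hPD' := hP.mono hPD hDN
  set W₁ := omegaOne p (P ⊓ centralizer (P : Set G))
  set W₂ := thompsonSubgroupOf p P
  have : (C.subgroupOf D).Normal := normal_subgroupOf_of_le_normalizer (hDN.trans hNC)
  let π := QuotientGroup.mk' (C.subgroupOf D)
  have h4 := card_mul_card_inf_of_forall_mul
    (H := ((normalizer (W₁ : Set G)).subgroupOf D).map π)
    (K := ((normalizer (W₂ : Set G)).subgroupOf D).map π) fun g => by
      obtain ⟨g, rfl⟩ := QuotientGroup.mk'_surjective _ g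
      obtain ⟨x, hx, c, hc, n, hn, rfl⟩ := hf hPD'.toSylow g
      refine ⟨π c, mem_map_of_mem _ ?_, π n, mem_map_of_mem _ ?_, ?_⟩
      · have h5 := le_normalizer_map D.subtype (mem_map_of_mem _ (centralizer_le_normalizer _ hc))
        rwa [TJ.map_omegaOne_center_of_injOn _
          (TJ.inf_ker_eq_bot_of_injective _ D.subtype_injective), hPD'.map_toSylow] at h5
      · have h5 := le_normalizer_map D.subtype (mem_map_of_mem _ hn)
        rwa [TJ.map_J _ D.subtype_injective, hPD'.map_toSylow] at h5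
      · have h5 : π x = 1 := by
          refine (QuotientGroup.eq_one_iff x).2 fun h hh => ?_
          have h6 : (H.subgroupOf D).Normal := normal_subgroupOf_of_le_normalizer hDN
          exact congrArg Subtype.val (pPrimeCore_le_centralizer_pCore p D hx
            ⟨h, hPD (hHP hh)⟩ (le_pCore h6 (isPGroup_subgroupOf hH D) hh))
        rw [map_mul, map_mul, h5, one_mul]
  have h5 : ∀ X : Subgroup G, q ∣ Nat.card ((X.subgroupOf D).map π) → QA q H X := fun X h => by
    rw [← relIndex_ker, QuotientGroup.ker_mk', ← inf_subgroupOf_right X,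
      relIndex_subgroupOf inf_le_right] at h
    exact (qa_of_dvd (inf_le_right.trans hDN) h).mono inf_le_left
  rcases (Nat.Prime.dvd_mul Fact.out).1 (h4 ▸ dvd_mul_of_dvd_left h3 _) with h | h
  · exact ⟨W₁, TJ.omegaOne_ne_bot (hP.isPGroup.to_le inf_le_left)
      (TJ.inf_centralizer_ne_bot' hP.isPGroup hP1), (TJ.omegaOne_le _).trans inf_le_left,
      TJ.normalizer_le_normalizer_omegaOne_center P, h5 _ h⟩
  · exact ⟨W₂, TJ.J_ne_bot hP.isPGroup hP1, TJ.J_le P, TJ.normalizer_le_normalizer_J P, h5 _ h⟩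

/-- All automizers of `p`-subgroups are `p`-solvable. -/
def Hyp (p : ℕ) (G : Type*) [Group G] : Prop :=
  ∀ H : Subgroup G, IsPGroup p H → IsPSolvable p (normalizer (H : Set G) ⧸
    (centralizer (H : Set G)).subgroupOf (normalizer (H : Set G)))

/-- The map induced on automizers. -/
def autHom {G G' : Type*} [Group G] [Group G'] (f : G →* G') (H : Subgroup G) :
    normalizer (H : Set G) →* normalizer ((H.map f : Subgroup G') : Set G') ⧸
      (centralizer ((H.map f : Subgroup G') : Set G')).subgroupOf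
        (normalizer ((H.map f : Subgroup G') : Set G')) :=
  (QuotientGroup.mk' _).comp ((f.comp (normalizer (H : Set G)).subtype).codRestrict _
    fun x => le_normalizer_map f (mem_map_of_mem f x.2))

omit [Finite G] in
theorem mem_ker_autHom {G' : Type*} [Group G'] (f : G →* G') (H : Subgroup G)
    (x : normalizer (H : Set G)) :
    x ∈ (autHom f H).ker ↔ f x ∈ centralizer ((H.map f : Subgroup G') : Set G') :=
  QuotientGroup.eq_one_iff _

omit [Finite G] in
theorem map_mem_centralizer {G' : Type*} [Group G'] (f : G →* G') {H : Subgroup G} {x : G}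
    (hx : x ∈ centralizer (H : Set G)) : f x ∈ centralizer ((H.map f : Subgroup G') : Set G') := by
  rintro _ ⟨h, hh, rfl⟩
  rw [← map_mul, hx h hh, map_mul]

omit [Finite G] in
theorem mem_centralizer_of_map {G' : Type*} [Group G'] {f : G →* G'} (hf : Function.Injective f)
    {H : Subgroup G} {x : G} (hx : f x ∈ centralizer ((H.map f : Subgroup G') : Set G')) :
    x ∈ centralizer (H : Set G) := fun h hh => hf (by
  rw [map_mul, map_mul]; exact hx _ ⟨h, hh, rfl⟩)

theorem Hyp.subgroup (h : Hyp p G) (L : Subgroup G) : Hyp p L := by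
  intro H hH
  have h1 : (centralizer (H : Set L)).subgroupOf (normalizer (H : Set L)) =
      (autHom L.subtype H).ker := by
    ext x
    rw [mem_ker_autHom, mem_subgroupOf]
    exact ⟨map_mem_centralizer _, mem_centralizer_of_map L.subtype_injective⟩
  exact ((h _ (hH.map L.subtype)).subgroup (autHom L.subtype H).range).of_equiv
    ((QuotientGroup.quotientMulEquivOfEq h1).trans (QuotientGroup.quotientKerEquivRange _)).symm

theorem Hyp.quotient (h : Hyp p G) {G' : Type*} [Group G'] {f : G →* G'}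
    (hf : Function.Surjective f) (hk : IsPGroup p f.ker) : Hyp p G' := by
  intro H hH
  have h1 := h (H.comap f) (hH.comap_of_ker_isPGroup f hk)
  have h2 := map_comap_eq_self_of_surjective hf H
  generalize hK : H.comap f = K at h1 h2
  subst h2
  refine h1.of_surjective (QuotientGroup.lift _ (autHom f K) fun x hx =>
    (mem_ker_autHom f K x).2 (map_mem_centralizer f hx)) fun y => ?_
  obtain ⟨⟨y, hy⟩, rfl⟩ := QuotientGroup.mk_surjective y
  obtain ⟨x, rfl⟩ := hf y
  have hx : x ∈ normalizer (K : Set G) := by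
    rw [← hK]; exact le_normalizer_comap f hy
  exact ⟨QuotientGroup.mk ⟨x, hx⟩, rfl⟩

omit [Finite G] in
theorem QA.map {G' : Type*} [Group G'] (hpq : p ≠ q) {f : G →* G'} {H : Subgroup G}
    (hk : IsPGroup p f.ker) (hO : ¬ QA q f.ker ⊤) (h : QA q H ⊤) : QA q (H.map f) ⊤ := by
  obtain ⟨y, -, h2, ⟨k, hy⟩, h3⟩ := h
  refine ⟨f y, trivial, le_normalizer_map f (mem_map_of_mem f h2),
    ⟨k, by rw [← map_pow, hy, map_one]⟩, fun h4 => h3 fun x hx => ?_⟩
  have h5 : y ∈ centralizer (f.ker : Set G) := by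
    by_contra h5
    exact hO ⟨y, trivial, by rw [normalizer_eq_top]; trivial, ⟨k, hy⟩, h5⟩
  have h6 : y * x * y⁻¹ * x⁻¹ ∈ f.ker := by
    rw [MonoidHom.mem_ker, map_mul, map_mul, map_mul, ← h4 _ ⟨x, hx, rfl⟩, map_inv, map_inv]
    group
  set c := y * x * y⁻¹ * x⁻¹ with hc
  have h7 : ∀ m : ℕ, y ^ m * x * (y ^ m)⁻¹ = c ^ m * x := by
    intro m
    induction m with
    | zero => simp
    | succ m ih =>
      have h8 : c ^ m * y = y * c ^ m := h5 _ (pow_mem h6 m)
      calc y ^ (m + 1) * x * (y ^ (m + 1))⁻¹ = y * (y ^ m * x * (y ^ m)⁻¹) * y⁻¹ := by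
            rw [pow_succ']; group
        _ = c ^ m * (y * x * y⁻¹ * x⁻¹) * x := by rw [ih, ← mul_assoc, ← h8]; group
        _ = c ^ (m + 1) * x := by rw [pow_succ]
  have h8 := h7 (q ^ k)
  rw [hy, one_mul, inv_one, mul_one, eq_comm, mul_eq_right] at h8
  obtain ⟨j, hj⟩ := hk ⟨c, h6⟩
  have h9 : c ∈ (⊥ : Subgroup G) := mem_of_pow_mem
    (((Nat.coprime_primes hp.out hq.out).2 hpq).pow j k) (congrArg Subtype.val hj) h8
  rw [mem_bot, hc, mul_inv_eq_one, mul_inv_eq_iff_eq_mul] at h9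
  exact h9.symm

omit [Finite G] in
theorem QA.comap {G' : Type*} [Group G'] (hpq : p ≠ q) {f : G →* G'} (hf : Function.Surjective f)
    {H : Subgroup G'} (hk : IsPGroup p f.ker) (h : QA q H ⊤) : QA q (H.comap f) ⊤ := by
  obtain ⟨y, -, h2, ⟨k, hy⟩, h3⟩ := h
  obtain ⟨y, rfl⟩ := hf y
  obtain ⟨j, hj⟩ := hk ⟨y ^ q ^ k, by rw [MonoidHom.mem_ker, map_pow, hy]⟩
  refine ⟨y ^ p ^ j, trivial, pow_mem (le_normalizer_comap f h2) _, ⟨k, ?_⟩, fun h4 => h3 ?_⟩
  · rw [← pow_mul, mul_comm, pow_mul]; exact congrArg Subtype.val hj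
  · have h5 := map_mem_centralizer f h4
    rw [map_comap_eq_self_of_surjective hf, map_pow] at h5
    exact mem_of_pow_mem (((Nat.coprime_primes hp.out hq.out).2 hpq).pow j k) h5
      (hy ▸ one_mem _)

theorem main_aux (hpq : p ≠ q) (h23 : ¬ ((p = 2 ∧ q = 3) ∨ (p = 3 ∧ q = 2))) (n : ℕ) :
    ∀ (G : Type u) [Group G] [Finite G], Nat.card G = n → Hyp p G → ∀ H : Subgroup G,
      IsPGroup p H → QA q H ⊤ → ∃ K T : Subgroup G, IsSylowIn p T ⊤ ∧ K ≤ T ∧
        T ≤ normalizer (K : Set G) ∧ QA q K ⊤ := by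
  induction n using Nat.strong_induction_on with
  | _ n ih =>
  intro G _ _ hn hs H₀ hH₀ hq₀
  by_cases hO : pCore p G = ⊥
  · obtain ⟨P₀, hP₀⟩ := exists_isSylowIn (p := p) (normalizer (H₀ : Set G))
    obtain ⟨⟨H, P⟩, ⟨hH, hqa, hP⟩, hmax⟩ := Set.exists_max_image
      {x : Subgroup G × Subgroup G | IsPGroup p x.1 ∧ QA q x.1 ⊤ ∧
        IsSylowIn p x.2 (normalizer (x.1 : Set G))} (fun x => Nat.card x.2) (Set.toFinite _)
      ⟨(H₀, P₀), hH₀, hq₀, hP₀⟩
    dsimp only at hH hqa hP hmax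
    have hHP : H ≤ P := hP.le_of_normal hH le_normalizer le_rfl
    have hP1 : P ≠ ⊥ := by
      rintro rfl
      obtain ⟨y, -, -, -, h⟩ := hqa
      exact h fun x hx => by rw [mem_bot.1 (hHP hx), one_mul, mul_one]
    obtain ⟨S, hS, hPS⟩ := exists_isSylowIn_ge hP.isPGroup (le_top : P ≤ ⊤)
    rcases hPS.eq_or_lt with rfl | hlt
    · exact ⟨H, P, hS, hHP, hP.le, hqa⟩
    exfalso
    obtain ⟨W, hW1, hWP, hN, y, hy1, hy2, ⟨k, hy3⟩, hy4⟩ := exists_char h23 hH hP hP1 (hs H hH) hqa
    set L := normalizer (W : Set G)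
    have hL : L ≠ ⊤ := fun h => hW1 (le_bot_iff.1
      (hO ▸ le_pCore (normalizer_eq_top_iff.1 h) (hP.isPGroup.to_le hWP)))
    have hHL : H ≤ L := hHP.trans (le_normalizer.trans hN)
    obtain ⟨K, T, hT, hKT, hTK, z, -, hz2, ⟨j, hz3⟩, hz4⟩ := ih _ (hn ▸ (by
      rw [← Subgroup.card_top (G := G)]
      exact Lib.Trans.card_lt_of_lt (lt_top_iff_ne_top.2 hL))) L rfl (hs.subgroup L)
      (H.subgroupOf L) (isPGroup_subgroupOf hH L) ⟨⟨y, hy1⟩, trivial,
        le_normalizer_comap L.subtype hy2, ⟨k, Subtype.ext hy3⟩, fun h => hy4 (by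
          have := map_mem_centralizer L.subtype h
          rwa [map_subgroupOf_eq_of_le hHL] at this)⟩
    have hT' := hT.map L.subtype
    rw [← MonoidHom.range_eq_map, range_subtype] at hT'
    obtain ⟨P', hP', hTP'⟩ := exists_isSylowIn_ge hT'.isPGroup
      ((map_mono hTK).trans (le_normalizer_map L.subtype))
    have h1 := hmax (K.map L.subtype, P') ⟨(hT.isPGroup.to_le hKT).map _,
      ⟨z, trivial, le_normalizer_map L.subtype (mem_map_of_mem _ hz2), ⟨j, congrArg Subtype.val hz3⟩,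
        fun h => hz4 (mem_centralizer_of_map L.subtype_injective h)⟩, hP'⟩
    have h2 := Lib.Trans.card_lt_of_lt (lt_inf_normalizer hS.isPGroup hlt)
    have h3 := hT'.card_le (hS.isPGroup.to_le (inf_le_left : S ⊓ normalizer (P : Set G) ≤ S))
      (inf_le_right.trans hN)
    have h4 := Lib.Trans.card_le_of_le hTP'
    dsimp only at h1
    omega
  · have hk : IsPGroup p (QuotientGroup.mk' (pCore p G)).ker := by
      rw [QuotientGroup.ker_mk']; exact pCore_isPGroup p G
    have hf := QuotientGroup.mk'_surjective (pCore p G)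
    by_cases hqa : QA q (QuotientGroup.mk' (pCore p G)).ker ⊤
    · obtain ⟨T, hT⟩ := exists_isSylowIn (p := p) (⊤ : Subgroup G)
      exact ⟨_, T, hT, hT.le_of_normal hk le_top (by rw [normalizer_eq_top]),
        by rw [normalizer_eq_top]; exact le_top, hqa⟩
    · obtain ⟨K, T, hT, hKT, hTK, hK⟩ := ih _ (hn ▸ card_quotient_lt_of_ne_bot _ hO) _ rfl
        (hs.quotient hf hk) _ (hH₀.map _) (hq₀.map hpq hk hqa)
      exact ⟨K.comap _, T.comap _, hT.comap _ hk (MonoidHom.range_eq_top.2 hf).ge, comap_mono hKT,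
        (comap_mono hTK).trans (le_normalizer_comap _), hK.comap hpq hf hk⟩

/-- Thompson's lemma on automizers of `p`-subgroups. -/
theorem exists_normal_in_sylow (hpq : p ≠ q) (h23 : ¬ ((p = 2 ∧ q = 3) ∨ (p = 3 ∧ q = 2)))
    (hs : Hyp p G) {H : Subgroup G} (hH : IsPGroup p H) (h : QA q H ⊤) (S : Sylow p G) :
    ∃ K : Subgroup G, K ≤ S ∧ (S : Subgroup G) ≤ normalizer (K : Set G) ∧ QA q K ⊤ := by
  obtain ⟨K, T, hT, hKT, hTK, hK⟩ := main_aux hpq h23 _ G rfl hs H hH h
  obtain ⟨x, -, hx⟩ := (isSylowIn_top S).exists_cj_eq hT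
  exact ⟨cj x K, hx ▸ cj_mono x hKT, by rw [← hx, ← cj_normalizer]; exact cj_mono x hTK, hK.cj x⟩

end Cfsg.Lib.Trans.AutMv
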