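import Mathlib

/-! Limits at infinity of polynomial families of additive subgroups of a finite ring. -/

set_option autoImplicit false

namespace Cfsg.Lib.Trans.Lim

open Polynomial

variable {R : Type*} [Ring R] {g g' : R →+ R[X]} {W W' L : AddSubgroup R}

/-- The span of the polynomials `X ^ i * g w`, `w ∈ W`. -/
noncomputable def pm (g : R →+ R[X]) (W : AddSubgroup R) : AddSubgroup R[X] :=
  AddSubgroup.closure {f | ∃ i : ℕ, ∃ w ∈ W, f = X ^ i * g w}

theorem gen_mem_pm (i : ℕ) {w : R} (hw : w ∈ W) : X ^ i * g w ∈ pm g W :=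
  AddSubgroup.subset_closure ⟨i, w, hw, rfl⟩

theorem pm_induction {P : R[X] → Prop} (h : ∀ i : ℕ, ∀ w ∈ W, P (X ^ i * g w)) (h0 : P 0)
    (hadd : ∀ f f', P f → P f' → P (f + f')) (hneg : ∀ f, P f → P (-f)) {f : R[X]}
    (hf : f ∈ pm g W) : P f := by
  induction hf using AddSubgroup.closure_induction with
  | mem x hx => obtain ⟨i, w, hw, rfl⟩ := hx; exact h i w hw
  | zero => exact h0
  | add x y _ _ hx hy => exact hadd x y hx hy
  | neg x _ hx => exact hneg x hx

theorem X_pow_mul_mem (k : ℕ) {f : R[X]} (hf : f ∈ pm g W) : X ^ k * f ∈ pm g W := by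
  refine pm_induction (P := fun f => X ^ k * f ∈ pm g W) ?_ ?_ ?_ ?_ hf
  · intro i w hw
    rw [← mul_assoc, ← pow_add]
    exact gen_mem_pm _ hw
  · simp
  · intro f f' h h'
    rw [mul_add]; exact add_mem h h'
  · intro f h
    rw [mul_neg]; exact neg_mem h

theorem pm_mono (h : W ≤ W') : pm g W ≤ pm g W' :=
  AddSubgroup.closure_mono fun _ ⟨i, w, hw, hf⟩ => ⟨i, w, h hw, hf⟩

theorem coeff_mem_of_mem_pm (h : ∀ w ∈ W, ∀ i, (g w).coeff i ∈ L) {f : R[X]} (hf : f ∈ pm g W)
    (i : ℕ) : f.coeff i ∈ L := by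
  refine pm_induction (P := fun f => f.coeff i ∈ L) ?_ ?_ ?_ ?_ hf
  · intro j w hw
    rw [coeff_X_pow_mul']
    split_ifs
    · exact h w hw _
    · exact zero_mem _
  · simp
  · intro f f' h h'
    rw [coeff_add]; exact add_mem h h'
  · intro f h
    rw [coeff_neg]; exact neg_mem h

theorem natDegree_X_pow_mul_le {f : R[X]} {n : ℕ} (h : f.natDegree ≤ n) (k : ℕ) :
    (X ^ k * f).natDegree ≤ n + k :=
  natDegree_mul_le.trans (by have := natDegree_X_pow_le (R := R) k; omega)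

/-- The leading coefficients of the elements of `pm g W`. -/
noncomputable def lim (g : R →+ R[X]) (W : AddSubgroup R) : AddSubgroup R where
  carrier := {c | ∃ n : ℕ, ∃ f ∈ pm g W, f.natDegree ≤ n ∧ f.coeff n = c}
  zero_mem' := ⟨0, 0, zero_mem _, by simp, by simp⟩
  neg_mem' := by
    rintro _ ⟨n, f, hf, h, rfl⟩
    exact ⟨n, -f, neg_mem hf, by simpa using h, by simp⟩
  add_mem' := by
    rintro _ _ ⟨n, f, hf, h, rfl⟩ ⟨m, f', hf', h', rfl⟩
    refine ⟨n + m, X ^ m * f + X ^ n * f', add_mem (X_pow_mul_mem _ hf) (X_pow_mul_mem _ hf'),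
      natDegree_add_le_of_degree_le (natDegree_X_pow_mul_le h m)
        ((natDegree_X_pow_mul_le h' n).trans (by omega)), ?_⟩
    rw [coeff_add, coeff_X_pow_mul, add_comm n m, coeff_X_pow_mul]

theorem coeff_mem_lim {f : R[X]} (hf : f ∈ pm g W) {n : ℕ} (h : f.natDegree ≤ n) :
    f.coeff n ∈ lim g W := ⟨n, f, hf, h, rfl⟩

theorem lim_mono (h : W ≤ W') : lim g W ≤ lim g W' :=
  fun _ ⟨n, f, hf, h'⟩ => ⟨n, f, pm_mono h hf, h'⟩

theorem lim_le (h : ∀ w ∈ W, ∀ i, (g w).coeff i ∈ L) : lim g W ≤ L := by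
  rintro _ ⟨n, f, hf, -, rfl⟩
  exact coeff_mem_of_mem_pm h hf n

theorem lim_mul_lim (h : ∀ w ∈ W, ∀ w' ∈ W', g w * g' w' = 0) {c c' : R} (hc : c ∈ lim g W)
    (hc' : c' ∈ lim g' W') : c * c' = 0 := by
  obtain ⟨n, f, hf, hn, rfl⟩ := hc
  obtain ⟨m, f', hf', hm, rfl⟩ := hc'
  have h0 : f * f' = 0 := by
    refine pm_induction (P := fun f => f * f' = 0) ?_ (zero_mul _) ?_ ?_ hf
    · intro i w hw
      refine pm_induction (P := fun f' => X ^ i * g w * f' = 0) ?_ (mul_zero _) ?_ ?_ hf'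
      · intro j w' hw'
        rw [X_pow_mul (p := g' w'), mul_assoc, ← mul_assoc (g w), h w hw w' hw']
        simp
      · intro a b ha hb
        rw [mul_add, ha, hb, add_zero]
      · intro a ha
        rw [mul_neg, ha, neg_zero]
    · intro a b ha hb
      rw [add_mul, ha, hb, add_zero]
    · intro a ha
      rw [neg_mul, ha, neg_zero]
  rw [← coeff_mul_add_eq_of_natDegree_le hn hm, h0, coeff_zero]

/-- The elements of `pm g W` of degree less than `n`. -/
noncomputable def pmLT (g : R →+ R[X]) (W : AddSubgroup R) (n : ℕ) : AddSubgroup R[X] :=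
  pm g W ⊓ (degreeLT R n).toAddSubgroup

theorem mem_pmLT {n : ℕ} {f : R[X]} :
    f ∈ pmLT g W n ↔ f ∈ pm g W ∧ ∀ i, n ≤ i → f.coeff i = 0 := by
  rw [pmLT, AddSubgroup.mem_inf, Submodule.mem_toAddSubgroup, mem_degreeLT,
    degree_lt_iff_coeff_zero]

theorem card_pmLT_le [Finite R] (n : ℕ) :
    Finite (pmLT g W n) ∧ Nat.card (pmLT g W n) ≤ Nat.card (lim g W) ^ n := by
  induction n with
  | zero =>
    have : pmLT g W 0 = ⊥ := by
      rw [eq_bot_iff]
      intro f hf
      exact Polynomial.ext fun i => (mem_pmLT.mp hf).2 i (Nat.zero_le _)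
    rw [this]
    exact ⟨inferInstance, by simp⟩
  | succ n ih =>
    obtain ⟨h1, h2⟩ := ih
    let φ : pmLT g W (n + 1) →+ lim g W :=
      { toFun := fun f => ⟨(f : R[X]).coeff n, coeff_mem_lim (mem_pmLT.mp f.2).1
          (natDegree_le_iff_coeff_eq_zero.mpr fun i hi => (mem_pmLT.mp f.2).2 i hi)⟩
        map_zero' := by simp
        map_add' := fun a b => by simp }
    let ψ : φ.ker → pmLT g W n := fun f => ⟨f.1, mem_pmLT.mpr ⟨(mem_pmLT.mp f.1.2).1, fun i hi => by
      rcases hi.eq_or_lt with rfl | hi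
      · exact congrArg Subtype.val f.2
      · exact (mem_pmLT.mp f.1.2).2 i hi⟩⟩
    have hψ : Function.Injective ψ := fun a b h =>
      Subtype.ext (Subtype.ext (congrArg (fun x : pmLT g W n => (x : R[X])) h))
    have hk : Finite φ.ker := Finite.of_injective ψ hψ
    have hq : Finite (pmLT g W (n + 1) ⧸ φ.ker) :=
      Finite.of_equiv _ (QuotientAddGroup.quotientKerEquivRange φ).symm.toEquiv
    refine ⟨Finite.of_addSubgroup_quotient φ.ker, ?_⟩
    rw [AddSubgroup.card_eq_card_quotient_mul_card_addSubgroup φ.ker, pow_succ',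
      Nat.card_congr (QuotientAddGroup.quotientKerEquivRange φ).toEquiv]
    exact Nat.mul_le_mul (AddSubgroup.card_le_card_addGroup _)
      ((Nat.card_le_card_of_injective ψ hψ).trans h2)

theorem pow_le_card_pmLT [Finite R] {d : ℕ} (h0 : ∀ w, (g w).coeff 0 = w)
    (hd : ∀ w, (g w).natDegree ≤ d) (n : ℕ) :
    Nat.card W ^ n ≤ Nat.card (pmLT g W (n + d)) := by
  induction n with
  | zero =>
    have := (card_pmLT_le (g := g) (W := W) (0 + d)).1
    exact Nat.card_pos
  | succ n ih =>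
    have := (card_pmLT_le (g := g) (W := W) (n + 1 + d)).1
    let φ : W × pmLT g W (n + d) → pmLT g W (n + 1 + d) := fun x =>
      ⟨g x.1 + X * (x.2 : R[X]), mem_pmLT.mpr ⟨add_mem (by simpa using gen_mem_pm (g := g) 0 x.1.2)
        (by simpa using X_pow_mul_mem 1 (mem_pmLT.mp x.2.2).1), fun i hi => by
          obtain ⟨j, rfl⟩ : ∃ j, i = j + 1 := ⟨i - 1, by omega⟩
          rw [coeff_add, coeff_X_mul, (mem_pmLT.mp x.2.2).2 j (by omega),
            coeff_eq_zero_of_natDegree_lt ((hd _).trans_lt (by omega)), add_zero]⟩⟩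
    have hφ : Function.Injective φ := by
      rintro ⟨a, f⟩ ⟨b, f'⟩ h
      have h1 : g a + X * (f : R[X]) = g b + X * (f' : R[X]) := congrArg Subtype.val h
      have h2 : (a : R) = b := by
        have := congrArg (fun q => coeff q 0) h1
        simpa [h0] using this
      rw [h2, add_right_inj] at h1
      refine Prod.ext (Subtype.ext h2) (Subtype.ext (Polynomial.ext fun i => ?_))
      have := congrArg (fun q => coeff q (i + 1)) h1
      simpa [coeff_X_mul] using this
    have := Nat.card_le_card_of_injective φ hφ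
    rw [Nat.card_prod] at this
    rw [pow_succ']
    exact (Nat.mul_le_mul_left _ ih).trans this

theorem le_of_pow_le {a b d : ℕ} (ha : 0 < a) (h : ∀ n, b ^ n ≤ a ^ (n + d)) : b ≤ a := by
  by_contra hab
  push Not at hab
  have key : ∀ n, a ^ n * (a + n) ≤ a * b ^ n := by
    intro n
    induction n with
    | zero => simp
    | succ n ih =>
      calc a ^ (n + 1) * (a + (n + 1)) = a ^ n * (a * (a + n + 1)) := by ring
        _ ≤ a ^ n * ((a + n) * (a + 1)) := Nat.mul_le_mul_left _ (by nlinarith)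
        _ = a ^ n * (a + n) * (a + 1) := by ring
        _ ≤ a * b ^ n * b := Nat.mul_le_mul ih hab
        _ = a * b ^ (n + 1) := by ring
  have h1 := (key (a ^ (d + 1))).trans (Nat.mul_le_mul_left a (h _))
  have h2 : a * a ^ (a ^ (d + 1) + d) = a ^ a ^ (d + 1) * a ^ (d + 1) := by ring
  rw [h2] at h1
  have := Nat.le_of_mul_le_mul_left h1 (by positivity)
  omega

theorem card_le_card_lim [Finite R] {d : ℕ} (h0 : ∀ w, (g w).coeff 0 = w)
    (hd : ∀ w, (g w).natDegree ≤ d) (W : AddSubgroup R) : Nat.card W ≤ Nat.card (lim g W) :=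
  le_of_pow_le (d := d) Nat.card_pos fun n => (pow_le_card_pmLT h0 hd n).trans (card_pmLT_le _).2

/-- If `C ≤ W` is invariant and `w ∈ W` has all higher coefficients not in `C`, the limit of `W`
contains `C` and one of these coefficients. -/
theorem exists_coeff_mem_lim [Finite R] (h0 : ∀ w, (g w).coeff 0 = w)
    (hd : ∀ w, (g w).natDegree ≤ 2) {C : AddSubgroup R} (hC : C ≤ W)
    (hinv : ∀ c ∈ C, ∀ i, (g c).coeff i ∈ C) {w : R} (hw : w ∈ W)
    (h : ¬ ((g w).coeff 1 ∈ C ∧ (g w).coeff 2 ∈ C)) :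
    C ≤ lim g W ∧ ∃ i, 0 < i ∧ (g w).coeff i ∈ lim g W ∧ (g w).coeff i ∉ C := by
  have h1 : lim g C = C :=
    AddSubgroup.eq_of_le_of_card_ge (lim_le hinv) (card_le_card_lim h0 hd C)
  have h2 : C ≤ lim g W := h1.ge.trans (lim_mono hC)
  refine ⟨h2, ?_⟩
  have hgw : g w ∈ pm g W := by simpa using gen_mem_pm (g := g) 0 hw
  by_cases h3 : (g w).coeff 2 ∈ C
  swap
  · exact ⟨2, two_pos, coeff_mem_lim hgw (hd w), h3⟩
  refine ⟨1, one_pos, ?_, fun h4 => h ⟨h4, h3⟩⟩
  obtain ⟨n, f, hf, hn, hfn⟩ := h1.ge h3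
  have h4 : X ^ n * g w - X ^ 2 * f ∈ pm g W :=
    sub_mem (gen_mem_pm _ hw) (X_pow_mul_mem _ (pm_mono hC hf))
  have h5 : (X ^ n * g w - X ^ 2 * f).natDegree ≤ 1 + n := by
    rw [natDegree_le_iff_coeff_eq_zero]
    intro N hN
    obtain ⟨j, rfl⟩ : ∃ j, N = 2 + j + n := ⟨N - (2 + n), by omega⟩
    rw [coeff_sub, coeff_X_pow_mul, show 2 + j + n = n + j + 2 by omega, coeff_X_pow_mul]
    rcases Nat.eq_zero_or_pos j with rfl | hj
    · simp [hfn]
    · rw [coeff_eq_zero_of_natDegree_lt ((hd w).trans_lt (by omega)),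
        coeff_eq_zero_of_natDegree_lt (hn.trans_lt (by omega)), sub_zero]
  have h6 := coeff_mem_lim h4 h5
  rw [coeff_sub, coeff_X_pow_mul] at h6
  have h7 : (X ^ 2 * f).coeff (1 + n) ∈ C :=
    coeff_mem_of_mem_pm hinv (X_pow_mul_mem _ hf) _
  simpa using add_mem h6 (h2 h7)

end Cfsg.Lib.Trans.Lim
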